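import Mathlib
import Cfsg.Agent.R2.T1.Inf.Cen
import Cfsg.Agent.H944.E7Two

/-!
# Representatives of the elements of finite order in the alcove (helper25)

* `exists_alc` : an element of `Gh K` which is conjugate to an element of order dividing `N` of the torus is conjugate to
  `Phi K c` with `rtv (chevE7.simple i) c = z ^ y i` and `∑ i, θ i * y i ≤ N`.
-/

set_option autoImplicit false
set_option maxRecDepth 100000

namespace Cfsg.Agent.R2.T1.Five

open Cfsg Cfsg.Lie Module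
open Cfsg.Agent.ChevalleyStructure.CoxeterGeom Cfsg.Agent.Tits.Roots
  Cfsg.Agent.Nodes.RGDChev
open Cfsg.Agent.ChevalleyStructure Cfsg.Agent.ChevalleyStructure.Elts
  Cfsg.Agent.ChevalleyStructure.RootVec Cfsg.Agent.ChevalleyStructure.RootVecTab
  Cfsg.Agent.ChevalleyStructure.NPerm Cfsg.Agent.ChevalleyStructure.CoxeterGeomTypes
open Cfsg.Agent.ChevalleyStructure.StBasic Cfsg.Agent.H129.StCover
open Cfsg.Agent.H944.RootVals Cfsg.Agent.H944.Kac Cfsg.Agent.H944.Tab Cfsg.Agent.H944.E7Two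
open Cfsg.Agent.R2.T1

universe u

variable {K : Type u} [Field K]

section exps

variable {N : ℕ} [NeZero N] {z : Kˣ}

theorem zpow_val (hz : z ^ N = 1) (m : ℤ) : z ^ m = z ^ ((m : ZMod N).val) := by
  rw [← zpow_natCast, ZMod.val_intCast]
  have h1 : z ^ (N : ℤ) = 1 := by rw [zpow_natCast]; exact hz
  conv_lhs => rw [← Int.emod_add_mul_ediv m N]
  rw [zpow_add, zpow_mul, h1, one_zpow, mul_one]

theorem pow_val (hz : z ^ N = 1) (m : ℕ) : z ^ m = z ^ ((m : ZMod N).val) := by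
  have h := zpow_val hz (m : ℤ)
  rw [zpow_natCast] at h
  rw [h]
  congr 2
  push_cast
  rfl

theorem val_sub_mul (hz : z ^ N = 1) (a b : ZMod N) (m : ℤ) :
    z ^ (a - (m : ZMod N) * b).val = z ^ a.val * (z ^ b.val)⁻¹ ^ m := by
  have h := zpow_val hz ((a.val : ℤ) - m * b.val)
  have e : (((a.val : ℤ) - m * b.val : ℤ) : ZMod N) = a - (m : ZMod N) * b := by
    push_cast
    rw [ZMod.natCast_zmod_val, ZMod.natCast_zmod_val]
  rw [e] at h
  rw [← h, zpow_sub, zpow_natCast, inv_zpow]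
  congr 2
  rw [← zpow_natCast z b.val, ← zpow_mul, mul_comm]

end exps

/-- the action of a simple reflection on the values of the roots -/
theorem rtv_sAct (j : Fin chevE7.rank) (s : ℕ) (c : Fin chevE7.rank → Kˣ) :
    rtv s (sAct chevE7 K j c) = rtv s c * (rtv (chevE7.simple j) c)⁻¹ ^ chevE7.cartan j s := by
  unfold rtv
  have h1 : ∀ i : Fin chevE7.rank, sAct chevE7 K j c i ^ chevE7.cartan i s = c i ^ chevE7.cartan i s *
      (if i = j then (∏ m, c m ^ chevE7.cartan m (chevE7.simple j))⁻¹ ^ chevE7.cartan j s else 1) := by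
    intro i
    show (if i = j then _ else _) ^ _ = _
    split_ifs with h
    · subst h
      rw [mul_zpow]
    · rw [mul_one]
  rw [Finset.prod_congr rfl fun i _ => h1 i, Finset.prod_mul_distrib]
  congr 1
  rw [Finset.prod_ite_eq' Finset.univ j, if_pos (Finset.mem_univ _)]

/-- **Representatives in the alcove.** -/
theorem exists_alc {N : ℕ} (hN : 0 < N) {z : Kˣ} (hz : IsPrimitiveRoot z N) {x : Gh K}
    (h : ∃ (g : Gh K) (c : Fin chevE7.rank → Kˣ), Phi K c = g * x * g⁻¹ ∧ c ^ N = 1) :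
    ∃ (g : Gh K) (c : Fin chevE7.rank → Kˣ) (y : Fin 7 → ℕ), Phi K c = g * x * g⁻¹ ∧ c ^ N = 1 ∧
      (∀ i : Fin 7, rtv (chevE7.simple i) c = z ^ y i) ∧ dotN th7 (List.ofFn y) ≤ N := by
  have : NeZero N := ⟨hN.ne'⟩
  have hzN := hz.pow_eq_one
  let P : (Fin 7 → ZMod N) → Prop := fun v => ∃ (g : Gh K) (c : Fin chevE7.rank → Kˣ), Phi K c = g * x * g⁻¹ ∧
    c ^ N = 1 ∧ ∀ i : Fin 7, rtv (chevE7.simple i) c = z ^ (v i).val
  have hP : ∀ v j, P v → P (srefl chevE7 7 j v) := by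
    rintro v j ⟨g, c, h1, h2, h3⟩
    let j' : Fin chevE7.rank := j
    refine ⟨stn chevE7 (chevE7.simple j') (1 : K) * g, sAct chevE7 K j' c, ?_, ?_, fun i => ?_⟩
    · rw [← conj_n_phi e7T.inList isPhi, h1]
      group
    · rw [← map_pow, h2, map_one]
    · refine (rtv_sAct j' _ c).trans ?_
      rw [h3 i]
      have h4 : rtv (chevE7.simple j') c = z ^ (v j).val := h3 j
      rw [h4, ← val_sub_mul hzN]
      rfl
  obtain ⟨g, c, h1, h2⟩ := h
  have hex : ∀ j : Fin 7, ∃ a : ℕ, z ^ a = rtv (chevE7.simple j) c := by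
    intro j
    have h3 : rtv (chevE7.simple j) c ^ N = 1 := by
      unfold rtv
      rw [← Finset.prod_pow]
      refine Finset.prod_eq_one fun i _ => ?_
      rw [← zpow_natCast, ← zpow_mul, mul_comm, zpow_mul, zpow_natCast]
      have h4 : c i ^ N = 1 := congrFun h2 i
      rw [h4, one_zpow]
    have hz' : IsPrimitiveRoot (z : K) N := IsPrimitiveRoot.coe_units_iff.2 hz
    have h5 : ((rtv (chevE7.simple j) c : Kˣ) : K) ^ N = 1 := by rw [← Units.val_pow_eq_pow_val, h3, Units.val_one]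
    obtain ⟨a, -, ha⟩ := hz'.eq_pow_of_pow_eq_one h5
    exact ⟨a, Units.ext (by rw [Units.val_pow_eq_pow_val, ha])⟩
  choose a ha using hex
  have h0 : P fun i => ((a i : ℕ) : ZMod N) := ⟨g, c, h1, h2, fun i => by rw [← ha i]; exact pow_val hzN _⟩
  obtain ⟨y, ⟨g', c', h3, h4, h5⟩, hθ⟩ := exists_alcove e7T (N := N) hN _ _ 36 (by norm_num) theta7
    (by decide) _ pos7 P hP h0
  refine ⟨g', c', y, h3, h4, fun i => ?_, ?_⟩
  · rw [h5 i, ← pow_val hzN]
  · rw [dotN_eq 7 th7 _ (by decide)]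
    have h2 : ∑ i : Fin 7, th7.getD i 0 * (List.ofFn y).getD i 0 = ∑ i : Fin 7, th7.getD i 0 * y i :=
      Finset.sum_congr rfl fun i _ => by
        congr 1
        rw [List.getD_eq_getElem _ _ (by rw [List.length_ofFn]; exact i.2), List.getElem_ofFn]
    rw [h2]
    simp only [Fin.sum_univ_seven, Matrix.cons_val] at hθ ⊢
    simp only [th7, List.getD_cons_zero, List.getD_cons_succ, Fin.val_zero, Fin.val_one, Fin.val_two] at hθ ⊢
    norm_num at hθ ⊢
    omega

end Cfsg.Agent.R2.T1.Five
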