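import Mathlib
import Cfsg.Agent.R2.T1.Five.InvTab
import Cfsg.Agent.R2.T1.Inf.LMat

/-!
# The roots attached to the involutions with 32 fixed weights: the tables (helper25)

* `pr β s` : the value of the coroot of `β` on the root `s`;
* `BL` : the two roots;
* `inv_chk`, `pr_cases`, `pr_F7`, `HH_chk`.
-/

set_option autoImplicit false
set_option maxRecDepth 100000

namespace Cfsg.Agent.R2.T1.Five

open Cfsg Cfsg.Lie
open Cfsg.Agent.ChevalleyStructure Cfsg.Agent.ChevalleyStructure.Columns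
open Cfsg.Agent.H944.Tab Cfsg.Agent.H944.E7Two
open Cfsg.Agent.R2.T1

/-- the value of the coroot of `β` on the root `s` -/
def pr (β s : ℕ) : ℤ := ∑ i : Fin 7, cor chevE7 β i.val * car chevE7 i.val s

/-- the highest root and a simple root -/
def BL : List ℕ := [125, 63]

theorem BL_cases {β : ℕ} (h : β ∈ BL) : β = 125 ∨ β = 63 := by
  simpa [BL] using h

theorem BL_lt {β : ℕ} (h : β ∈ BL) : β < 126 := by
  rcases BL_cases h with rfl | rfl <;> norm_num

/-- the involutions of the torus with 32 fixed weights in the alcove -/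
theorem inv_chk : ∀ m < 128, (TW.filter (ev2 (bits m))).length = 32 →
    ((List.range 7).map fun i => if ev2 (bits m) (rowR (chevE7.simple i)) then 0 else th7.getD i 0).sum ≤ 2 →
    m = 84 ∨ m = 64 := by decide +kernel

theorem bits_125 : ∀ i < 7, 84 / 2 ^ i % 2 = (cor chevE7 125 i % 2).toNat := by decide +kernel
theorem bits_63 : ∀ i < 7, 64 / 2 ^ i % 2 = (cor chevE7 63 i % 2).toNat := by decide +kernel

theorem pr_cases : ∀ β ∈ BL, ∀ s < 126, (pr β s = 0 ∧ s ≠ β ∧ s ≠ 125 - β) ∨ ((pr β s = 1 ∨ pr β s = -1) ∧ s ≠ β ∧ s ≠ 125 - β)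
    ∨ (pr β s = 2 ∧ s = β) ∨ (pr β s = -2 ∧ s = 125 - β) := by decide +kernel

theorem pr_F7 : ∀ β ∈ BL, ∀ s < 126, pr β s = 0 → F7 β s = [] ∧ F7 (125 - β) s = [] := by decide +kernel

theorem pr_symm : ∀ β ∈ BL, ∀ s < 126, pr s β = pr β s := by decide +kernel

theorem car_neg7 : ∀ i < 7, ∀ s < 126, car chevE7 i (125 - s) = - car chevE7 i s := by decide +kernel

theorem cor_neg7 : ∀ i < 7, ∀ s < 126, cor chevE7 (125 - s) i = - cor chevE7 s i := by decide +kernel

/-- the sign -/
def sgn (β s : ℕ) : ℤ := if pr β s % 2 = 0 then 1 else -1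

theorem HH_chk : ∀ β ∈ BL, ∀ i < 7, ∀ j < 7,
    ((List.range 126).map fun s => sgn β s * (car chevE7 i s * car chevE7 j s)).sum =
      4 * car chevE7 i (chevE7.simple j) - 16 * (car chevE7 i β * car chevE7 j β) := by decide +kernel

theorem sum_range_126 (f : ℕ → ℤ) : ∑ s : Fin 126, f s.val = ((List.range 126).map f).sum := by
  rw [Fin.sum_univ_eq_sum_range f 126]
  rfl

theorem HH {β : ℕ} (h : β ∈ BL) {i j : ℕ} (hi : i < 7) (hj : j < 7) :
    ∑ s : Fin 126, sgn β s.val * (car chevE7 i s.val * car chevE7 j s.val) =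
      4 * car chevE7 i (chevE7.simple j) - 16 * (car chevE7 i β * car chevE7 j β) := by
  rw [← HH_chk β h i hi j hj, sum_range_126 fun s => sgn β s * (car chevE7 i s * car chevE7 j s)]

end Cfsg.Agent.R2.T1.Five
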