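import Mathlib
import Cfsg.Agent.R2.T1.Inf.Cen
import Cfsg.Agent.S2158
import Cfsg.Agent.ChevalleyStructure.JacAll

/-!
# Elements fixing the Cartan subalgebra pointwise (helper25)

* `L_Phi` : the action of the torus on the adjoint module;
* `exists_Phi_of_fix` : if `(2 : K) ≠ 0`, an element of `Gh K` which fixes the Cartan subalgebra pointwise is in the torus.
-/

set_option autoImplicit false
set_option maxRecDepth 100000

namespace Cfsg.Agent.R2.T1.Five

open Cfsg Cfsg.Lie Module Matrix
open Cfsg.Agent.ChevalleyStructure Cfsg.Agent.ChevalleyStructure.Elts Cfsg.Agent.ChevalleyStructure.RootVec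
  Cfsg.Agent.ChevalleyStructure.RootVecTab Cfsg.Agent.ChevalleyStructure.CoxeterGeomTypes
open Cfsg.Agent.ChevalleyStructure.StBasic Cfsg.Agent.ChevalleyStructure.StTheta Cfsg.Agent.H129.StCover
open Cfsg.Agent.ChevalleyStructure.LieAbs Cfsg.Agent.ChevalleyStructure.LieAut Cfsg.Agent.ChevalleyStructure.JacMain
open Cfsg.Agent.ChevalleyStructure.JacAll Cfsg.Agent.ChevalleyStructure.Ring Cfsg.Agent.ChevalleyStructure.Columns
open Cfsg.Agent.KFacts.RgdChevCoord
open Cfsg.Agent.R2.T1

universe u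

variable {K : Type u} [Field K]

/-! ### the action of the torus -/

/-- the diagonal matrices of the adjoint module -/
def dgL (K : Type u) [Field K] : (Fin chevE7.rank → Kˣ) →* Matrix chevE7.Idx chevE7.Idx K where
  toFun a := Matrix.diagonal (Sum.elim (fun _ => (1 : K)) fun s : Fin chevE7.nroots => ((rtv s a : Kˣ) : K))
  map_one' := by
    rw [← Matrix.diagonal_one]
    congr 1
    funext s
    rcases s with s | s
    · rfl
    · simp [rtv]
  map_mul' a b := by
    rw [Matrix.diagonal_mul_diagonal]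
    congr 1
    funext s
    rcases s with s | s
    · simp
    · show ((rtv s (a * b) : Kˣ) : K) = ((rtv s a : Kˣ) : K) * ((rtv s b : Kˣ) : K)
      unfold rtv
      rw [← Units.val_mul, ← Finset.prod_mul_distrib]
      congr 1
      refine Finset.prod_congr rfl fun i _ => ?_
      rw [Pi.mul_apply, mul_zpow]

theorem inl7 : chevE7 ∈ [chevG2, chevB2, chevD4, chevF4, chevE6, chevE7, chevE8] := by simp

theorem dgL_single (j : Fin chevE7.rank) (x : Kˣ) : dgL K (Pi.mulSingle j x) =
    Matrix.diagonal (Sum.elim (fun _ => (1 : K)) fun s : Fin chevE7.nroots => (x : K) ^ chevE7.cartan j s) := by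
  show Matrix.diagonal _ = _
  congr 1
  funext s
  rcases s with s | s
  · rfl
  · show ((rtv s (Pi.mulSingle j x) : Kˣ) : K) = (x : K) ^ chevE7.cartan j s
    unfold rtv
    rw [Finset.prod_eq_single j]
    · rw [Pi.mulSingle_eq_same, Units.val_zpow_eq_zpow_val]
    · intro i _ hij
      rw [Pi.mulSingle_eq_of_ne hij, _root_.one_zpow]
    · intro h
      exact absurd (Finset.mem_univ j) h

/-- the matrix of an element of the torus on the adjoint module -/
theorem ad_Phi (a : Fin chevE7.rank → Kˣ) : (((ad K (Phi K a) : ↥(chevE7.group K)) : GL chevE7.Idx K) :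
    Matrix chevE7.Idx chevE7.Idx K) = dgL K a := by
  let f : (Fin chevE7.rank → Kˣ) →* Matrix chevE7.Idx chevE7.Idx K :=
    (Units.coeHom (Matrix chevE7.Idx chevE7.Idx K)).comp ((chevE7.group K).subtype.comp ((ad K).comp (Phi K)))
  have h : f = dgL K := by
    apply MonoidHom.pi_ext
    intro j x
    rw [dgL_single]
    show (((ad K (Phi K (Pi.mulSingle j x)) : ↥(chevE7.group K)) : GL chevE7.Idx K) :
      Matrix chevE7.Idx chevE7.Idx K) = _
    rw [isPhi.single]
    rw [← Cfsg.Agent.S1033.result (F := K) chevE7 inl7 j j.2 (x : K) x.ne_zero]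
    show (((theta Cfsg.Agent.H944.E7Two.e7T.inList K (sth chevE7 (chevE7.simple j) (x : K)) : ↥(chevE7.group K)) :
      GL chevE7.Idx K) : Matrix chevE7.Idx chevE7.Idx K) = _
    rw [theta_sth (theta Cfsg.Agent.H944.E7Two.e7T.inList K)
      (fun r t _ => StTheta.theta_stGen Cfsg.Agent.H944.E7Two.e7T.inList r t)]
  exact DFunLike.congr_fun h a

theorem L_Phi (a : Fin chevE7.rank → Kˣ) (X : chevE7.Idx → K) (i : chevE7.Idx) :
    L K (Phi K a) X i = Sum.elim (fun _ => (1 : K)) (fun s : Fin chevE7.nroots => ((rtv s a : Kˣ) : K)) i * X i := by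
  rw [L_eq, LK_apply, ad_Phi]
  show (Matrix.diagonal _ *ᵥ X) i = _
  rw [Matrix.mulVec_diagonal]

/-! ### separation of the roots -/

/-- the values of the simple coroots on the root `r`, modulo 3, as a number -/
def code3 (r : ℕ) : ℕ := (List.range 7).foldl (fun a j => 3 * a + ((car chevE7 j r) % 3).toNat) 0

theorem codes_nodup : ((List.range 126).map code3).Nodup := by decide +kernel

theorem codes_pos : ∀ r < 126, code3 r ≠ 0 := by decide +kernel

theorem car_bound : ∀ r < 126, ∀ j < 7, -2 ≤ car chevE7 j r ∧ car chevE7 j r ≤ 2 := by decide +kernel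

theorem foldl_congr (f g : ℕ → ℕ) : ∀ (l : List ℕ) (_ : ∀ j ∈ l, f j = g j) (a : ℕ),
    l.foldl (fun a j => 3 * a + f j) a = l.foldl (fun a j => 3 * a + g j) a
  | [], _, _ => rfl
  | j :: l, h, a => by
    rw [List.foldl_cons, List.foldl_cons, h j List.mem_cons_self]
    exact foldl_congr f g l (fun i hi => h i (List.mem_cons_of_mem _ hi)) _

theorem code_inj {s u : ℕ} (hs : s < 126) (hu : u < 126) (h : code3 s = code3 u) : s = u := by
  have h1 := codes_nodup
  have hs' : s < ((List.range 126).map code3).length := by simpa using hs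
  have hu' : u < ((List.range 126).map code3).length := by simpa using hu
  have h2 := (List.Nodup.getElem_inj_iff h1 (hi := hs') (hj := hu')).1
  apply h2
  simp only [List.getElem_map, List.getElem_range]
  exact h

/-- the integers which are not zero modulo odd primes -/
theorem small_ne (h2 : (2 : K) ≠ 0) {m : ℤ} (hm : -4 ≤ m) (hm' : m ≤ 4) (h3 : m % 3 ≠ 0) : (m : K) ≠ 0 := by
  have h4 : m = -4 ∨ m = -2 ∨ m = -1 ∨ m = 1 ∨ m = 2 ∨ m = 4 := by omega
  have h5 : (4 : K) ≠ 0 := by
    have : (4 : K) = 2 * 2 := by norm_num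
    rw [this]
    exact mul_ne_zero h2 h2
  rcases h4 with rfl | rfl | rfl | rfl | rfl | rfl
  · push_cast; exact neg_ne_zero.2 h5
  · push_cast; exact neg_ne_zero.2 h2
  · push_cast; exact neg_ne_zero.2 one_ne_zero
  · push_cast; exact one_ne_zero
  · push_cast; exact h2
  · push_cast; exact h5

theorem sep (h2 : (2 : K) ≠ 0) {r s : ℕ} (hr : r < 126) (hs : s < 126) (h : r ≠ s) :
    ∃ j < 7, ((car chevE7 j r : ℤ) : K) ≠ ((car chevE7 j s : ℤ) : K) := by
  by_contra hne
  push Not at hne
  apply h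
  apply code_inj hr hs
  refine foldl_congr _ _ _ (fun j hj => ?_) 0
  have hj' := List.mem_range.1 hj
  have h1 := hne j hj'
  by_contra h3
  have h4 : (car chevE7 j r - car chevE7 j s) % 3 ≠ 0 := fun h5 => h3 (by
    have : car chevE7 j r % 3 = car chevE7 j s % 3 := by omega
    rw [this])
  obtain ⟨b1, b2⟩ := car_bound r hr j hj'
  obtain ⟨b3, b4⟩ := car_bound s hs j hj'
  have h5 := small_ne (K := K) h2 (m := car chevE7 j r - car chevE7 j s) (by omega) (by omega) h4
  apply h5
  push_cast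
  rw [h1, sub_self]

theorem sep0 (h2 : (2 : K) ≠ 0) {r : ℕ} (hr : r < 126) : ∃ j < 7, ((car chevE7 j r : ℤ) : K) ≠ 0 := by
  by_contra hne
  push Not at hne
  apply codes_pos r hr
  have h0 : code3 r = (List.range 7).foldl (fun a j => 3 * a + (fun _ => 0) j) 0 := by
    refine foldl_congr _ _ _ (fun j hj => ?_) 0
    have hj' := List.mem_range.1 hj
    have h1 := hne j hj'
    obtain ⟨b1, b2⟩ := car_bound r hr j hj'
    by_contra h3
    have h4 : car chevE7 j r % 3 ≠ 0 := fun h5 => h3 (by rw [h5]; rfl)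
    exact small_ne (K := K) h2 (by omega) (by omega) h4 h1
  rw [h0]
  decide

/-! ### diagonal elements -/

theorem adR_inl_apply (i : Fin chevE7.rank) (a b : chevE7.Idx) : adR chevE7 K (Sum.inl i) a b =
    if a = b then Sum.elim (fun _ => (0 : K)) (fun s : Fin chevE7.nroots => ((car chevE7 i s.val : ℤ) : K)) a else 0 := by
  rw [adR_def, Matrix.map_apply, adA_inl, adH, Matrix.diagonal_apply]
  split_ifs with h
  · rcases a with a | a
    · simp
    · simp
  · simp

/-- an element fixing the Cartan subalgebra is diagonal -/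
theorem diag_of_fix (h2 : (2 : K) ≠ 0) {g : GL chevE7.Idx K} (hg : g ∈ chevE7.group K)
    (h : ∀ i : Fin chevE7.rank, (g : Matrix chevE7.Idx chevE7.Idx K) *ᵥ Pi.single (Sum.inl i) 1 =
      Pi.single (Sum.inl i) 1) : (g : Matrix chevE7.Idx chevE7.Idx K) = Matrix.diagonal
        (Sum.elim (fun _ => (1 : K)) fun s : Fin chevE7.nroots => (g : Matrix chevE7.Idx chevE7.Idx K) (Sum.inr s) (Sum.inr s)) := by
  have key : ∀ (i : Fin chevE7.rank) (a b : chevE7.Idx), (g : Matrix chevE7.Idx chevE7.Idx K) a b *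
      Sum.elim (fun _ => (0 : K)) (fun s : Fin chevE7.nroots => ((car chevE7 i s.val : ℤ) : K)) b =
      Sum.elim (fun _ => (0 : K)) (fun s : Fin chevE7.nroots => ((car chevE7 i s.val : ℤ) : K)) a *
      (g : Matrix chevE7.Idx chevE7.Idx K) a b := by
    intro i a b
    have h1 := group_mul_adv chevE7 inl7 K g hg (Pi.single (Sum.inl i) 1)
    rw [h i, adv_single_one] at h1
    have h3 := congrFun (congrFun h1 a) b
    rw [Matrix.mul_apply, Matrix.mul_apply, Finset.sum_eq_single b, Finset.sum_eq_single a] at h3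
    · rw [adR_inl_apply, adR_inl_apply, if_pos rfl, if_pos rfl] at h3
      exact h3
    · intro c _ hc
      rw [adR_inl_apply, if_neg (Ne.symm hc), zero_mul]
    · intro hc; exact absurd (Finset.mem_univ _) hc
    · intro c _ hc
      rw [adR_inl_apply, if_neg hc, mul_zero]
    · intro hc; exact absurd (Finset.mem_univ _) hc
  have hcol : ∀ (a : chevE7.Idx) (i : Fin chevE7.rank), (g : Matrix chevE7.Idx chevE7.Idx K) a (Sum.inl i) =
      if a = Sum.inl i then 1 else 0 := by
    intro a i
    have h1 := congrFun (h i) a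
    rw [Matrix.mulVec_single_one, Matrix.col_apply] at h1
    rw [h1, Pi.single_apply]
  ext a b
  rw [Matrix.diagonal_apply]
  rcases b with i | s
  · rw [hcol]
    split_ifs with h3
    · rw [h3]; rfl
    · rfl
  · rcases a with i | r
    · rw [if_neg (by simp)]
      obtain ⟨j, hj, hne⟩ := sep0 (K := K) h2 s.2
      have h3 := key ⟨j, hj⟩ (Sum.inl i) (Sum.inr s)
      simp only [Sum.elim_inl, Sum.elim_inr, zero_mul] at h3
      exact (mul_eq_zero.1 h3).resolve_right hne
    · split_ifs with h3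
      · rw [Sum.inr.inj h3]; rfl
      · have hrs : (r : ℕ) ≠ s := fun e => h3 (congrArg Sum.inr (Fin.ext e))
        obtain ⟨j, hj, hne⟩ := sep (K := K) h2 r.2 s.2 hrs
        have h4 := key ⟨j, hj⟩ (Sum.inr r) (Sum.inr s)
        simp only [Sum.elim_inr] at h4
        have h5 : (g : Matrix chevE7.Idx chevE7.Idx K) (Sum.inr r) (Sum.inr s) *
            (((car chevE7 j r : ℤ) : K) - ((car chevE7 j s : ℤ) : K)) = 0 := by linear_combination -h4
        exact (mul_eq_zero.1 h5).resolve_right (sub_ne_zero.2 hne)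

/-- the check of the structure constants -/
def chkN (r s : ℕ) : Bool := match chevE7.chainRoot r s 1 with
  | none => true
  | some k => decide (k < 126) && decide (s ≠ r) && decide (s ≠ chevE7.negIdx.getD r 0) &&
      (((chevE7.chainCoeff r s k).map fun km => if km.1 = 1 then km.2 else 0).sum == 1 ||
        ((chevE7.chainCoeff r s k).map fun km => if km.1 = 1 then km.2 else 0).sum == -1)

theorem chkN_all : ((List.range 126).all fun r => (List.range 126).all fun s => chkN r s) = true := by decide +kernel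

theorem cor_one : ∀ r < 126, chevE7.negIdx.getD r 0 < 126 ∧ chevE7.negIdx.getD r 0 ≠ r ∧
    ∃ i < 7, (chevE7.coroot.getD r #[]).getD i 0 = 1 ∨ (chevE7.coroot.getD r #[]).getD i 0 = -1 := by decide +kernel

theorem int_pm {m : ℤ} (h : m = 1 ∨ m = -1) : (m : K) ≠ 0 := by
  rcases h with rfl | rfl
  · push_cast; exact one_ne_zero
  · push_cast; exact neg_ne_zero.2 one_ne_zero

/-- a diagonal element of the group fixing the Cartan subalgebra is in the diagonal subgroup -/
theorem mem_diag {g : GL chevE7.Idx K} (hg : g ∈ chevE7.group K) {d : Fin chevE7.nroots → K}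
    (h : (g : Matrix chevE7.Idx chevE7.Idx K) = Matrix.diagonal (Sum.elim (fun _ => (1 : K)) d)) :
    g ∈ chevE7.diagonalSubgroup K := by
  have hd0 : ∀ s, d s ≠ 0 := by
    intro s h0
    have h1 : (g : Matrix chevE7.Idx chevE7.Idx K) * ((g⁻¹ : GL chevE7.Idx K) : Matrix chevE7.Idx chevE7.Idx K) = 1 := by
      rw [← Units.val_mul, mul_inv_cancel, Units.val_one]
    have h2 := congrFun (congrFun h1 (Sum.inr s)) (Sum.inr s)
    rw [h, Matrix.diagonal_mul, Sum.elim_inr, h0, zero_mul, Matrix.one_apply_eq] at h2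
    exact zero_ne_one h2
  let χ : ℕ → Kˣ := fun r => if hr : r < chevE7.nroots then Units.mk0 (d ⟨r, hr⟩) (hd0 _) else 1
  have hχ : ∀ r : Fin chevE7.nroots, ((χ r : Kˣ) : K) = d r := by
    intro r
    show ((if hr : (r : ℕ) < chevE7.nroots then Units.mk0 (d ⟨r, hr⟩) (hd0 _) else 1 : Kˣ) : K) = _
    rw [dif_pos r.2, Units.val_mk0]
  let e : chevE7.Idx → K := Sum.elim (fun _ => (1 : K)) d
  have hmul : ∀ (r : Fin chevE7.nroots) (a b : chevE7.Idx), adR chevE7 K (Sum.inr r) a b ≠ 0 → e a = d r * e b := by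
    intro r a b hne
    have h1 := group_mul_adv chevE7 inl7 K g hg (Pi.single (Sum.inr r) 1)
    have h2 : (g : Matrix chevE7.Idx chevE7.Idx K) *ᵥ Pi.single (Sum.inr r) 1 = Pi.single (Sum.inr r) (d r) := by
      rw [h]
      funext a
      rw [Matrix.mulVec_diagonal, Pi.single_apply, Pi.single_apply]
      split_ifs with h3
      · rw [h3, mul_one]; rfl
      · rw [mul_zero]
    rw [h2, adv_single_one, adv_single, h] at h1
    have h3 := congrFun (congrFun h1 a) b
    rw [Matrix.diagonal_mul, Matrix.mul_diagonal, Matrix.smul_apply, smul_eq_mul] at h3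
    have h4 : (e a - d r * e b) * adR chevE7 K (Sum.inr r) a b = 0 := by
      linear_combination h3
    exact sub_eq_zero.1 ((mul_eq_zero.1 h4).resolve_right hne)
  refine Cfsg.Agent.S2158.result chevE7 inl7 χ ⟨fun r hr => ?_, fun r s k hr hs hk => ?_⟩ g hg ?_
  · obtain ⟨h1, h2, i, hi, h3⟩ := cor_one r hr
    have h4 : adR chevE7 K (Sum.inr ⟨r, hr⟩) (Sum.inl ⟨i, hi⟩) (Sum.inr ⟨chevE7.negIdx.getD r 0, h1⟩) ≠ 0 := by
      rw [adR_def, Matrix.map_apply, adA_inr, coefE_entry chevE7 r 1 hr]
      simp only [if_neg h2, if_true]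
      exact int_pm h3
    have h5 := hmul _ _ _ h4
    apply Units.ext
    have h6 : chevE7.neg r = chevE7.negIdx.getD r 0 := rfl
    rw [h6]
    have e1 := hχ ⟨chevE7.negIdx.getD r 0, h1⟩
    have e2 := hχ ⟨r, hr⟩
    change ((χ (chevE7.negIdx.getD r 0) : Kˣ) : K) = _ at e1
    change ((χ r : Kˣ) : K) = _ at e2
    rw [e1, Units.val_inv_eq_inv_val, e2]
    change (1 : K) = d ⟨r, hr⟩ * d ⟨chevE7.negIdx.getD r 0, h1⟩ at h5
    exact eq_inv_of_mul_eq_one_right h5.symm
  · have h1 := List.all_eq_true.1 (List.all_eq_true.1 chkN_all r (List.mem_range.2 hr)) s (List.mem_range.2 hs)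
    unfold chkN at h1
    rw [hk] at h1
    simp only [Bool.and_eq_true, decide_eq_true_eq, Bool.or_eq_true, beq_iff_eq] at h1
    obtain ⟨⟨⟨h2, h3⟩, h4⟩, h5⟩ := h1
    have h6 : adR chevE7 K (Sum.inr ⟨r, hr⟩) (Sum.inr ⟨k, h2⟩) (Sum.inr ⟨s, hs⟩) ≠ 0 := by
      rw [adR_def, Matrix.map_apply, adA_inr, coefE_entry chevE7 r 1 hr]
      simp only [if_neg h3, if_neg h4]
      rw [if_neg (by simp), zero_add]
      exact int_pm h5
    have h7 := hmul _ _ _ h6
    change d ⟨k, h2⟩ = d ⟨r, hr⟩ * d ⟨s, hs⟩ at h7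
    apply Units.ext
    rw [Units.val_mul]
    have e1 := hχ ⟨k, h2⟩
    have e2 := hχ ⟨r, hr⟩
    have e3 := hχ ⟨s, hs⟩
    change ((χ k : Kˣ) : K) = _ at e1
    change ((χ r : Kˣ) : K) = _ at e2
    change ((χ s : Kˣ) : K) = _ at e3
    rw [e1, e2, e3, h7]
  · rw [h]
    show _ = Matrix.diagonal _
    congr 1
    funext a
    rcases a with a | a
    · rfl
    · exact (hχ a).symm

/-- **an element which fixes the Cartan subalgebra pointwise is in the torus** -/
theorem exists_Phi_of_fix (h2 : (2 : K) ≠ 0) {τ : Gh K}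
    (h : ∀ i : Fin chevE7.rank, L K τ (Pi.single (Sum.inl i) 1) = Pi.single (Sum.inl i) 1) : ∃ t, Phi K t = τ := by
  have h1 := diag_of_fix h2 (g := ((ad K τ : ↥(chevE7.group K)) : GL chevE7.Idx K)) (ad K τ).2 h
  have h3 : ad K τ ∈ TT chevE7 K := mem_diag (ad K τ).2 h1
  obtain ⟨a, ha⟩ := exists_theta_phi isPhi Cfsg.Agent.H944.E7Two.e7T h3
  have h4 : (Phi K a)⁻¹ * τ ∈ (ad K).ker := by
    rw [MonoidHom.mem_ker, map_mul, map_inv]
    have h5 : ad K (Phi K a) = ad K τ := ha
    rw [h5, inv_mul_cancel]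
  rw [ker_ad] at h4
  obtain ⟨b, hb⟩ := isPhi.center_le h4
  exact ⟨a * b, by rw [map_mul, hb, mul_inv_cancel_left]⟩

end Cfsg.Agent.R2.T1.Five
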