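import Mathlib
import Cfsg.Agent.R2.T1.Five.Alc
import Cfsg.Agent.R2.T1.Five.Diag
import Cfsg.Agent.R2.T1.Five.InvTab
import Cfsg.Agent.H952.F4.TabLin

/-!
# The involution attached to an element of order 5 with 16 fixed weights (helper25)

* `Tw x τ` : `τ * τ = 1`, `τ` is trivial on the fixed points of `x` on the adjoint module, is `-1` on the fixed points of `x`
  on the module of degree 56, and has 32 eigenvalues 1 on the latter;
* `exists_tau` : existence and uniqueness of `τ` for `x` conjugate to an element of order 5 of the torus with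
  `ev (V K x) 1 = 16`, if `(2 : K) ≠ 0`.
-/

set_option autoImplicit false
set_option maxRecDepth 100000

namespace Cfsg.Agent.R2.T1.Five

open Cfsg Cfsg.Lie Module
open Cfsg.Agent.ChevalleyStructure Cfsg.Agent.ChevalleyStructure.Elts Cfsg.Agent.ChevalleyStructure.RootVec
  Cfsg.Agent.ChevalleyStructure.RootVecTab Cfsg.Agent.ChevalleyStructure.CoxeterGeomTypes
open Cfsg.Agent.H129.StCover
open Cfsg.Agent.H943.E7V.Block Cfsg.Agent.H943.E7V.Wt Cfsg.Agent.H944.Tab Cfsg.Agent.H944.E7Two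
open Cfsg.Agent.H952.F4 (ev es)
open Cfsg.Agent.R2.T1
open scoped Matrix

universe u

/-! ### residues -/

theorem dot_mod {N : ℕ} (hN : 0 < N) (a : ℕ → ℤ) (y : Fin 7 → ℕ) :
    Nat.beq (dotN ((List.range 7).map fun j => ((a j) % (N : ℤ)).toNat) (List.ofFn y) % N) 0 = true ↔
      (N : ℤ) ∣ ∑ i : Fin 7, a i * y i := by
  rw [Nat.beq_eq, ← Nat.dvd_iff_mod_eq_zero, ← Int.natCast_dvd_natCast, dotN_eq 7 _ _ (by simp)]
  have hN' : (0 : ℤ) < N := by exact_mod_cast hN
  have h1 : ∀ i : Fin 7, (((((List.range 7).map fun j => ((a j) % (N : ℤ)).toNat).getD i 0 *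
      (List.ofFn y).getD i 0 : ℕ)) : ℤ) = (a i % N) * y i := by
    intro i
    have e1 : ((List.range 7).map fun j => ((a j) % (N : ℤ)).toNat).getD i 0 = ((a i) % (N : ℤ)).toNat := by
      rw [List.getD_eq_getElem _ _ (by simp), List.getElem_map, List.getElem_range]
    have e2 : (List.ofFn y).getD i 0 = y i := by
      rw [List.getD_eq_getElem _ _ (by rw [List.length_ofFn]; exact i.2), List.getElem_ofFn]
    rw [e1, e2, Nat.cast_mul, Int.toNat_of_nonneg (Int.emod_nonneg _ hN'.ne')]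
  rw [Nat.cast_sum, Finset.sum_congr rfl fun i _ => h1 i]
  have h2 : ∀ i : Fin 7, (a i % N) * (y i : ℤ) = a i * y i - (N : ℤ) * (a i / N * y i) := by
    intro i
    have := Int.emod_add_mul_ediv (a i) N
    linear_combination (y i : ℤ) * this
  rw [Finset.sum_congr rfl fun i _ => h2 i, Finset.sum_sub_distrib, ← Finset.mul_sum]
  exact dvd_sub_left (dvd_mul_right _ _)

/-! ### the values of the weights and of the roots -/

section vals

variable {K : Type u} [Field K]

theorem prod_zpow_comm {n m : ℕ} (c : Fin n → Kˣ) (A : Fin n → Fin m → ℤ) (e : Fin m → ℤ) :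
    ∏ i, c i ^ (∑ j, e j * A i j) = ∏ j, (∏ i, c i ^ A i j) ^ e j := by
  have h1 : ∀ i, c i ^ (∑ j, e j * A i j) = ∏ j, (c i ^ A i j) ^ e j := by
    intro i
    rw [← prod_zpow_sum]
    refine Finset.prod_congr rfl fun j _ => ?_
    rw [← zpow_mul, mul_comm]
  rw [Finset.prod_congr rfl fun i _ => h1 i, Finset.prod_comm]
  exact Finset.prod_congr rfl fun j _ => Finset.prod_zpow _ _ _

theorem wt_sq (s : D1) (c : Fin chevE7.rank → Kˣ) :
    wt s c ^ 2 = ∏ j : Fin 7, rtv (chevE7.simple j) c ^ cc (nn s) j := by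
  have h1 : wt s c ^ 2 = ∏ i : Fin 7, c i ^ (∑ j : Fin 7, cc (nn s) j * chevE7.cartan i (chevE7.simple j)) := by
    unfold wt
    rw [← Finset.prod_pow]
    refine Finset.prod_congr rfl fun i _ => ?_
    have h2 := pair_eq' s i
    change ∑ j : Fin 7, cc (nn s) j * chevE7.cartan i (chevE7.simple j) = 2 * chevE8.cartan i (nn s) at h2
    rw [h2, ← zpow_natCast, ← zpow_mul, mul_comm]
    rfl
  rw [h1, prod_zpow_comm (fun i : Fin 7 => c i) (fun i j => chevE7.cartan i (chevE7.simple j)) fun j => cc (nn s) j]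
  rfl

theorem rtv_prod {r : ℕ} (hr : r < chevE7.nroots) (c : Fin chevE7.rank → Kˣ) :
    rtv r c = ∏ j : Fin 7, rtv (chevE7.simple j) c ^ rt chevE7 r j := by
  have h1 : rtv r c = ∏ i : Fin 7, c i ^ (∑ j : Fin 7, rt chevE7 r j * chevE7.cartan i (chevE7.simple j)) := by
    unfold rtv
    refine Finset.prod_congr rfl fun i _ => ?_
    have h4 : chevE7.cartan i r = ∑ j ∈ Finset.range 7, rt chevE7 r j * chevE7.cartan i (chevE7.simple j) :=
      cartan_eq_sum checked_E7 (show (i : ℕ) < 7 from i.2) hr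
    rw [h4, Finset.sum_range]
  rw [h1, prod_zpow_comm (fun i : Fin 7 => c i) (fun i j => chevE7.cartan i (chevE7.simple j)) fun j => rt chevE7 r j]
  rfl

theorem prod_z {z : Kˣ} {y : Fin 7 → ℕ} {c : Fin chevE7.rank → Kˣ}
    (h : ∀ i : Fin 7, rtv (chevE7.simple i) c = z ^ y i) (a : ℕ → ℤ) :
    ∏ j : Fin 7, rtv (chevE7.simple j) c ^ a j = z ^ ∑ i : Fin 7, a i * y i := by
  rw [← prod_zpow_sum]
  refine Finset.prod_congr rfl fun j _ => ?_
  rw [h j, ← zpow_natCast, ← zpow_mul, mul_comm]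

variable {z : Kˣ} (hz : IsPrimitiveRoot z 5) {y : Fin 7 → ℕ} {c : Fin chevE7.rank → Kˣ} (hc : c ^ 5 = 1)
  (h : ∀ i : Fin 7, rtv (chevE7.simple i) c = z ^ y i)

include hz hc h in
theorem wt_iff (s : D1) : wt s c = 1 ↔ z5 (List.ofFn y) (rowW (nn s)) = true := by
  have h5 : wt s c ^ 5 = 1 := by
    unfold wt
    rw [← Finset.prod_pow]
    refine Finset.prod_eq_one fun i _ => ?_
    rw [← zpow_natCast, ← zpow_mul, mul_comm, zpow_mul, zpow_natCast]
    have h4 : c i ^ 5 = 1 := congrFun hc i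
    rw [h4, one_zpow]
  have h1 : wt s c = 1 ↔ wt s c ^ 2 = 1 := by
    constructor
    · intro h2; rw [h2, one_pow]
    · intro h2
      have h3 : wt s c ^ 5 = (wt s c ^ 2) ^ 2 * wt s c := by group
      rw [h5, h2, one_pow, one_mul] at h3
      exact h3.symm
  rw [h1, wt_sq, prod_z h, hz.zpow_eq_one_iff_dvd]
  exact (dot_mod (N := 5) (by norm_num) (fun j => cc (nn s) j) y).symm

include hz h in
theorem rtv_iff {r : ℕ} (hr : r < chevE7.nroots) : rtv r c = 1 ↔ z5 (List.ofFn y) (rowR r) = true := by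
  rw [rtv_prod hr, prod_z h, hz.zpow_eq_one_iff_dvd]
  exact (dot_mod (N := 5) (by norm_num) (fun j => rt chevE7 r j) y).symm

/-! ### sign vectors -/

/-- the sign vectors -/
def tm (K : Type u) [Field K] (m : ℕ) : Fin chevE7.rank → Kˣ := fun i => (-1) ^ (m / 2 ^ (i : ℕ) % 2)

theorem bits_eq (m : ℕ) : bits m = List.ofFn fun i : Fin 7 => m / 2 ^ (i : ℕ) % 2 := rfl

theorem tm_prod (m : ℕ) (a : ℕ → ℤ) : ∏ i : Fin chevE7.rank, tm K m i ^ a i =
    (-1) ^ ∑ i : Fin 7, a i * ((m / 2 ^ (i : ℕ) % 2 : ℕ) : ℤ) := by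
  rw [← prod_zpow_sum]
  refine Finset.prod_congr rfl fun i _ => ?_
  show ((-1 : Kˣ) ^ (m / 2 ^ (i : ℕ) % 2)) ^ a i = _
  rw [← zpow_natCast, ← zpow_mul, mul_comm]

theorem ev2_iff (m : ℕ) (a : ℕ → ℤ) : Nat.beq (dotN ((List.range 7).map fun j => ((a j) % (2 : ℤ)).toNat) (bits m) % 2) 0 =
    true ↔ (2 : ℤ) ∣ ∑ i : Fin 7, a i * ((m / 2 ^ (i : ℕ) % 2 : ℕ) : ℤ) := by
  rw [bits_eq]
  exact dot_mod (N := 2) (by norm_num) a fun i : Fin 7 => m / 2 ^ (i : ℕ) % 2

theorem sgn_cases (m : ℕ) (a : ℕ → ℤ) :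
    (Nat.beq (dotN ((List.range 7).map fun j => ((a j) % (2 : ℤ)).toNat) (bits m) % 2) 0 = true ∧
      ∏ i : Fin chevE7.rank, tm K m i ^ a i = 1) ∨
    (Nat.beq (dotN ((List.range 7).map fun j => ((a j) % (2 : ℤ)).toNat) (bits m) % 2) 0 = false ∧
      ∏ i : Fin chevE7.rank, tm K m i ^ a i = -1) := by
  rw [tm_prod]
  by_cases h1 : (2 : ℤ) ∣ ∑ i : Fin 7, a i * ((m / 2 ^ (i : ℕ) % 2 : ℕ) : ℤ)
  · left
    exact ⟨(ev2_iff m a).2 h1, Even.neg_one_zpow (even_iff_two_dvd.2 h1)⟩
  · right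
    refine ⟨?_, Odd.neg_one_zpow (by rw [← Int.not_even_iff_odd, even_iff_two_dvd]; exact h1)⟩
    rw [← Bool.not_eq_true]
    exact fun h2 => h1 ((ev2_iff m a).1 h2)

theorem wt_tm (m : ℕ) (s : D1) : (ev2 (bits m) (rowW (nn s)) = true ∧ wt s (tm K m) = 1) ∨
    (ev2 (bits m) (rowW (nn s)) = false ∧ wt s (tm K m) = -1) := sgn_cases m fun i => chevE8.cartan i (nn s)

theorem rtv_tm (m r : ℕ) : (ev2 (bits m) (rowR r) = true ∧ rtv r (tm K m) = 1) ∨
    (ev2 (bits m) (rowR r) = false ∧ rtv r (tm K m) = -1) := sgn_cases m fun i => chevE7.cartan i r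

theorem neg_ne (h2 : (2 : K) ≠ 0) : (-1 : Kˣ) ≠ 1 := by
  intro h0
  have h1 := congrArg Units.val h0
  rw [Units.val_neg, Units.val_one] at h1
  apply h2
  linear_combination -h1

theorem wt_tm_iff (h2 : (2 : K) ≠ 0) (m : ℕ) (s : D1) : wt s (tm K m) = 1 ↔ ev2 (bits m) (rowW (nn s)) = true := by
  rcases wt_tm (K := K) m s with ⟨h3, h4⟩ | ⟨h3, h4⟩
  · exact ⟨fun _ => h3, fun _ => h4⟩
  · rw [h3, h4]
    exact ⟨fun h5 => absurd h5 (neg_ne h2), fun h5 => absurd h5 (by simp)⟩

theorem rtv_tm_iff (h2 : (2 : K) ≠ 0) (m r : ℕ) : rtv r (tm K m) = 1 ↔ ev2 (bits m) (rowR r) = true := by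
  rcases rtv_tm (K := K) m r with ⟨h3, h4⟩ | ⟨h3, h4⟩
  · exact ⟨fun _ => h3, fun _ => h4⟩
  · rw [h3, h4]
    exact ⟨fun h5 => absurd h5 (neg_ne h2), fun h5 => absurd h5 (by simp)⟩

/-- the elements of order 2 of the torus -/
theorem exists_tm {t : Fin chevE7.rank → Kˣ} (ht : t * t = 1) : ∃ m < 128, t = tm K m := by
  classical
  have h1 : ∀ i, t i = 1 ∨ t i = -1 := by
    intro i
    have h2 : ((t i : Kˣ) : K) * t i = 1 := by
      have := congrArg Units.val (congrFun ht i)
      simpa using this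
    rcases mul_self_eq_one_iff.1 h2 with h3 | h3
    · exact Or.inl (Units.ext h3)
    · exact Or.inr (Units.ext (by rw [h3, Units.val_neg, Units.val_one]))
  let t' : Fin 7 → Kˣ := t
  let b : Fin 7 → ℕ := fun i => if t' i = 1 then 0 else 1
  have hb : ∀ i, b i < 2 := by intro i; show (if t' i = 1 then 0 else 1) < 2; split_ifs <;> norm_num
  have hbt : ∀ i : Fin 7, t' i = (-1) ^ b i := by
    intro i
    show t' i = (-1) ^ (if t' i = 1 then 0 else 1)
    split_ifs with h3
    · rw [h3, pow_zero]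
    · rw [pow_one]; exact (h1 i).resolve_left h3
  refine ⟨b 0 + 2 * b 1 + 4 * b 2 + 8 * b 3 + 16 * b 4 + 32 * b 5 + 64 * b 6, ?_, ?_⟩
  · have := hb 0; have := hb 1; have := hb 2; have := hb 3; have := hb 4; have := hb 5; have := hb 6
    omega
  · have h0 := hb 0; have h1 := hb 1; have h2 := hb 2; have h3 := hb 3; have h4 := hb 4; have h5 := hb 5; have h6 := hb 6
    have key : ∀ i : Fin 7, b i = (b 0 + 2 * b 1 + 4 * b 2 + 8 * b 3 + 16 * b 4 + 32 * b 5 + 64 * b 6) / 2 ^ (i : ℕ) % 2 := by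
      intro i
      have hi : i = 0 ∨ i = 1 ∨ i = 2 ∨ i = 3 ∨ i = 4 ∨ i = 5 ∨ i = 6 := by
        revert i
        decide
      rcases hi with rfl | rfl | rfl | rfl | rfl | rfl | rfl
      · show b 0 = _ / 2 ^ 0 % 2; omega
      · show b 1 = _ / 2 ^ 1 % 2; omega
      · show b 2 = _ / 2 ^ 2 % 2; omega
      · show b 3 = _ / 2 ^ 3 % 2; omega
      · show b 4 = _ / 2 ^ 4 % 2; omega
      · show b 5 = _ / 2 ^ 5 % 2; omega
      · show b 6 = _ / 2 ^ 6 % 2; omega
    funext i
    have h7 := hbt i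
    rw [key i] at h7
    exact h7

end vals

/-! ### counting -/

theorem cgood_eq (Y : List ℕ) : ∀ k, cgood Y k = ((Finset.range k).filter fun m => good Y (bits m) = true).card := by
  intro k
  induction k with
  | zero => rfl
  | succ k ih =>
    show cgood Y k + _ = _
    rw [ih, Finset.range_add_one, Finset.filter_insert]
    by_cases h : good Y (bits k) = true
    · rw [if_pos h, Finset.card_insert_of_notMem (by simp), h]
      rfl
    · rw [if_neg h]
      rw [Bool.not_eq_true] at h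
      rw [h]
      rfl

theorem card_D1_filter (p : List ℕ × List ℕ → Bool) :
    (Finset.univ.filter fun s : D1 => p (rowW (nn s)) = true).card = (TW.filter p).length := by
  rw [← TW_eq, List.filter_map, List.length_map, List.filter_filter]
  have h1 : ((List.range 240).filter fun s => (p ∘ rowW) s && decide (rt chevE8 s 7 = 1)).length =
      ((Finset.range 240).filter fun s => ((p ∘ rowW) s && decide (rt chevE8 s 7 = 1)) = true).card := by
    have h2 : ((Finset.range 240).filter fun s => ((p ∘ rowW) s && decide (rt chevE8 s 7 = 1)) = true).card =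
        ((List.range 240).filter fun s => decide (((p ∘ rowW) s && decide (rt chevE8 s 7 = 1)) = true)).length := rfl
    rw [h2]
    congr 2
    funext s
    rw [Bool.decide_eq_true]
  rw [h1]
  refine Finset.card_bij (fun s _ => nn s) ?_ ?_ ?_
  · intro s hs
    rw [Finset.mem_filter] at hs
    rw [Finset.mem_filter, Finset.mem_range]
    refine ⟨nn_lt s, ?_⟩
    rw [Bool.and_eq_true, decide_eq_true_eq]
    exact ⟨hs.2, rt_nn s⟩
  · intro s _ t _ hst
    exact nn_inj hst
  · intro n hn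
    rw [Finset.mem_filter, Finset.mem_range, Bool.and_eq_true, decide_eq_true_eq] at hn
    refine ⟨⟨⟨n, hn.1⟩, hn.2.2⟩, ?_, rfl⟩
    rw [Finset.mem_filter]
    exact ⟨Finset.mem_univ _, hn.2.1⟩

section ev

variable {K : Type u} [Field K]

theorem ev_Phi (t : Fin chevE7.rank → Kˣ) (p : List ℕ × List ℕ → Bool)
    (h : ∀ s : D1, wt s t = 1 ↔ p (rowW (nn s)) = true) : ev (V K (Phi K t)) 1 = (TW.filter p).length := by
  classical
  rw [Cfsg.Agent.H952.F4.TabLin.ev_diag (fun s : D1 => ((wt s t : Kˣ) : K)) 1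
    (by rw [V_eq, rho_Phi]), ← card_D1_filter]
  congr 1
  ext s
  rw [Finset.mem_filter, Finset.mem_filter, ← h s, Units.val_eq_one]

/-! ### the property -/

/-- the involution `τ` attached to `x` -/
def Tw (x τ : Gh K) : Prop := τ * τ = 1 ∧ (∀ X, L K x X = X → L K τ X = X) ∧ (∀ v, V K x v = v → V K τ v = -v) ∧
  ev (V K τ) 1 = 32

theorem tw_good (h2 : (2 : K) ≠ 0) {z : Kˣ} (hz : IsPrimitiveRoot z 5) {y : Fin 7 → ℕ} {c : Fin chevE7.rank → Kˣ}
    (hc : c ^ 5 = 1) (h : ∀ i : Fin 7, rtv (chevE7.simple i) c = z ^ y i) (m : ℕ) :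
    Tw (Phi K c) (Phi K (tm K m)) ↔ good (List.ofFn y) (bits m) = true := by
  have hlen : ev (V K (Phi K (tm K m))) 1 = (TW.filter (ev2 (bits m))).length :=
    ev_Phi _ _ fun s => wt_tm_iff h2 m s
  have hV : ∀ (t : Fin chevE7.rank → Kˣ) (v : D1 → K) (s : D1), V K (Phi K t) v s = ((wt s t : Kˣ) : K) * v s := by
    intro t v s
    rw [V_apply, rho_Phi, Matrix.mulVec_diagonal]
  unfold good
  rw [Bool.and_eq_true, Bool.and_eq_true, List.all_eq_true, List.all_eq_true, Nat.beq_eq, ← hlen]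
  constructor
  · rintro ⟨-, t2, t3, t4⟩
    refine ⟨?_, ?_, t4⟩
    · intro x hx
      rw [← TR_eq, List.mem_map] at hx
      obtain ⟨r, hr, rfl⟩ := hx
      rw [List.mem_range] at hr
      by_cases h5 : z5 (List.ofFn y) (rowR r) = true
      · rw [h5, Bool.not_true, Bool.false_or, ← rtv_tm_iff h2]
        have h6 := (rtv_iff hz h hr).2 h5
        have h7 : L K (Phi K c) (Pi.single (Sum.inr ⟨r, hr⟩) 1) = Pi.single (Sum.inr ⟨r, hr⟩) 1 := by
          funext i
          rw [L_Phi]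
          by_cases hi : i = Sum.inr ⟨r, hr⟩
          · subst hi
            rw [Sum.elim_inr]
            change ((rtv r c : Kˣ) : K) * _ = _
            rw [h6, Units.val_one, one_mul]
          · rw [Pi.single_eq_of_ne hi, mul_zero]
        have h8 := congrFun (t2 _ h7) (Sum.inr ⟨r, hr⟩)
        rw [L_Phi, Sum.elim_inr, Pi.single_eq_same, mul_one] at h8
        exact Units.ext h8
      · rw [Bool.not_eq_true] at h5
        rw [h5]; rfl
    · intro x hx
      rw [← TW_eq, List.mem_map] at hx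
      obtain ⟨s, hs, rfl⟩ := hx
      rw [List.mem_filter, List.mem_range, decide_eq_true_eq] at hs
      let s' : D1 := ⟨⟨s, hs.1⟩, hs.2⟩
      by_cases h5 : z5 (List.ofFn y) (rowW s) = true
      · rw [h5, Bool.not_true, Bool.false_or]
        have h6 : wt s' c = 1 := (wt_iff hz hc h s').2 h5
        have h7 : V K (Phi K c) (Pi.single s' 1) = Pi.single s' 1 := by
          funext i
          rw [hV]
          by_cases hi : i = s'
          · subst hi
            rw [h6, Units.val_one, one_mul]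
          · rw [Pi.single_eq_of_ne hi, mul_zero]
        have h8 := congrFun (t3 _ h7) s'
        rw [hV, Pi.neg_apply, Pi.single_eq_same, mul_one] at h8
        rcases wt_tm (K := K) m s' with ⟨h9, h10⟩ | ⟨h9, h10⟩
        · rw [h10, Units.val_one] at h8
          exfalso
          apply h2
          linear_combination h8
        · change ev2 (bits m) (rowW s) = false at h9
          rw [h9]; rfl
      · rw [Bool.not_eq_true] at h5
        rw [h5]; rfl
  · rintro ⟨g1, g2, g3⟩
    refine ⟨?_, ?_, ?_, g3⟩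
    · rw [← map_mul]
      have : tm K m * tm K m = 1 := by
        funext i
        show (-1 : Kˣ) ^ _ * (-1) ^ _ = 1
        rw [← mul_pow, neg_mul_neg, one_mul, one_pow]
      rw [this, map_one]
    · intro X hX
      funext i
      have h5 := congrFun hX i
      rw [L_Phi] at h5 ⊢
      rcases i with i | r
      · rw [Sum.elim_inl, one_mul]
      · rw [Sum.elim_inr] at h5 ⊢
        by_cases h6 : X (Sum.inr r) = 0
        · rw [h6, mul_zero]
        · have h7 : rtv r c = 1 := Units.ext (mul_right_cancel₀ h6 (h5.trans (one_mul _).symm))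
          have h8 := (rtv_iff hz h r.2).1 h7
          have h9 := g1 (rowR r) (by rw [← TR_eq]; exact List.mem_map.2 ⟨r, List.mem_range.2 r.2, rfl⟩)
          rw [h8, Bool.not_true, Bool.false_or, ← rtv_tm_iff h2] at h9
          rw [h9, Units.val_one, one_mul]
    · intro v hv
      funext s
      have h5 := congrFun hv s
      rw [hV] at h5 ⊢
      rw [Pi.neg_apply]
      by_cases h6 : v s = 0
      · rw [h6, mul_zero, neg_zero]
      · have h7 : wt s c = 1 := Units.ext (mul_right_cancel₀ h6 (h5.trans (one_mul _).symm))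
        have h8 := (wt_iff hz hc h s).1 h7
        have h9 := g2 (rowW (nn s)) (by
          rw [← TW_eq]
          exact List.mem_map.2 ⟨nn s, List.mem_filter.2 ⟨List.mem_range.2 (nn_lt s), by
            rw [decide_eq_true_eq]; exact rt_nn s⟩, rfl⟩)
        rw [h8, Bool.not_true, Bool.false_or, Bool.not_eq_true'] at h9
        rcases wt_tm (K := K) m s with ⟨h10, -⟩ | ⟨-, h10⟩
        · rw [h9] at h10; exact absurd h10 (by simp)
        · rw [h10, Units.val_neg, Units.val_one, neg_one_mul]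

theorem fix_conj {G M : Type*} [Group G] [AddCommGroup M] [Module K M] (ρ : Representation K G M) {x τ : G} {e : K}
    (h : ∀ X, ρ x X = X → ρ τ X = e • X) (g : G) (X : M) (hX : ρ (g * x * g⁻¹) X = X) : ρ (g * τ * g⁻¹) X = e • X := by
  have h1 : ρ x (ρ g⁻¹ X) = ρ g⁻¹ X := by
    rw [← Module.End.mul_apply, ← map_mul]
    conv_rhs => rw [← hX]
    rw [← Module.End.mul_apply, ← map_mul]
    congr 2
    group
  have h2 := h _ h1
  have h3 : ρ g (ρ τ (ρ g⁻¹ X)) = e • X := by
    rw [h2, map_smul, ← Module.End.mul_apply, ← map_mul, mul_inv_cancel, map_one, Module.End.one_apply]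
  rw [map_mul, map_mul, Module.End.mul_apply, Module.End.mul_apply, h3]

theorem Tw.conj {x τ : Gh K} (h : Tw x τ) (g : Gh K) : Tw (g * x * g⁻¹) (g * τ * g⁻¹) := by
  obtain ⟨h1, h2, h3, h4⟩ := h
  refine ⟨?_, ?_, ?_, ?_⟩
  · have : g * τ * g⁻¹ * (g * τ * g⁻¹) = g * (τ * τ) * g⁻¹ := by group
    rw [this, h1, mul_one, mul_inv_cancel]
  · intro X hX
    have h5 := fix_conj (L K) (e := 1) (fun X hX => by rw [h2 X hX, one_smul]) g X hX
    rwa [one_smul] at h5
  · intro v hv
    have h5 := fix_conj (V K) (e := -1) (fun X hX => by rw [h3 X hX, neg_one_smul]) g v hv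
    rwa [neg_one_smul] at h5
  · rw [Cfsg.Agent.H952.F4.TabLin.ev_conj, h4]

/-- **Existence and uniqueness of the involution.** -/
theorem exists_tau (h2 : (2 : K) ≠ 0) {z : Kˣ} (hz : IsPrimitiveRoot z 5) {x : Gh K}
    (h : ∃ (g : Gh K) (c : Fin chevE7.rank → Kˣ), Phi K c = g * x * g⁻¹ ∧ c ^ 5 = 1) (h16 : ev (V K x) 1 = 16) :
    ∃ τ, Tw x τ ∧ ∀ τ', Tw x τ' → τ' = τ := by
  obtain ⟨g, c, y, h1, h3, h4, h5⟩ := exists_alc (by norm_num) hz h
  have h6 : cnt0 (List.ofFn y) = 16 := by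
    have h7 : ev (V K (Phi K c)) 1 = cnt0 (List.ofFn y) := ev_Phi _ _ fun s => wt_iff hz h3 h4 s
    rw [← h7, h1, Cfsg.Agent.H952.F4.TabLin.ev_conj, h16]
  have h7 := allAlc_spec th7 5 _ (by decide) alc_chk (List.ofFn y) (by simp [th7]) h5
  rw [h6] at h7
  have h8 : cgood (List.ofFn y) 128 = 1 := by
    simpa using h7
  rw [cgood_eq, Finset.card_eq_one] at h8
  obtain ⟨m, hm⟩ := h8
  have h9 : ∀ m', m' < 128 ∧ good (List.ofFn y) (bits m') = true ↔ m' = m := by
    intro m'
    have h10 := Finset.ext_iff.1 hm m'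
    rw [Finset.mem_filter, Finset.mem_range, Finset.mem_singleton] at h10
    exact h10
  obtain ⟨h10, h11⟩ := (h9 m).2 rfl
  have h12 := (tw_good h2 hz h3 h4 m).2 h11
  refine ⟨g⁻¹ * Phi K (tm K m) * g, ?_, ?_⟩
  · have h13 := h12.conj g⁻¹
    rw [h1] at h13
    have e1 : g⁻¹ * (g * x * g⁻¹) * g⁻¹⁻¹ = x := by group
    rwa [e1, inv_inv] at h13
  · intro τ' hτ'
    have h13 := hτ'.conj g
    rw [← h1] at h13
    obtain ⟨t, ht⟩ : ∃ t, Phi K t = g * τ' * g⁻¹ := by
      apply exists_Phi_of_fix h2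
      intro i
      apply h13.2.1
      funext j
      rw [L_Phi]
      rcases j with j | j
      · rw [Sum.elim_inl, one_mul]
      · rw [Pi.single_eq_of_ne (by simp), mul_zero]
    have htt : t * t = 1 := by
      apply (isPhi (K := K)).inj
      rw [map_mul, ht, map_one]
      exact h13.1
    obtain ⟨m', hm', rfl⟩ := exists_tm htt
    rw [← ht] at h13
    have h14 := (h9 m').1 ⟨hm', (tw_good h2 hz h3 h4 m').1 h13⟩
    rw [← h14, ht]
    group

end ev

end Cfsg.Agent.R2.T1.Five
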