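import Mathlib
import Cfsg.Agent.R2.T1.Five.BetaTab
import Cfsg.Agent.R2.T1.Five.Adj
import Cfsg.Agent.R2.T1.Five.Inv

/-!
# The involutions with 32 fixed weights and the attached subgroup of type `A₁` (helper25)

* `exists_beta` : representatives `Phi K (hb β (-1))`, `β ∈ BL`;
* `tb_fix_iff` : the fixed vectors of the representatives;
* `EM_fix`, `xs_fix` : the action of the root elements of the roots `β`, `-β` on the fixed vectors.
-/

set_option autoImplicit false
set_option linter.unusedSectionVars false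
set_option maxRecDepth 100000

namespace Cfsg.Agent.R2.T1.Five

open Cfsg Cfsg.Lie Module Matrix
open Cfsg.Agent.ChevalleyStructure Cfsg.Agent.ChevalleyStructure.Elts Cfsg.Agent.ChevalleyStructure.Columns
open Cfsg.Agent.ChevalleyStructure.CoxeterGeomTypes
open Cfsg.Agent.ChevalleyStructure.StBasic Cfsg.Agent.H129.StCover
open Cfsg.Agent.H943.E7V.Block (D1)
open Cfsg.Agent.H944.Kac Cfsg.Agent.H944.Tab Cfsg.Agent.H944.E7Two
open Cfsg.Agent.H952.F4 (ev es)
open Cfsg.Agent.R2.T1

universe u

section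
variable {K : Type u} [Field K]

/-- the torus acts on the root elements -/
theorem Phi_xs (a : Fin chevE7.rank → Kˣ) {r : ℕ} (hr : r < 126) (t : K) :
    Phi K a * xs K r t * (Phi K a)⁻¹ = xs K r (((rtv r a : Kˣ) : K) * t) := by
  have key : ∀ S : Finset (Fin chevE7.rank), ∀ t : K, Phi K (∏ i ∈ S, Pi.mulSingle i (a i)) * xs K r t *
      (Phi K (∏ i ∈ S, Pi.mulSingle i (a i)))⁻¹ = xs K r (((∏ i ∈ S, a i ^ chevE7.cartan i r : Kˣ) : K) * t) := by
    intro S
    induction S using Finset.induction_on with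
    | empty =>
      intro t
      rw [Finset.prod_empty, Finset.prod_empty, map_one, one_mul, inv_one, mul_one, Units.val_one, one_mul]
    | insert i S hi ih =>
      intro t
      rw [Finset.prod_insert hi, Finset.prod_insert hi, map_mul, isPhi.single]
      have e : sth chevE7 (chevE7.simple i) ((a i : Kˣ) : K) * Phi K (∏ i ∈ S, Pi.mulSingle i (a i)) * xs K r t *
          (sth chevE7 (chevE7.simple i) ((a i : Kˣ) : K) * Phi K (∏ i ∈ S, Pi.mulSingle i (a i)))⁻¹ =
          sth chevE7 (chevE7.simple i) ((a i : Kˣ) : K) * (Phi K (∏ i ∈ S, Pi.mulSingle i (a i)) * xs K r t *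
          (Phi K (∏ i ∈ S, Pi.mulSingle i (a i)))⁻¹) * (sth chevE7 (chevE7.simple i) ((a i : Kˣ) : K))⁻¹ := by group
      rw [e, ih]
      have h := h_conj (K := K) e7T.inList i r i.2 hr (a i).ne_zero (((∏ i ∈ S, a i ^ chevE7.cartan i r : Kˣ) : K) * t)
      refine h.trans ?_
      show xs K r _ = _
      rw [Units.val_mul, Units.val_zpow_eq_zpow_val, mul_assoc]
  have h := key Finset.univ t
  rw [Finset.univ_prod_mulSingle] at h
  exact h

/-- the subgroup of the torus given by the coroot of `β` -/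
def hb (β : ℕ) (x : Kˣ) : Fin chevE7.rank → Kˣ := fun i => x ^ cor chevE7 β i.val

theorem rtv_hb (β s : ℕ) (x : Kˣ) : rtv s (hb β x) = x ^ pr β s := by
  unfold rtv hb pr
  rw [← prod_zpow_sum]
  exact Finset.prod_congr rfl fun i _ => (_root_.zpow_mul _ _ _).symm

theorem hb_mul (β : ℕ) (x y : Kˣ) : hb β (x * y) = hb β x * hb β y := by
  funext i
  exact mul_zpow _ _ _

theorem hb_one (β : ℕ) : hb β (1 : Kˣ) = 1 := by
  funext i
  exact one_zpow _

theorem hb_pow (β : ℕ) (x : Kˣ) (n : ℕ) : hb β (x ^ n) = hb β x ^ n := by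
  induction n with
  | zero => rw [pow_zero, pow_zero, hb_one]
  | succ n ih => rw [pow_succ, pow_succ, hb_mul, ih]

/-- **representatives** -/
theorem exists_beta (h2 : (2 : K) ≠ 0) {Z : Gh K}
    (h : ∃ (g : Gh K) (c : Fin chevE7.rank → Kˣ), Phi K c = g * Z * g⁻¹ ∧ c ^ 2 = 1) (h32 : ev (V K Z) 1 = 32) :
    ∃ β ∈ BL, ∃ g : Gh K, Phi K (hb β (-1)) = g * Z * g⁻¹ := by
  have hne := neg_ne h2
  have hz : IsPrimitiveRoot (-1 : Kˣ) 2 := by
    refine ⟨by rw [neg_one_sq], fun l hl => ?_⟩
    rcases Nat.even_or_odd l with h1 | h1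
    · exact even_iff_two_dvd.1 h1
    · rw [h1.neg_one_pow] at hl
      exact absurd hl hne
  obtain ⟨g, c, y, h1, h3, h4, h5⟩ := exists_alc (by norm_num) hz h
  obtain ⟨m, hm, rfl⟩ := exists_tm (t := c) (by rw [← pow_two, h3])
  have h6 : (TW.filter (ev2 (bits m))).length = 32 := by
    have h7 : ev (V K (Phi K (tm K m))) 1 = (TW.filter (ev2 (bits m))).length := ev_Phi _ _ fun s => wt_tm_iff h2 m s
    rw [← h7, h1, Cfsg.Agent.H952.F4.TabLin.ev_conj, h32]
  have h7 : ((List.range 7).map fun i => if ev2 (bits m) (rowR (chevE7.simple i)) then 0 else th7.getD i 0).sum ≤ 2 := by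
    refine le_trans ?_ h5
    rw [dotN_eq 7 th7 _ (by decide)]
    have e1 : ((List.range 7).map fun i => if ev2 (bits m) (rowR (chevE7.simple i)) then 0 else th7.getD i 0).sum =
        ∑ i : Fin 7, if ev2 (bits m) (rowR (chevE7.simple i)) then 0 else th7.getD i.val 0 := by
      rw [Fin.sum_univ_eq_sum_range (fun i => if ev2 (bits m) (rowR (chevE7.simple i)) then 0 else th7.getD i 0) 7]
      rfl
    rw [e1]
    refine Finset.sum_le_sum fun i _ => ?_
    split_ifs with h8
    · exact Nat.zero_le _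
    · have h9 : rtv (chevE7.simple i) (tm K m) = -1 := by
        rcases rtv_tm (K := K) m (chevE7.simple i) with ⟨h9, -⟩ | ⟨-, h9⟩
        · exact absurd h9 h8
        · exact h9
      rw [h4 i] at h9
      have h10 : y i ≠ 0 := by
        intro h10
        rw [h10, pow_zero] at h9
        exact hne h9.symm
      have e2 : (List.ofFn y).getD i 0 = y i := by
        rw [List.getD_eq_getElem _ _ (by rw [List.length_ofFn]; exact i.2), List.getElem_ofFn]
      rw [e2]
      exact Nat.le_mul_of_pos_right _ (Nat.pos_of_ne_zero h10)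
  have hsg : ∀ m : ℤ, (-1 : Kˣ) ^ (m % 2).toNat = (-1) ^ m := by
    intro m
    rw [← zpow_natCast, Int.toNat_of_nonneg (Int.emod_nonneg _ (by norm_num))]
    conv_rhs => rw [← Int.emod_add_mul_ediv m 2]
    rw [_root_.zpow_add, _root_.zpow_mul]
    norm_num
  rcases inv_chk m hm h6 h7 with rfl | rfl
  · refine ⟨125, by decide, g, ?_⟩
    rw [← h1]
    congr 1
    funext i
    show (-1 : Kˣ) ^ cor chevE7 125 i.val = (-1) ^ (84 / 2 ^ i.val % 2)
    rw [bits_125 i.val i.2, hsg]
  · refine ⟨63, by decide, g, ?_⟩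
    rw [← h1]
    congr 1
    funext i
    show (-1 : Kˣ) ^ cor chevE7 63 i.val = (-1) ^ (64 / 2 ^ i.val % 2)
    rw [bits_63 i.val i.2, hsg]

/-! ### the fixed vectors -/

/-- the vectors without odd components -/
def Ev (β : ℕ) (X : chevE7.Idx → K) : Prop := ∀ s : Fin chevE7.nroots, (pr β s.val = 1 ∨ pr β s.val = -1) → X (Sum.inr s) = 0

theorem tb_fix_iff (h2 : (2 : K) ≠ 0) {β : ℕ} (hβ : β ∈ BL) (X : chevE7.Idx → K) :
    L K (Phi K (hb β (-1))) X = X ↔ Ev β X := by
  constructor
  · intro h s hs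
    have h1 := congrFun h (Sum.inr s)
    rw [Five.L_Phi, Sum.elim_inr, rtv_hb] at h1
    have h3 : ((-1 : Kˣ) ^ pr β s.val) = -1 := by
      rcases hs with hs | hs <;> rw [hs] <;> norm_num
    rw [h3, Units.val_neg, Units.val_one] at h1
    have h4 : (2 : K) * X (Sum.inr s) = 0 := by linear_combination -h1
    exact (mul_eq_zero.1 h4).resolve_left h2
  · intro h
    funext i
    rw [Five.L_Phi]
    rcases i with i | s
    · rw [Sum.elim_inl, one_mul]
    · rw [Sum.elim_inr, rtv_hb]
      rcases pr_cases β hβ s.val s.2 with ⟨h3, -⟩ | ⟨h3, -⟩ | ⟨h3, -⟩ | ⟨h3, -⟩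
      · rw [h3, zpow_zero, Units.val_one, one_mul]
      · rw [h s h3, mul_zero]
      · rw [h3]; norm_num
      · rw [h3]; norm_num

/-- the value of the root `r` on the Cartan part of `X` -/
def al (r : ℕ) (X : chevE7.Idx → K) : K := ∑ i : Fin chevE7.rank, ((car chevE7 i.val r : ℤ) : K) * X (Sum.inl i)

/-- the coroot `h_r` -/
def hv (K : Type u) [Field K] (r : ℕ) : chevE7.Idx → K :=
  Sum.elim (fun i : Fin chevE7.rank => ((cor chevE7 r i.val : ℤ) : K)) fun _ => 0

theorem al_add (r : ℕ) (X Y : chevE7.Idx → K) : al r (X + Y) = al r X + al r Y := by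
  unfold al
  rw [← Finset.sum_add_distrib]
  exact Finset.sum_congr rfl fun i _ => by rw [Pi.add_apply]; ring

theorem al_smul (r : ℕ) (c : K) (X : chevE7.Idx → K) : al r (c • X) = c * al r X := by
  unfold al
  rw [Finset.mul_sum]
  exact Finset.sum_congr rfl fun i _ => by rw [Pi.smul_apply, smul_eq_mul]; ring

theorem al_er (r : ℕ) (s : Fin chevE7.nroots) : al r (er K s) = 0 := by
  unfold al er
  exact Finset.sum_eq_zero fun i _ => by rw [Pi.single_eq_of_ne (by simp), mul_zero]

theorem al_hv (r s : ℕ) : al r (hv K s) = ((pr s r : ℤ) : K) := by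
  unfold al hv pr
  push_cast
  exact Finset.sum_congr rfl fun i _ => by rw [Sum.elim_inl]; ring

theorem al_neg {r : ℕ} (hr : r < 126) (X : chevE7.Idx → K) : al (125 - r) X = - al r X := by
  unfold al
  rw [← Finset.sum_neg_distrib]
  refine Finset.sum_congr rfl fun i _ => ?_
  rw [car_neg7 i.val i.2 r hr]
  push_cast
  ring

theorem hv_neg {r : ℕ} (hr : r < 126) : hv K (125 - r) = - hv K r := by
  funext i
  rcases i with i | s
  · show ((cor chevE7 (125 - r) i.val : ℤ) : K) = -((cor chevE7 r i.val : ℤ) : K)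
    rw [cor_neg7 i.val i.2 r hr]
    push_cast
    rfl
  · show (0 : K) = -0
    rw [neg_zero]

theorem pr_self {r : ℕ} (hr : r < 126) : pr r r = 2 := by
  have h := sum_car_cor r hr
  unfold pr
  rw [← h]
  exact Finset.sum_congr rfl fun i _ => mul_comm _ _

theorem EM_fix {β : ℕ} (hβ : β ∈ BL) {r : Fin chevE7.nroots} (hr : r.val = β ∨ r.val = 125 - β) {X : chevE7.Idx → K}
    (hX : Ev β X) : EM K r.val *ᵥ X = X (Sum.inr (ng r)) • hv K r.val - al r.val X • er K r := by
  have hrl : r.val < 126 := r.2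
  funext a
  rw [Matrix.mulVec, dotProduct, Fintype.sum_sum_type, Pi.sub_apply, Pi.smul_apply, Pi.smul_apply, smul_eq_mul, smul_eq_mul]
  rcases a with i | u
  · simp only [EM_ll, zero_mul, Finset.sum_const_zero, zero_add]
    rw [Finset.sum_eq_single (ng r)]
    · rw [EM_lr, if_pos (ng_val r)]
      show _ = _ * ((cor chevE7 r.val i.val : ℤ) : K) - _ * er K r (Sum.inl i)
      rw [er, Pi.single_eq_of_ne (by simp), mul_zero, sub_zero, mul_comm]
    · intro s _ hs
      rw [EM_lr, if_neg (show ¬ s.val = 125 - r.val from fun h => hs (Fin.ext h)), zero_mul]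
    · intro h; exact absurd (Finset.mem_univ _) h
  · have h0 : ∑ s : Fin chevE7.nroots, EM K r.val (Sum.inr u) (Sum.inr s) * X (Sum.inr s) = 0 := by
      refine Finset.sum_eq_zero fun s _ => ?_
      rw [EM_rr]
      have hF : F7 r.val s.val = [] ∨ X (Sum.inr s) = 0 := by
        rcases pr_cases β hβ s.val s.2 with ⟨h3, -⟩ | ⟨h3, -⟩ | ⟨-, h3⟩ | ⟨-, h3⟩
        · left
          obtain ⟨h4, h5⟩ := pr_F7 β hβ s.val s.2 h3
          rcases hr with hr | hr <;> rw [hr]
          · exact h4
          · exact h5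
        · exact Or.inr (hX s h3)
        · left
          have hβ' := BL_lt hβ
          rcases hr with hr | hr
          · rw [h3, ← hr]; exact F7_self hrl
          · have : s.val = 125 - r.val := by omega
            rw [this]; exact F7_neg hrl
        · left
          rcases hr with hr | hr
          · rw [h3, ← hr]; exact F7_neg hrl
          · rw [h3, ← hr]; exact F7_self hrl
      rcases hF with hF | hF
      · rw [cf_nil hF, Int.cast_zero, zero_mul]
      · rw [hF, mul_zero]
    rw [h0, add_zero]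
    show _ = X (Sum.inr (ng r)) * 0 - al r.val X * er K r (Sum.inr u)
    rw [mul_zero, zero_sub, er]
    by_cases hu : u = r
    · subst hu
      rw [Pi.single_eq_same, mul_one, al, ← Finset.sum_neg_distrib]
      refine Finset.sum_congr rfl fun i _ => ?_
      rw [EM_rl, if_pos rfl, neg_mul]
    · rw [Pi.single_eq_of_ne (by simpa using hu), mul_zero, neg_zero]
      refine Finset.sum_eq_zero fun i _ => ?_
      rw [EM_rl, if_neg (fun h => hu (Fin.ext h)), zero_mul]

/-- the action of the root elements -/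
theorem xs_fix {β : ℕ} (hβ : β ∈ BL) {r : Fin chevE7.nroots} (hr : r.val = β ∨ r.val = 125 - β) {X : chevE7.Idx → K}
    (hX : Ev β X) (t : K) : L K (xs K r.val t) X =
      X + t • (X (Sum.inr (ng r)) • hv K r.val - al r.val X • er K r) + t ^ 2 • (-X (Sum.inr (ng r))) • er K r := by
  rw [L_xs (show r.val < 126 from r.2), EM_fix hβ hr hX, QM_mulVec]

end

end Cfsg.Agent.R2.T1.Five
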