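import Mathlib
import Cfsg.Agent.R2.T1.Inf.Cnt
import Cfsg.Agent.H952.F4.Gen
import Cfsg.Agent.H952.F4.Scott

/-!
# The group-theoretic part of the case `n = 5` (helper25)

* `a0`, `b0` : generators of `A₅` of orders 2 and 3 with product of order 5;
* `cen_five` : the centralizer of an element of order 5 in the maximal subgroup contains no involution.
-/

set_option autoImplicit false
set_option maxRecDepth 100000

namespace Cfsg.Agent.R2.T1.Five

open Cfsg Cfsg.Lie Module Equiv Equiv.Perm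
open Cfsg.Agent.H952.F4 (MaxAlt)
open Cfsg.Agent.R2.T1

/-- the alternating group of degree 5 -/
abbrev A5 : Type := ↥(alternatingGroup (Fin 5))

/-- an involution -/
def a0 : A5 := ⟨swap 0 4 * swap 1 2, by rw [mem_alternatingGroup]; decide⟩

/-- an element of order 3 -/
def b0 : A5 := ⟨swap 2 3 * swap 3 4, by rw [mem_alternatingGroup]; decide⟩

/-- an element of order 5 -/
def w0 : A5 := a0 * b0

theorem a0_sq : a0 * a0 = 1 := by decide +kernel
theorem a0_ne : a0 ≠ 1 := by decide +kernel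
theorem b0_cube : b0 ^ 3 = 1 := by decide +kernel
theorem b0_ne : b0 ≠ 1 := by decide +kernel
theorem w0_pow : w0 ^ 5 = 1 := by decide +kernel
theorem w0_ne : w0 ≠ 1 := by decide +kernel
theorem a0_type : (a0 : Perm (Fin 5)).cycleType = {2, 2} := by decide +kernel

theorem clos : Subgroup.closure {a0, b0} = ⊤ := by
  rw [eq_top_iff]
  intro σ _
  have h1 : (σ : Perm (Fin 5)) ∈ Subgroup.closure {(a0 : Perm (Fin 5)), (b0 : Perm (Fin 5))} := by
    refine Cfsg.Agent.H952.F4.Gen.mem_of_star (n := 3) _ ?_ ?_ σ.2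
    · rw [Subgroup.closure_le]
      rintro z (rfl | rfl)
      · exact a0.2
      · exact b0.2
    · have hW : ∀ k : Fin 5, k ≠ 0 → Cfsg.Agent.H952.F4.Gen.ev (a0 : Perm (Fin 5)) (b0 : Perm (Fin 5))
          ((![[], [], [3, 0, 3, 0, 2], [0, 3, 0], [2, 0, 3, 0, 3]] : Fin 5 → List (Fin 4)) k) = swap 0 1 * swap 0 k := by
        decide +kernel
      intro k hk
      rw [← hW k hk]
      exact Cfsg.Agent.H952.F4.Gen.ev_mem (Subgroup.subset_closure (by simp)) (Subgroup.subset_closure (by simp)) _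
  have h2 : (Subgroup.closure {a0, b0}).map (alternatingGroup (Fin 5)).subtype =
      Subgroup.closure {(a0 : Perm (Fin 5)), (b0 : Perm (Fin 5))} := by
    rw [MonoidHom.map_closure, Set.image_pair]
    rfl
  rw [← h2] at h1
  obtain ⟨τ, hτ, h3⟩ := h1
  rwa [← Subtype.ext h3]

theorem orbit5 : ∀ b : A5, b * b = 1 → b ≠ 1 → (b * w0) ^ 3 = 1 → ∃ i < 5, b = w0 ^ i * a0 * (w0 ^ i)⁻¹ := by
  decide +kernel

theorem sq_one : ∀ i < 5, (w0 ^ i) * (w0 ^ i) = 1 → w0 ^ i = 1 := by decide +kernel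

universe u

section

variable {F : Type u} [Field F] [Finite F] {H : Subgroup ↥(chevE7.group F)} {φ : A5 →* ↥(chevE7.group F)}

/-- elements commuting with the images of the generators are trivial -/
theorem cen_gen (hM : MaxAlt H 5 φ) {z : ↥(chevE7.group F)} (h1 : φ a0 * z = z * φ a0) (h2 : φ w0 * z = z * φ w0) :
    z = 1 := by
  refine centralizer_eq hM (by norm_num) fun a => ?_
  have hb : φ b0 * z = z * φ b0 := by
    have e : b0 = a0 * w0 := by rw [w0, ← mul_assoc, a0_sq, one_mul]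
    rw [e, map_mul, mul_assoc, h2, ← mul_assoc, h1, mul_assoc]
  refine Cfsg.Agent.H952.F4.Scott.fix_all (P := fun a => φ a * z = z * φ a) clos h1 hb ?_ ?_ ?_ a
  · rw [map_one, one_mul, mul_one]
  · intro a b ha hb
    rw [map_mul, mul_assoc, hb, ← mul_assoc, ha, mul_assoc]
  · intro a ha
    rw [map_inv]
    rw [inv_mul_eq_iff_eq_mul, ← mul_assoc, ha, mul_assoc, mul_inv_cancel, mul_one]

/-- an involution of the maximal subgroup does not commute with an element of order 5 -/
theorem cen_five (hM : MaxAlt H 5 φ) {z : ↥(chevE7.group F)} (hz : z ∈ H) (hc : φ w0 * z = z * φ w0) (h2 : z * z = 1) :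
    z = 1 := by
  obtain ⟨b, hb⟩ : ∃ b, φ b = z * φ a0 * z⁻¹ := hM.norm z hz _ ⟨a0, rfl⟩
  have hinj := hM.inj
  have hw : z * φ w0 * z⁻¹ = φ w0 := by rw [← hc, mul_inv_cancel_right]
  have h3 : b * b = 1 := by
    apply hinj
    rw [map_mul, hb, map_one]
    have : z * φ a0 * z⁻¹ * (z * φ a0 * z⁻¹) = z * (φ a0 * φ a0) * z⁻¹ := by group
    rw [this, ← map_mul, a0_sq, map_one, mul_one, mul_inv_cancel]
  have h4 : b ≠ 1 := by
    rintro rfl
    rw [map_one] at hb
    apply a0_ne
    apply hinj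
    have : φ a0 = z⁻¹ * (z * φ a0 * z⁻¹) * z := by group
    rw [this, ← hb, map_one]
    group
  have h5 : (b * w0) ^ 3 = 1 := by
    apply hinj
    rw [map_pow, map_mul, hb, map_one]
    have e : z * φ a0 * z⁻¹ * φ w0 = z * (φ a0 * φ w0) * z⁻¹ := by
      conv_lhs => rw [← hw]
      group
    have e2 : a0 * w0 = b0 := by rw [w0, ← mul_assoc, a0_sq, one_mul]
    rw [e, ← map_mul, e2, conj_pow, ← map_pow, b0_cube, map_one, mul_one, mul_inv_cancel]
  obtain ⟨i, hi, hbi⟩ := orbit5 b h3 h4 h5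
  have hci : ∀ i : ℕ, φ w0 ^ i * z = z * φ w0 ^ i := by
    intro i
    exact (Commute.pow_left (show Commute (φ w0) z from hc) i)
  have h6 : φ (w0 ^ i)⁻¹ * z = 1 := by
    refine cen_gen hM ?_ ?_
    · have e1 : z * φ a0 = φ (w0 ^ i) * φ a0 * φ (w0 ^ i)⁻¹ * z := by
        have := hb
        rw [hbi, map_mul, map_mul] at this
        rw [this]
        group
      have e2 : φ (w0 ^ i)⁻¹ * z * φ a0 = φ a0 * φ (w0 ^ i)⁻¹ * z := by
        rw [mul_assoc, e1, map_inv]
        group
      rw [e2, mul_assoc]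
    · have e1 : Commute (φ w0) (φ (w0 ^ i)⁻¹) := by
        rw [map_inv, map_pow]
        exact ((Commute.refl _).pow_right i).inv_right
      exact (e1.mul_right (show Commute (φ w0) z from hc))
  have h7 : z = φ (w0 ^ i) := by
    rw [map_inv, inv_mul_eq_one] at h6
    exact h6.symm
  have h8 : w0 ^ i * w0 ^ i = 1 := by
    apply hinj
    rw [map_mul, ← h7, h2, map_one]
  rw [h7, sq_one i hi h8, map_one]

end

end Cfsg.Agent.R2.T1.Five
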