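import Mathlib
import Cfsg.Agent.R2.T1.Five.Inv
import Cfsg.Agent.R2.T1.Inf.Desc
import Cfsg.Agent.R2.T1.Inf.Frame
import Cfsg.Agent.R2.T1.Inf.Ext
import Cfsg.Agent.R2.T1.Inf.Cnt

/-!
# The involution attached to an element of order 5 with 16 fixed weights, over finite fields (helper25)
-/

set_option autoImplicit false
set_option maxRecDepth 100000

namespace Cfsg.Agent.R2.T1.Five

open Cfsg Cfsg.Lie Module
open Cfsg.Agent.H943.E7V.Block (D1 rho)
open Cfsg.Agent.H952.F4 (ev es)
open Cfsg.Agent.R2.T1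

universe u v

theorem Tw.ad_ne {K : Type u} [Field K] (h2 : (2 : K) ≠ 0) {x τ : Gh K} (h : Tw x τ) : ad K τ ≠ 1 := by
  intro h1
  rcases ad_eq_one_iff.1 h1 with h3 | h3
  · have h4 := h.2.2.2
    rw [h3] at h4
    have h5 : ev (1 : Module.End K (D1 → K)) 1 = 56 := by
      have h6 : (1 : Module.End K (D1 → K)).eigenspace 1 = ⊤ := by
        rw [eq_top_iff]
        intro v _
        rw [Module.End.mem_eigenspace_iff, one_smul]
        rfl
      show finrank K ↥((1 : Module.End K (D1 → K)).eigenspace 1) = 56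
      rw [h6, finrank_top]
      exact finrank_V
    omega
  · have h4 := h.2.2.2
    rw [h3] at h4
    have h5 : ev (-1 : Module.End K (D1 → K)) 1 = 0 := by
      have h6 : (-1 : Module.End K (D1 → K)).eigenspace 1 = ⊥ := by
        rw [eq_bot_iff]
        intro v hv
        rw [Module.End.mem_eigenspace_iff, one_smul] at hv
        have h7 : -v = v := hv
        rw [Submodule.mem_bot]
        funext i
        have h8 := congrFun h7 i
        rw [Pi.neg_apply] at h8
        have h9 : (2 : K) * v i = 0 := by linear_combination -h8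
        exact (mul_eq_zero.1 h9).resolve_left h2
      show finrank K ↥((-1 : Module.End K (D1 → K)).eigenspace 1) = 0
      rw [h6, finrank_bot]
    omega

theorem fun_injective {F : Type u} {K : Type v} [Field F] [Field K] (f : F →+* K) {n : Type*} {x y : n → F}
    (h : (fun i => f (x i)) = fun i => f (y i)) : x = y := by
  funext i
  exact f.injective (congrFun h i)

theorem Tw.map {K : Type u} [Field K] (s : K →+* K) (hs : Function.Surjective s) {x τ : Gh K} (h : Tw x τ) :
    Tw (emb s x) (emb s τ) := by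
  obtain ⟨h1, h2, h3, h4⟩ := h
  have hlift : ∀ {n : Type} (y : n → K), ∃ y0 : n → K, y = fun i => s (y0 i) := by
    intro n y
    choose g hg using hs
    exact ⟨fun i => g (y i), funext fun i => (hg (y i)).symm⟩
  refine ⟨?_, ?_, ?_, ?_⟩
  · rw [← map_mul, h1, map_one]
  · intro X hX
    obtain ⟨X0, rfl⟩ := hlift X
    rw [L_emb] at hX
    rw [L_emb, h2 X0 (fun_injective s hX)]
  · intro v hv
    obtain ⟨v0, rfl⟩ := hlift v
    rw [V_emb] at hv
    rw [V_emb, h3 v0 (fun_injective s hv)]
    funext i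
    rw [Pi.neg_apply, Pi.neg_apply, map_neg]
  · have h5 := ev_V s τ 1
    rw [map_one] at h5
    rw [h5, h4]

/-- **The involution over finite fields.** -/
theorem exists_tauF {F : Type u} [Field F] [Finite F] (h2 : (2 : F) ≠ 0) (h5 : (5 : F) ≠ 0) {x : Gh F} (hx : x ^ 5 = 1)
    (h16 : ev (V F x) 1 = 16) :
    ∃ τ : Gh F, τ * τ = 1 ∧ ad F τ ≠ 1 ∧ τ * x = x * τ ∧ ∀ X, L F x X = X → L F τ X = X := by
  have := Fintype.ofFinite F
  obtain ⟨p, hp⟩ := CharP.exists F
  have hpp : Fact p.Prime := ⟨CharP.char_is_prime F p⟩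
  have hcop : (5 : ℕ).Coprime p := by
    rw [Nat.coprime_primes (by norm_num) hpp.out]
    rintro rfl
    apply h5
    exact_mod_cast CharP.cast_eq_zero F 5
  set K := AlgebraicClosure F with hK
  set f : F →+* K := algebraMap F K with hf
  have hfr := frame p (by norm_num : (5 : ℕ) ≠ 0) hcop hx
  have h2K : (2 : K) ≠ 0 := by
    have h := (map_ne_zero f).2 h2
    rwa [map_ofNat] at h
  have h5K : ((5 : ℕ) : K) ≠ 0 := by
    have h := (map_ne_zero f).2 h5
    rw [map_ofNat] at h
    exact_mod_cast h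
  have : NeZero ((5 : ℕ) : K) := ⟨h5K⟩
  obtain ⟨ζ, hζ⟩ : ∃ ζ : K, IsPrimitiveRoot ζ 5 := HasEnoughRootsOfUnity.exists_primitiveRoot K 5
  have hz : IsPrimitiveRoot (Units.mk0 ζ (hζ.ne_zero (by norm_num))) 5 := by
    rw [← IsPrimitiveRoot.coe_units_iff]
    exact hζ
  have h16' : ev (V K (emb f x)) 1 = 16 := by rw [ev_V_one, h16]
  obtain ⟨τ, hτ, hu⟩ := exists_tau h2K hz hfr h16'
  let s : K →+* K := (FiniteField.frobeniusAlgEquivOfAlgebraic F K : K →+* K)
  have hs : ∀ t, s t = t ^ Nat.card F := by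
    intro t
    rw [Nat.card_eq_fintype_card]
    rfl
  have hsurj : Function.Surjective s := (FiniteField.frobeniusAlgEquivOfAlgebraic F K).surjective
  have h7 : emb s τ = τ := by
    apply hu
    have h8 := hτ.map s hsurj
    rwa [emb_frob f s hs] at h8
  obtain ⟨τ0, rfl⟩ := exists_of_emb_eq f s hs h7
  have hinj := emb_injective f
  refine ⟨τ0, ?_, ?_, ?_, ?_⟩
  · apply hinj
    rw [map_mul, hτ.1, map_one]
  · intro h8
    exact hτ.ad_ne h2K ((ad_emb_eq_one_iff f τ0).2 h8)
  · have h8 := hu _ (by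
      have h9 := hτ.conj (emb f x)
      have e : emb f x * emb f x * (emb f x)⁻¹ = emb f x := by group
      rwa [e] at h9)
    apply hinj
    rw [map_mul, map_mul]
    nth_rewrite 1 [← h8]
    group
  · intro X hX
    apply fun_injective f
    rw [← L_emb]
    apply hτ.2.1
    rw [L_emb, hX]

end Cfsg.Agent.R2.T1.Five
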