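import Mathlib
import Cfsg.Agent.R2.T1.Five.Grp
import Cfsg.Agent.R2.T1.Five.InvF

/-!
# `n = 5`, the elements of order 5 are rational, odd characteristic (helper25)

* `no_inv` : if the elements of order 5 of `A₅` have 16 eigenvalues 1 on the module of degree 56, then `A₅` has no non-zero
  fixed vector on the adjoint module.
-/

set_option autoImplicit false
set_option maxRecDepth 100000

namespace Cfsg.Agent.R2.T1.Five

open Cfsg Cfsg.Lie Module Equiv Equiv.Perm
open Cfsg.Agent.H943.E7V.Block (D1 rho)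
open Cfsg.Agent.H952.F4 (ev es MaxAlt)
open Cfsg.Agent.R2.T1

universe u

section

variable {F : Type u} [Field F] [Finite F] {H : Subgroup ↥(chevE7.group F)} {φ : A5 →* ↥(chevE7.group F)}

/-- the index of `A₅` in the maximal subgroup is at most 2 -/
theorem coset (hM : MaxAlt H 5 φ) {h h' : ↥(chevE7.group F)} (hh : h ∈ H) (hh' : h' ∈ H) (h1 : h ∉ φ.range)
    (h2 : h' ∉ φ.range) : h * h' ∈ φ.range := by
  have hH : Finite ↥H := inferInstance
  let N : Subgroup ↥H := φ.range.subgroupOf H
  have hN : Nat.card ↥N = 60 := by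
    have e1 : Nat.card ↥N = Nat.card ↥φ.range := Nat.card_congr (Subgroup.subgroupOfEquivOfLe hM.le).toEquiv
    have e2 : Nat.card ↥φ.range = Nat.card A5 := Nat.card_congr (MonoidHom.ofInjective hM.inj).toEquiv.symm
    have e3 : Nat.card A5 = 60 := by
      have h := nat_card_alternatingGroup (α := Fin 5)
      rw [Nat.card_fin] at h
      exact h.trans (by decide)
    rw [e1, e2, e3]
  have hc := hM.card
  rw [if_neg (by norm_num)] at hc
  have h5 : Nat.factorial 5 = 120 := by decide
  rw [h5] at hc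
  have hi := N.card_mul_index
  rw [hN] at hi
  have hi1 : N.index ≠ 1 := by
    intro h3
    rw [Subgroup.index_eq_one] at h3
    have h4 : (⟨h, hh⟩ : ↥H) ∈ N := by rw [h3]; exact Subgroup.mem_top _
    exact h1 (Subgroup.mem_subgroupOf.1 h4)
  have hi0 : N.index ≠ 0 := Subgroup.index_ne_zero_of_finite
  have hi2 : N.index = 2 := by omega
  have h3 := (Subgroup.mul_mem_iff_of_index_two hi2 (a := ⟨h, hh⟩) (b := ⟨h', hh'⟩)).2
    ⟨fun h4 => absurd (Subgroup.mem_subgroupOf.1 h4) h1, fun h4 => absurd (Subgroup.mem_subgroupOf.1 h4) h2⟩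
  exact Subgroup.mem_subgroupOf.1 h3

theorem LK_mul (g h : ↥(chevE7.group F)) (v : chevE7.Idx → F) : LK F (g * h) v = LK F g (LK F h v) := by
  rw [map_mul, Module.End.mul_apply]

/-- a fixed line -/
theorem exists_line (hM : MaxAlt H 5 φ) (hW : Representation.invariants (MonoidHom.comp (LK F) φ) ≠ ⊥) :
    ∃ w : chevE7.Idx → F, w ≠ 0 ∧ (∀ a, LK F (φ a) w = w) ∧ ∀ h ∈ H, LK F h w = w ∨ LK F h w = -w := by
  obtain ⟨v, hv, hv0⟩ := Submodule.exists_mem_ne_zero_of_ne_bot hW
  rw [Representation.mem_invariants] at hv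
  have hv' : ∀ a, LK F (φ a) v = v := hv
  by_cases hall : ∀ h ∈ H, LK F h v = v
  · exact ⟨v, hv0, hv', fun h hh => Or.inl (hall h hh)⟩
  · push Not at hall
    obtain ⟨h, hh, hne⟩ := hall
    have hhr : h ∉ φ.range := by
      rintro ⟨a, rfl⟩
      exact hne (hv' a)
    have hfix : ∀ a, LK F (φ a) (LK F h v) = LK F h v := by
      intro a
      obtain ⟨b, hb⟩ := hM.norm h⁻¹ (inv_mem hh) _ ⟨a, rfl⟩
      rw [inv_inv] at hb
      have e : φ a * h = h * φ b := by rw [hb]; group
      rw [← LK_mul, e, LK_mul, hv']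
    have hsq : ∀ k ∈ H, k ∉ φ.range → LK F k (LK F h v) = v := by
      intro k hk hkr
      obtain ⟨a, ha⟩ := coset hM hk hh hkr hhr
      rw [← LK_mul, ← ha, hv']
    have hkv : ∀ k ∈ H, k ∉ φ.range → LK F k v = LK F h v := by
      intro k hk hkr
      have h1 : k⁻¹ ∉ φ.range := fun h2 => hkr (by simpa using inv_mem h2)
      have h2 := hsq k⁻¹ (inv_mem hk) h1
      nth_rewrite 1 [← h2]
      rw [← LK_mul, mul_inv_cancel, map_one, Module.End.one_apply]
    refine ⟨v - LK F h v, sub_ne_zero.2 (Ne.symm hne), fun a => ?_, fun k hk => ?_⟩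
    · rw [map_sub, hv', hfix]
    · by_cases hkr : k ∈ φ.range
      · obtain ⟨a, rfl⟩ := hkr
        left
        rw [map_sub, hv', hfix]
      · right
        rw [map_sub, hsq k hk hkr, hkv k hk hkr, neg_sub]

/-- **no fixed vector on the adjoint module if the elements of order 5 are rational** -/
theorem no_inv (h2 : (2 : F) ≠ 0) (h5 : (5 : F) ≠ 0) (hL : Irr (L F)) (hM : MaxAlt H 5 φ) {x : Gh F} (hx : x ^ 5 = 1)
    (hxw : ad F x = φ w0) (h16 : ev (V F x) 1 = 16) : Representation.invariants (MonoidHom.comp (LK F) φ) = ⊥ := by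
  by_contra hW
  obtain ⟨w, hw0, hwφ, hwH⟩ := exists_line hM hW
  obtain ⟨τ, t1, t2, t3, t4⟩ := exists_tauF h2 h5 hx h16
  have hfix : L F x w = w := by rw [L_eq, hxw, hwφ]
  have hτw : L F τ w = w := t4 w hfix
  let U : Submodule F (chevE7.Idx → F) := Submodule.span F {w}
  have hU : ∀ {g : Gh F} {c : F}, L F g w = c • w → ∀ u ∈ U, L F g u ∈ U := by
    intro g c hg u hu
    obtain ⟨t, rfl⟩ := Submodule.mem_span_singleton.1 hu
    rw [map_smul, hg]
    exact Submodule.smul_mem _ _ (Submodule.smul_mem _ _ (Submodule.mem_span_singleton_self w))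
  have hstab : Stab (L F) H U := by
    intro g hg
    rcases hwH _ hg with h | h
    · exact hU (c := 1) (by rw [L_eq, h, one_smul])
    · exact hU (c := -1) (by rw [L_eq, h, neg_one_smul])
  have hfr : finrank F ↥U = 1 := finrank_span_singleton hw0
  have hU0 : U ≠ ⊥ := by
    intro h
    rw [h, finrank_bot] at hfr
    exact absurd hfr (by norm_num)
  have hU1 : U ≠ ⊤ := by
    intro h
    rw [h, finrank_top, Module.finrank_fintype_fun_eq_card, Fintype.card_sum, Fintype.card_fin, Fintype.card_fin] at hfr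
    exact absurd hfr (by decide)
  have hH : ad F τ ∈ H := blue_of hM.coatom hL hstab hU0 hU1 (hU (c := 1) (by rw [hτw, one_smul]))
  apply t2
  apply cen_five hM hH
  · rw [← hxw, ← map_mul, ← map_mul, t3]
  · rw [← map_mul, t1, map_one]

end

end Cfsg.Agent.R2.T1.Five
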