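import Mathlib
import Cfsg.Agent.R2.T1.Five.Beta

/-!
# Normal forms of the fixed vectors of an involution with 32 fixed weights (helper25)
-/

set_option autoImplicit false
set_option linter.unusedSectionVars false
set_option maxRecDepth 100000

namespace Cfsg.Agent.R2.T1.Five

open Cfsg Cfsg.Lie Module Matrix
open Cfsg.Agent.ChevalleyStructure Cfsg.Agent.ChevalleyStructure.Elts Cfsg.Agent.ChevalleyStructure.Columns
open Cfsg.Agent.R2.T1

universe u

section
variable {K : Type u} [Field K] {β : ℕ}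

theorem pr_neg {r : ℕ} (hr : r < 126) : pr β (125 - r) = - pr β r := by
  unfold pr
  rw [← Finset.sum_neg_distrib]
  refine Finset.sum_congr rfl fun i _ => ?_
  rw [car_neg7 i.val i.2 r hr]
  ring

/-- the root elements of even roots commute with the involution -/
theorem xs_comm (hβ : β ∈ BL) {r : Fin chevE7.nroots} (hr : ¬ (pr β r.val = 1 ∨ pr β r.val = -1)) (t : K) :
    xs K r.val t * Phi K (hb β (-1)) = Phi K (hb β (-1)) * xs K r.val t := by
  have hrl : r.val < 126 := r.2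
  set z := Phi K (hb β (-1)) with hz
  have h := Phi_xs (K := K) (hb β (-1)) hrl t
  have h1 : rtv r.val (hb β (-1 : Kˣ)) = 1 := by
    rw [rtv_hb]
    rcases pr_cases β hβ r.val hrl with ⟨h3, -⟩ | ⟨h3, -⟩ | ⟨h3, -⟩ | ⟨h3, -⟩
    · rw [h3, zpow_zero]
    · exact absurd h3 hr
    · rw [h3]; norm_num
    · rw [h3]; norm_num
  rw [h1, Units.val_one, one_mul, ← hz] at h
  nth_rewrite 1 [← h]
  group

theorem pr_pm (hβ : β ∈ BL) {r : Fin chevE7.nroots} (hr : r.val = β ∨ r.val = 125 - β) :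
    ¬ (pr β r.val = 1 ∨ pr β r.val = -1) := by
  have hβl := BL_lt hβ
  rcases hr with hr | hr
  · rw [hr, pr_self hβl]; norm_num
  · rw [hr, pr_neg hβl, pr_self hβl]; norm_num

theorem ng_ne (r : Fin chevE7.nroots) : ng r ≠ r := by
  intro h
  have := congrArg Fin.val h
  rw [ng_val] at this
  have hrl : r.val < 126 := r.2
  omega

/-- the coordinates -/
theorem xs_coord (hβ : β ∈ BL) {r : Fin chevE7.nroots} (hr : r.val = β ∨ r.val = 125 - β) {X : chevE7.Idx → K}
    (hX : Ev β X) (t : K) :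
    L K (xs K r.val t) X (Sum.inr r) = X (Sum.inr r) - t * al r.val X - t ^ 2 * X (Sum.inr (ng r)) ∧
    L K (xs K r.val t) X (Sum.inr (ng r)) = X (Sum.inr (ng r)) ∧
    al r.val (L K (xs K r.val t) X) = al r.val X + 2 * t * X (Sum.inr (ng r)) := by
  rw [xs_fix hβ hr hX]
  have e0 : hv K r.val (Sum.inr r) = 0 := rfl
  have e1 : hv K r.val (Sum.inr (ng r)) = 0 := rfl
  have e2 : er K r (Sum.inr r) = 1 := by rw [er, Pi.single_eq_same]
  have e3 : er K r (Sum.inr (ng r)) = 0 := by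
    rw [er, Pi.single_eq_of_ne (by simpa using ng_ne r)]
  refine ⟨?_, ?_, ?_⟩
  · simp only [Pi.add_apply, Pi.smul_apply, Pi.sub_apply, smul_eq_mul, e0, e2]
    ring
  · simp only [Pi.add_apply, Pi.smul_apply, Pi.sub_apply, smul_eq_mul, e1, e3]
    ring
  · rw [sub_eq_add_neg, ← neg_smul]
    simp only [al_add, al_smul, al_er, al_hv, pr_self (show r.val < 126 from r.2)]
    push_cast
    ring

/-- the invariant -/
def Qn (b : Fin chevE7.nroots) (X : chevE7.Idx → K) : K := al b.val X ^ 2 + 4 * X (Sum.inr b) * X (Sum.inr (ng b))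

theorem Ev_L (h2 : (2 : K) ≠ 0) (hβ : β ∈ BL) {g : Gh K} (hg : g * Phi K (hb β (-1)) = Phi K (hb β (-1)) * g)
    {X : chevE7.Idx → K} (hX : Ev β X) : Ev β (L K g X) := by
  rw [← tb_fix_iff h2 hβ] at hX ⊢
  rw [← Module.End.mul_apply, ← map_mul, ← hg, map_mul, Module.End.mul_apply, hX]

/-- **normal forms** -/
theorem nrm [IsAlgClosed K] (h2 : (2 : K) ≠ 0) (hβ : β ∈ BL) {b : Fin chevE7.nroots} (hb' : b.val = β)
    {X : chevE7.Idx → K} (hX : Ev β X) :
    (X (Sum.inr b) = 0 ∧ X (Sum.inr (ng b)) = 0 ∧ al β X = 0) ∨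
    (Qn b X = 0 ∧ ∃ g : Gh K, g * Phi K (hb β (-1)) = Phi K (hb β (-1)) * g ∧ ∃ r : Fin chevE7.nroots,
      (r = b ∨ r = ng b) ∧ al β (L K g X) = 0 ∧ L K g X (Sum.inr (ng r)) = 0 ∧ L K g X (Sum.inr r) ≠ 0) ∨
    (∃ g : Gh K, g * Phi K (hb β (-1)) = Phi K (hb β (-1)) * g ∧ L K g X (Sum.inr b) = 0 ∧
      L K g X (Sum.inr (ng b)) = 0 ∧ al β (L K g X) ≠ 0 ∧ al β (L K g X) ^ 2 = Qn b X) := by
  have hβl := BL_lt hβ
  have h4 : (4 : K) ≠ 0 := by
    have : (4 : K) = 2 * 2 := by norm_num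
    rw [this]; exact mul_ne_zero h2 h2
  have hbr : b.val = β ∨ b.val = 125 - β := Or.inl hb'
  have hnr : (ng b).val = β ∨ (ng b).val = 125 - β := Or.inr (by rw [ng_val, hb'])
  have hone : (1 : Gh K) * Phi K (hb β (-1)) = Phi K (hb β (-1)) * 1 := by rw [one_mul, mul_one]
  have hL1 : L K (1 : Gh K) X = X := by rw [map_one]; rfl
  by_cases hz : X (Sum.inr b) = 0 ∧ X (Sum.inr (ng b)) = 0 ∧ al β X = 0
  · exact Or.inl hz
  right
  by_cases hq : Qn b X = 0
  · left
    refine ⟨hq, ?_⟩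
    unfold Qn at hq
    rw [hb'] at hq
    by_cases hn : X (Sum.inr (ng b)) = 0
    · rw [hn, mul_zero, add_zero] at hq
      have hal : al β X = 0 := by
        rw [pow_eq_zero_iff (by norm_num)] at hq
        exact hq
      refine ⟨1, hone, b, Or.inl rfl, ?_, ?_, ?_⟩
      · rw [hL1]; exact hal
      · rw [hL1]; exact hn
      · rw [hL1]
        intro h
        exact hz ⟨h, hn, hal⟩
    · obtain ⟨c1, c2, c3⟩ := xs_coord hβ hbr hX (-(al β X) / (2 * X (Sum.inr (ng b))))
      rw [hb'] at c1 c2 c3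
      refine ⟨xs K β (-(al β X) / (2 * X (Sum.inr (ng b)))), ?_, ng b, Or.inr rfl, ?_, ?_, ?_⟩
      · have h := xs_comm hβ (pr_pm hβ hbr) (-(al β X) / (2 * X (Sum.inr (ng b))))
        rw [hb'] at h
        exact h
      · rw [c3]
        field_simp
        ring
      · rw [ng_ng, c1]
        field_simp
        linear_combination hq
      · rw [c2]; exact hn
  · right
    obtain ⟨δ, hδ⟩ := IsAlgClosed.exists_pow_nat_eq (Qn b X) (n := 2) (by norm_num)
    have hδ0 : δ ≠ 0 := by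
      rintro rfl
      apply hq
      rw [← hδ]; norm_num
    have hq' : δ ^ 2 = al β X ^ 2 + 4 * X (Sum.inr b) * X (Sum.inr (ng b)) := by rw [hδ, Qn, hb']
    by_cases hn : X (Sum.inr (ng b)) = 0
    · rw [hn, mul_zero, add_zero] at hq'
      have hal : al β X ≠ 0 := by
        intro h
        rw [h] at hq'
        apply hδ0
        rw [← pow_eq_zero_iff (n := 2) (by norm_num), hq']; norm_num
      obtain ⟨c1, c2, c3⟩ := xs_coord hβ hbr hX (X (Sum.inr b) / al β X)
      rw [hb'] at c1 c2 c3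
      refine ⟨xs K β (X (Sum.inr b) / al β X), ?_, ?_, ?_, ?_, ?_⟩
      · have h := xs_comm hβ (pr_pm hβ hbr) (X (Sum.inr b) / al β X)
        rw [hb'] at h
        exact h
      · rw [c1, hn]
        field_simp
        ring
      · rw [c2, hn]
      · rw [c3, hn, mul_zero, add_zero]; exact hal
      · rw [c3, hn, mul_zero, add_zero, ← hδ, hq']
    · obtain ⟨c1, c2, c3⟩ := xs_coord hβ hbr hX ((-(al β X) + δ) / (2 * X (Sum.inr (ng b))))
      rw [hb'] at c1 c2 c3
      set g1 := xs K β ((-(al β X) + δ) / (2 * X (Sum.inr (ng b)))) with hg1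
      have hg1c : g1 * Phi K (hb β (-1)) = Phi K (hb β (-1)) * g1 := by
        have h := xs_comm hβ (pr_pm hβ hbr) ((-(al β X) + δ) / (2 * X (Sum.inr (ng b))))
        rw [hb'] at h
        exact h
      have d1 : L K g1 X (Sum.inr b) = 0 := by
        rw [c1]
        field_simp
        linear_combination -hq'
      have d3 : al β (L K g1 X) = δ := by
        rw [c3]
        field_simp
        ring
      have hX1 := Ev_L h2 hβ hg1c hX
      obtain ⟨e1, e2, e3⟩ := xs_coord hβ hnr hX1 (-(X (Sum.inr (ng b))) / δ)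
      have hng : (ng b).val = 125 - β := by rw [ng_val, hb']
      rw [hng, ng_ng] at e1 e2 e3
      rw [al_neg hβl] at e1 e3
      rw [d1] at e1 e2 e3
      set g2 := xs K (125 - β) (-(X (Sum.inr (ng b))) / δ) with hg2
      have hg2c : g2 * Phi K (hb β (-1)) = Phi K (hb β (-1)) * g2 := by
        have h := xs_comm hβ (pr_pm hβ hnr) (-(X (Sum.inr (ng b))) / δ)
        rw [hng] at h
        exact h
      have hLm : L K (g2 * g1) X = L K g2 (L K g1 X) := by rw [map_mul, Module.End.mul_apply]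
      rw [mul_zero, add_zero, al_neg hβl, neg_inj, d3] at e3
      refine ⟨g2 * g1, ?_, ?_, ?_, ?_, ?_⟩
      · rw [mul_assoc, hg1c, ← mul_assoc, hg2c, mul_assoc]
      · rw [hLm, e2]
      · rw [hLm, e1, c2, d3, mul_zero, sub_zero]
        field_simp
        ring
      · rw [hLm, e3]; exact hδ0
      · rw [hLm, e3, hδ]

end

end Cfsg.Agent.R2.T1.Five
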