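import Mathlib
import Cfsg.Agent.R2.T1.Five.Beta

/-!
# The trace form of an involution with 32 fixed weights (helper25)

* `BF_tb` : the trace form of `Phi K (hb β (-1))` on its fixed vectors.
-/

set_option autoImplicit false
set_option linter.unusedSectionVars false
set_option maxRecDepth 100000

namespace Cfsg.Agent.R2.T1.Five

open Cfsg Cfsg.Lie Module Matrix
open Cfsg.Agent.ChevalleyStructure Cfsg.Agent.ChevalleyStructure.Elts Cfsg.Agent.ChevalleyStructure.Columns
open Cfsg.Agent.R2.T1

universe u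

section
variable {K : Type u} [Field K]

/-- the forms `kf` and `al` -/
theorem kf_hv {r : ℕ} (hr : r < 126) (X : chevE7.Idx → K) : kf K X (hv K r) = al r X := by
  rw [kf_apply, dotProduct, Fintype.sum_sum_type, al]
  have h0 : ∑ u : Fin chevE7.nroots, X (Sum.inr u) * (KM K *ᵥ hv K r) (Sum.inr u) = 0 := by
    refine Finset.sum_eq_zero fun u _ => ?_
    rw [KM_mulVec_inr]
    show X (Sum.inr u) * 0 = 0
    rw [mul_zero]
  rw [h0, add_zero]
  refine Finset.sum_congr rfl fun i _ => ?_
  rw [KM_mulVec_inl]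
  have h1 := congrArg (Int.cast (R := K)) (sum_car_simple r hr i.val i.2)
  push_cast at h1
  rw [mul_comm, ← h1]
  rfl

/-- vectors of the Cartan subalgebra are fixed by the torus -/
theorem Phi_inl (a : Fin chevE7.rank → Kˣ) {X : chevE7.Idx → K} (h : ∀ s, X (Sum.inr s) = 0) : L K (Phi K a) X = X := by
  funext i
  rw [Five.L_Phi]
  rcases i with i | s
  · rw [Sum.elim_inl, one_mul]
  · rw [h, mul_zero]

theorem Phi_er (a : Fin chevE7.rank → Kˣ) (s : Fin chevE7.nroots) :
    L K (Phi K a) (er K s) = ((rtv s.val a : Kˣ) : K) • er K s := by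
  funext i
  rw [Five.L_Phi, Pi.smul_apply, smul_eq_mul]
  rcases i with i | u
  · rw [er, Pi.single_eq_of_ne (by simp), mul_zero, mul_zero]
  · by_cases hu : u = s
    · subst hu; rfl
    · rw [er, Pi.single_eq_of_ne (by simpa using hu), mul_zero, mul_zero]

theorem Phi_comm (a b : Fin chevE7.rank → Kˣ) : Phi K a * Phi K b = Phi K b * Phi K a := by
  rw [← map_mul, ← map_mul, mul_comm]

theorem zpow_ne {x : Kˣ} (hx : x ^ 12 ≠ 1) {e : ℤ} (he : e ≠ 0) (h1 : -4 ≤ e) (h2 : e ≤ 4) : x ^ e ≠ 1 := by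
  intro h
  apply hx
  have h3 : e = -4 ∨ e = -3 ∨ e = -2 ∨ e = -1 ∨ e = 1 ∨ e = 2 ∨ e = 3 ∨ e = 4 := by omega
  obtain ⟨k, hk⟩ : ∃ k : ℤ, (12 : ℤ) = e * k := by
    rcases h3 with rfl | rfl | rfl | rfl | rfl | rfl | rfl | rfl
    exacts [⟨-3, by norm_num⟩, ⟨-4, by norm_num⟩, ⟨-6, by norm_num⟩, ⟨-12, by norm_num⟩, ⟨12, by norm_num⟩,
      ⟨6, by norm_num⟩, ⟨4, by norm_num⟩, ⟨3, by norm_num⟩]
  have h4 : x ^ (12 : ℤ) = 1 := by rw [hk, _root_.zpow_mul, h, _root_.one_zpow]
  exact_mod_cast h4

theorem exists_sep {x : Kˣ} (hx : x ^ 12 ≠ 1) {s : ℕ} (hs : s < 126) : ∃ a : Fin chevE7.rank → Kˣ, rtv s a ≠ 1 := by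
  by_contra hne
  push Not at hne
  apply codes_pos s hs
  have h0 : code3 s = (List.range 7).foldl (fun a j => 3 * a + (fun _ => 0) j) 0 := by
    refine foldl_congr _ _ _ (fun j hj => ?_) 0
    have hj' := List.mem_range.1 hj
    obtain ⟨b1, b2⟩ := car_bound s hs j hj'
    have h1 := hne (Pi.mulSingle (⟨j, hj'⟩ : Fin chevE7.rank) x)
    rw [rtv_single] at h1
    have h2 : car chevE7 j s = 0 := by
      by_contra h3
      exact zpow_ne hx h3 (by omega) (by omega) h1
    rw [h2]; rfl
  rw [h0]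
  decide

theorem exists_sep2 {x : Kˣ} (hx : x ^ 12 ≠ 1) {r s : ℕ} (hr : r < 126) (hs : s < 126) (h : s ≠ 125 - r) :
    ∃ a : Fin chevE7.rank → Kˣ, rtv r a * rtv s a ≠ 1 := by
  by_contra hne
  push Not at hne
  apply h
  apply code_inj hs (by omega)
  refine foldl_congr _ _ _ (fun j hj => ?_) 0
  have hj' := List.mem_range.1 hj
  obtain ⟨b1, b2⟩ := car_bound s hs j hj'
  obtain ⟨b3, b4⟩ := car_bound r hr j hj'
  have h1 := hne (Pi.mulSingle (⟨j, hj'⟩ : Fin chevE7.rank) x)
  rw [rtv_single, rtv_single, ← _root_.zpow_add] at h1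
  have h2 : car chevE7 j r + car chevE7 j s = 0 := by
    by_contra h3
    exact zpow_ne hx h3 (by omega) (by omega) h1
  rw [car_neg7 j hj' r hr]
  congr 2
  omega

variable {β : ℕ}

/-- the trace form vanishes -/
theorem BF_inl_er {x : Kˣ} (hx : x ^ 12 ≠ 1) {X : chevE7.Idx → K} (h : ∀ s, X (Sum.inr s) = 0) (s : Fin chevE7.nroots)
    (c : Fin chevE7.rank → Kˣ) : BF (Phi K c) X (er K s) = 0 := by
  obtain ⟨a, ha⟩ := exists_sep hx (show s.val < 126 from s.2)
  have h1 := BF_inv (Phi_comm a c) X (er K s)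
  rw [Phi_inl a h, Phi_er, map_smul, smul_eq_mul] at h1
  have h2 : (((rtv s.val a : Kˣ) : K) - 1) * BF (Phi K c) X (er K s) = 0 := by linear_combination h1
  exact (mul_eq_zero.1 h2).resolve_left (sub_ne_zero.2 fun h3 => ha (Units.ext h3))

theorem BF_er_inl {x : Kˣ} (hx : x ^ 12 ≠ 1) {X : chevE7.Idx → K} (h : ∀ s, X (Sum.inr s) = 0) (s : Fin chevE7.nroots)
    (c : Fin chevE7.rank → Kˣ) : BF (Phi K c) (er K s) X = 0 := by
  obtain ⟨a, ha⟩ := exists_sep hx (show s.val < 126 from s.2)
  have h1 := BF_inv (Phi_comm a c) (er K s) X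
  rw [Phi_inl a h, Phi_er, map_smul, LinearMap.smul_apply, smul_eq_mul] at h1
  have h2 : (((rtv s.val a : Kˣ) : K) - 1) * BF (Phi K c) (er K s) X = 0 := by linear_combination h1
  exact (mul_eq_zero.1 h2).resolve_left (sub_ne_zero.2 fun h3 => ha (Units.ext h3))

theorem BF_er_er {x : Kˣ} (hx : x ^ 12 ≠ 1) {r s : Fin chevE7.nroots} (h : s ≠ ng r)
    (c : Fin chevE7.rank → Kˣ) : BF (Phi K c) (er K r) (er K s) = 0 := by
  obtain ⟨a, ha⟩ := exists_sep2 hx (show r.val < 126 from r.2) (show s.val < 126 from s.2)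
    (fun h3 => h (Fin.ext h3))
  have h1 := BF_inv (Phi_comm a c) (er K r) (er K s)
  rw [Phi_er, Phi_er, map_smul, map_smul, LinearMap.smul_apply, smul_eq_mul, smul_eq_mul] at h1
  have h2 : (((rtv r.val a : Kˣ) : K) * ((rtv s.val a : Kˣ) : K) - 1) * BF (Phi K c) (er K r) (er K s) = 0 := by
    linear_combination h1
  refine (mul_eq_zero.1 h2).resolve_left (sub_ne_zero.2 fun h3 => ha (Units.ext ?_))
  rw [Units.val_mul, h3, Units.val_one]

theorem sgn_cast (β s : ℕ) : ((((-1 : Kˣ) ^ pr β s : Kˣ)) : K) = ((sgn β s : ℤ) : K) := by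
  have h1 : (-1 : Kˣ) ^ pr β s = (-1 : Kˣ) ^ (pr β s % 2) := by
    conv_lhs => rw [← Int.emod_add_mul_ediv (pr β s) 2]
    rw [_root_.zpow_add, _root_.zpow_mul]
    norm_num
  rw [h1, sgn]
  split_ifs with h
  · rw [h]; norm_num
  · have h2 : pr β s % 2 = 1 := by omega
    rw [h2]; norm_num

/-- the Cartan part -/
theorem BF_eh (hβ : β ∈ BL) (i j : Fin chevE7.rank) : BF (Phi K (hb β (-1))) (eh K i) (eh K j) =
    4 * ((car chevE7 i.val (chevE7.simple j.val) : ℤ) : K) -
      16 * (((car chevE7 i.val β : ℤ) : K) * ((car chevE7 j.val β : ℤ) : K)) := by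
  rw [BF_apply, adx_eh, adx_eh, R2.T1.ad_Phi, diagonal_mul_diagonal, diagonal_mul_diagonal, trace_diagonal,
    Fintype.sum_sum_type]
  have h0 : ∑ k : Fin chevE7.rank, dL (hb β (-1 : Kˣ)) (Sum.inl k) * dH K i.val (Sum.inl k) * dH K j.val (Sum.inl k) = 0 := by
    refine Finset.sum_eq_zero fun k _ => ?_
    show _ * _ * (0 : K) = 0
    rw [mul_zero]
  have h1 : ∑ s : Fin chevE7.nroots, dL (hb β (-1 : Kˣ)) (Sum.inr s) * dH K i.val (Sum.inr s) * dH K j.val (Sum.inr s) =
      ((∑ s : Fin 126, sgn β s.val * (car chevE7 i.val s.val * car chevE7 j.val s.val) : ℤ) : K) := by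
    rw [Int.cast_sum]
    show ∑ s : Fin 126, _ = _
    refine Finset.sum_congr rfl fun s _ => ?_
    show ((rtv s.val (hb β (-1)) : Kˣ) : K) * ((car chevE7 i.val s.val : ℤ) : K) * ((car chevE7 j.val s.val : ℤ) : K) = _
    rw [rtv_hb, sgn_cast]
    push_cast
    ring
  rw [h0, h1, HH hβ i.2 j.2]
  push_cast
  ring

/-- the difference of the forms -/
noncomputable def Df (β : ℕ) (b : Fin chevE7.nroots) : (chevE7.Idx → K) →ₗ[K] (chevE7.Idx → K) →ₗ[K] K :=
  LinearMap.mk₂ K (fun X Y => BF (Phi K (hb β (-1))) X Y - 4 * kf K X Y +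
      32 * (X (Sum.inr b) * Y (Sum.inr (ng b)) + X (Sum.inr (ng b)) * Y (Sum.inr b)) + 16 * (al β X * al β Y))
    (fun X X' Y => by
      simp only [map_add, LinearMap.add_apply, al_add, Pi.add_apply]; ring)
    (fun c X Y => by
      simp only [map_smul, LinearMap.smul_apply, al_smul, Pi.smul_apply, smul_eq_mul]; ring)
    (fun X Y Y' => by
      simp only [map_add, al_add, Pi.add_apply]; ring)
    (fun c X Y => by
      simp only [map_smul, al_smul, Pi.smul_apply, smul_eq_mul]; ring)

theorem Df_apply (b : Fin chevE7.nroots) (X Y : chevE7.Idx → K) : Df β b X Y =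
    BF (Phi K (hb β (-1))) X Y - 4 * kf K X Y +
      32 * (X (Sum.inr b) * Y (Sum.inr (ng b)) + X (Sum.inr (ng b)) * Y (Sum.inr b)) + 16 * (al β X * al β Y) := rfl

theorem bil_zero (D : (chevE7.Idx → K) →ₗ[K] (chevE7.Idx → K) →ₗ[K] K) (P : chevE7.Idx → Prop)
    (h : ∀ a b, P a → P b → D (Pi.single a 1) (Pi.single b 1) = 0) {X Y : chevE7.Idx → K}
    (hX : ∀ a, ¬ P a → X a = 0) (hY : ∀ a, ¬ P a → Y a = 0) : D X Y = 0 := by
  have e : ∀ Z : chevE7.Idx → K, Z = ∑ a, Z a • (Pi.single a (1 : K) : chevE7.Idx → K) := by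
    intro Z
    ext k
    simp [Finset.sum_apply, Pi.single_apply]
  rw [e X, map_sum, LinearMap.sum_apply]
  refine Finset.sum_eq_zero fun a _ => ?_
  rw [map_smul, LinearMap.smul_apply, smul_eq_mul]
  by_cases ha : P a
  · rw [e Y, map_sum, Finset.mul_sum]
    refine Finset.sum_eq_zero fun b _ => ?_
    rw [map_smul, smul_eq_mul]
    by_cases hb : P b
    · rw [h a b ha hb, mul_zero, mul_zero]
    · rw [hY b hb, zero_mul, mul_zero]
  · rw [hX a ha, zero_mul]

theorem kf_single (a b : chevE7.Idx) : kf K (Pi.single a 1) (Pi.single b 1) = KM K a b := by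
  rw [kf_apply, single_one_dotProduct, Matrix.mulVec_single_one, Matrix.col_apply]

theorem al_eh (r : ℕ) (i : Fin chevE7.rank) : al r (Pi.single (Sum.inl i) (1 : K)) = ((car chevE7 i.val r : ℤ) : K) := by
  unfold al
  rw [Finset.sum_eq_single i]
  · rw [Pi.single_eq_same, mul_one]
  · intro j _ hj
    rw [Pi.single_eq_of_ne (by simpa using hj), mul_zero]
  · intro h; exact absurd (Finset.mem_univ _) h

theorem single_inl (i : Fin chevE7.rank) (s : Fin chevE7.nroots) :
    (Pi.single (Sum.inl i) (1 : K) : chevE7.Idx → K) (Sum.inr s) = 0 := by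
  rw [Pi.single_eq_of_ne (by simp)]

theorem Df_inl (hβ : β ∈ BL) (b : Fin chevE7.nroots) (i j : Fin chevE7.rank) :
    Df β b (Pi.single (Sum.inl i) (1 : K)) (Pi.single (Sum.inl j) 1) = 0 := by
  have h := BF_eh (K := K) hβ i j
  unfold eh at h
  rw [Df_apply, h, kf_single, KM_ll, al_eh, al_eh]
  simp only [single_inl]
  ring

/-- the Cartan part -/
theorem BF_cartan (hβ : β ∈ BL) {X Y : chevE7.Idx → K} (hX : ∀ s, X (Sum.inr s) = 0) (hY : ∀ s, Y (Sum.inr s) = 0) :
    BF (Phi K (hb β (-1))) X Y = 4 * kf K X Y - 16 * (al β X * al β Y) := by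
  have b : Fin chevE7.nroots := ⟨0, by decide +kernel⟩
  have h := bil_zero (Df β b) (fun a => ∃ i, a = Sum.inl i) (by
    rintro _ _ ⟨i, rfl⟩ ⟨j, rfl⟩
    exact Df_inl hβ b i j) (X := X) (Y := Y) (by
    rintro (i | s) h
    · exact absurd ⟨i, rfl⟩ h
    · exact hX s) (by
    rintro (i | s) h
    · exact absurd ⟨i, rfl⟩ h
    · exact hY s)
  rw [Df_apply, hX, hX] at h
  linear_combination h

theorem hv_inr (r : ℕ) (s : Fin chevE7.nroots) : hv K r (Sum.inr s) = 0 := rfl

/-- the value on opposite roots -/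
theorem BF_opp (h2 : (2 : K) ≠ 0) {x : Kˣ} (hx : x ^ 12 ≠ 1) (hβ : β ∈ BL) {r : Fin chevE7.nroots}
    (hr : ¬ (pr β r.val = 1 ∨ pr β r.val = -1)) :
    BF (Phi K (hb β (-1))) (er K r) (er K (ng r)) = 4 - 8 * ((pr β r.val : ℤ) : K) ^ 2 := by
  have hrl : r.val < 126 := r.2
  have hβl := BL_lt hβ
  set z := Phi K (hb β (-1)) with hz
  have hcomm : xs K r.val 1 * z = z * xs K r.val 1 := by
    have h := Phi_xs (K := K) (hb β (-1)) hrl 1
    have h1 : rtv r.val (hb β (-1 : Kˣ)) = 1 := by
      rw [rtv_hb]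
      rcases pr_cases β hβ r.val hrl with ⟨h3, -⟩ | ⟨h3, -⟩ | ⟨h3, -⟩ | ⟨h3, -⟩
      · rw [h3, zpow_zero]
      · exact absurd h3 hr
      · rw [h3]; norm_num
      · rw [h3]; norm_num
    rw [h1, Units.val_one, one_mul, ← hz] at h
    nth_rewrite 1 [← h]
    group
  have hL : L K (xs K r.val 1) (er K (ng r)) = er K (ng r) + hv K r.val - er K r := by
    have e1 : EM K r.val *ᵥ er K (ng r) = hv K r.val := by
      rw [EM_er_neg hrl (ng r) (ng_val r)]
      funext a
      rw [Finset.sum_apply]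
      rcases a with i | s
      · rw [Finset.sum_eq_single i]
        · rw [Pi.smul_apply, eh, Pi.single_eq_same, smul_eq_mul, mul_one]; rfl
        · intro j _ hj
          rw [Pi.smul_apply, eh, Pi.single_eq_of_ne (by simpa using hj.symm), smul_zero]
        · intro h; exact absurd (Finset.mem_univ _) h
      · refine Finset.sum_eq_zero fun j _ => ?_
        rw [Pi.smul_apply, eh, Pi.single_eq_of_ne (by simp), smul_zero]
    rw [L_xs hrl, e1, QM_mulVec, er, Pi.single_eq_same]
    unfold er
    module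
  have hne : ng r ≠ r := by
    intro h
    have := congrArg Fin.val h
    rw [ng_val] at this
    omega
  have h1 := BF_inv hcomm (er K (ng r)) (er K (ng r))
  rw [hL] at h1
  have f1 : BF z (er K (ng r)) (hv K r.val) = 0 := BF_er_inl hx (hv_inr _) _ _
  have f2 : BF z (hv K r.val) (er K (ng r)) = 0 := BF_inl_er hx (hv_inr _) _ _
  have f3 : BF z (er K r) (hv K r.val) = 0 := BF_er_inl hx (hv_inr _) _ _
  have f4 : BF z (hv K r.val) (er K r) = 0 := BF_inl_er hx (hv_inr _) _ _
  have f5 : BF z (er K r) (er K r) = 0 := BF_er_er hx hne.symm _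
  have f6 : BF z (hv K r.val) (hv K r.val) = 8 - 16 * ((pr β r.val : ℤ) : K) ^ 2 := by
    rw [BF_cartan hβ (hv_inr _) (hv_inr _), kf_hv hrl, al_hv, al_hv, pr_self hrl, pr_symm β hβ r.val hrl]
    push_cast
    ring
  have f7 : BF z (er K (ng r)) (er K r) = BF z (er K r) (er K (ng r)) := by
    apply BF_symm
    rw [tb_fix_iff h2 hβ]
    intro s hs
    rw [er]
    by_cases h3 : s = ng r
    · exfalso
      subst h3
      have h4 : pr β (125 - r.val) = - pr β r.val := by
        unfold pr
        rw [← Finset.sum_neg_distrib]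
        refine Finset.sum_congr rfl fun i _ => ?_
        rw [car_neg7 i.val i.2 r.val hrl]
        ring
      rw [ng_val, h4] at hs
      omega
    · rw [Pi.single_eq_of_ne (by simpa using h3)]
  simp only [map_add, map_sub, LinearMap.add_apply, LinearMap.sub_apply, f1, f2, f3, f4, f5, f6, f7] at h1
  have h3 : (2 : K) * (BF z (er K r) (er K (ng r)) - (4 - 8 * ((pr β r.val : ℤ) : K) ^ 2)) = 0 := by
    linear_combination -h1
  exact sub_eq_zero.1 ((mul_eq_zero.1 h3).resolve_left h2)

/-- **the trace form on the fixed vectors** -/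
theorem BF_tb (h2 : (2 : K) ≠ 0) (hx : ∃ x : Kˣ, x ^ 12 ≠ 1) (hβ : β ∈ BL) {b : Fin chevE7.nroots} (hb' : b.val = β)
    {X Y : chevE7.Idx → K} (hX : Ev β X) (hY : Ev β Y) : BF (Phi K (hb β (-1))) X Y = 4 * kf K X Y -
      32 * (X (Sum.inr b) * Y (Sum.inr (ng b)) + X (Sum.inr (ng b)) * Y (Sum.inr b)) - 16 * (al β X * al β Y) := by
  obtain ⟨x, hx⟩ := hx
  have hβl := BL_lt hβ
  have key := bil_zero (Df β b) (fun a => ∀ s, a = Sum.inr s → ¬ (pr β s.val = 1 ∨ pr β s.val = -1)) (X := X) (Y := Y)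
    (by
      rintro (i | r) (j | s) h1 h3
      · exact Df_inl hβ b i j
      · have e0 := BF_inl_er hx (X := Pi.single (Sum.inl i) (1 : K)) (fun s => by rw [Pi.single_eq_of_ne (by simp)]) s
          (hb β (-1))
        unfold er at e0
        rw [Df_apply, e0, kf_single, KM_lr,
          show al β (Pi.single (Sum.inr s) (1 : K)) = 0 from al_er _ _, single_inl, single_inl]
        ring
      · have e0 := BF_er_inl hx (X := Pi.single (Sum.inl j) (1 : K)) (fun s => by rw [Pi.single_eq_of_ne (by simp)]) r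
          (hb β (-1))
        unfold er at e0
        rw [Df_apply, e0, kf_single, KM_rl,
          show al β (Pi.single (Sum.inr r) (1 : K)) = 0 from al_er _ _, single_inl, single_inl]
        ring
      · have hr := h1 r rfl
        rw [Df_apply, kf_single, KM_rr, show al β (Pi.single (Sum.inr r) (1 : K)) = 0 from al_er _ _]
        by_cases hs : s = ng r
        · subst hs
          have h4 := BF_opp h2 hx hβ hr
          unfold er at h4
          rw [h4, if_pos (ng_val r)]
          simp only [Pi.single_apply, Sum.inr.injEq]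
          rcases pr_cases β hβ r.val r.2 with ⟨h5, h6, h7⟩ | ⟨h5, -⟩ | ⟨h5, h6⟩ | ⟨h5, h6⟩
          · have e1 : b ≠ r := fun h => h6 (by rw [← h]; exact hb')
            have e2 : ng b ≠ r := fun h => h7 (by rw [← h, ng_val, hb'])
            rw [if_neg e1, if_neg e2, h5]
            push_cast; ring
          · exact absurd h5 hr
          · have e1 : b = r := Fin.ext (by rw [hb', h6])
            have e2 : ng b ≠ r := fun h => by
              have := congrArg Fin.val h
              rw [ng_val, hb', h6] at this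
              omega
            rw [if_pos e1, if_neg e2, h5, e1, if_pos rfl]
            push_cast; ring
          · have e1 : b ≠ r := fun h => by
              have := congrArg Fin.val h
              rw [hb', h6] at this
              omega
            have e2 : ng b = r := Fin.ext (by rw [ng_val, hb', h6])
            have e3 : b = ng r := by rw [← e2, ng_ng]
            rw [if_neg e1, if_pos e2, if_pos e3, h5]
            push_cast; ring
        · have h4 := BF_er_er hx hs (hb β (-1))
          unfold er at h4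
          have h5 : ¬ s.val = 125 - r.val := fun h => hs (Fin.ext h)
          rw [h4, if_neg h5]
          simp only [Pi.single_apply, Sum.inr.injEq]
          by_cases e1 : b = r
          · have e2 : ng b ≠ s := fun h => hs (by rw [← h, e1])
            have e3 : ng b ≠ r := fun h => by
              have := congrArg Fin.val h
              rw [ng_val, e1] at this
              have := r.2
              have h126 : r.val < 126 := this
              omega
            rw [if_neg e2, if_neg e3]; ring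
          · rw [if_neg e1]
            by_cases e2 : ng b = r
            · have e3 : b ≠ s := fun h => hs (by rw [← h, ← e2, ng_ng])
              rw [if_neg e3]; ring
            · rw [if_neg e2]; ring)
    (by
      rintro (i | s) h
      · exact absurd (fun s h1 => absurd h1 (by simp)) h
      · apply hX
        by_contra h1
        apply h
        rintro s' hs'
        cases hs'
        exact h1)
    (by
      rintro (i | s) h
      · exact absurd (fun s h1 => absurd h1 (by simp)) h
      · apply hY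
        by_contra h1
        apply h
        rintro s' hs'
        cases hs'
        exact h1)
  rw [Df_apply] at key
  linear_combination key

end

end Cfsg.Agent.R2.T1.Five
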