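import Mathlib
import Cfsg.Agent.R2.T1.Five.PForm
import Cfsg.Agent.R2.T1.Five.Nrm
import Cfsg.Agent.R2.T1.Five.InvF
import Cfsg.Agent.R2.T1.Inf.Cov

/-!
# The part of a fixed vector in the subalgebra of type `A₁` (helper25)

* `PF Z v u` : `u` is the part of the fixed vector `v` of the involution `Z` in the subalgebra of type `A₁`;
* `PF.unique`, `PF.conj`, `PF.map`;
* `rat_nil`, `rat_ss` : rationality of elements of the subgroup of type `A₁`.
-/

set_option autoImplicit false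
set_option linter.unusedSectionVars false
set_option maxRecDepth 100000

namespace Cfsg.Agent.R2.T1.Five

open Cfsg Cfsg.Lie Module Matrix
open Cfsg.Agent.ChevalleyStructure Cfsg.Agent.ChevalleyStructure.Elts Cfsg.Agent.ChevalleyStructure.Columns
open Cfsg.Agent.R2.T1

universe u v

section
variable {K : Type u} [Field K] {β : ℕ}

theorem L_mul (g h : Gh K) (X : chevE7.Idx → K) : L K (g * h) X = L K g (L K h X) := by
  rw [map_mul, Module.End.mul_apply]

theorem L_one (X : chevE7.Idx → K) : L K 1 X = X := by rw [map_one]; rfl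

theorem L_inv_L (g : Gh K) (X : chevE7.Idx → K) : L K g⁻¹ (L K g X) = X := by rw [← L_mul, inv_mul_cancel, L_one]

theorem L_L_inv (g : Gh K) (X : chevE7.Idx → K) : L K g (L K g⁻¹ X) = X := by rw [← L_mul, mul_inv_cancel, L_one]

/-- the part of `v` in the subalgebra of type `A₁` attached to `Z` is `u` -/
def PF (Z : Gh K) (v u : chevE7.Idx → K) : Prop :=
  L K Z u = u ∧ ∀ Y, L K Z Y = Y → BF Z v Y = 4 * kf K v Y - 32 * kf K u Y

theorem two_pow_ne (h2 : (2 : K) ≠ 0) : (32 : K) ≠ 0 ∧ (16 : K) ≠ 0 := by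
  have e1 : (32 : K) = 2 ^ 5 := by norm_num
  have e2 : (16 : K) = 2 ^ 4 := by norm_num
  rw [e1, e2]
  exact ⟨pow_ne_zero _ h2, pow_ne_zero _ h2⟩

theorem PF.unique (h2 : (2 : K) ≠ 0) {Z : Gh K} (hZ : Z * Z = 1) {v u u' : chevE7.Idx → K} (h : PF Z v u)
    (h' : PF Z v u') : u = u' := by
  have h32 := (two_pow_ne h2).1
  have key : ∀ Y, L K Z Y = Y → kf K (u - u') Y = 0 := by
    intro Y hY
    have h1 := h.2 Y hY
    rw [h'.2 Y hY] at h1
    have h3 : (32 : K) * kf K (u - u') Y = 0 := by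
      rw [map_sub, LinearMap.sub_apply]
      linear_combination h1
    exact (mul_eq_zero.1 h3).resolve_left h32
  have hw : L K Z (u - u') = u - u' := by rw [map_sub, h.1, h'.1]
  rw [← sub_eq_zero]
  apply kf_nondeg h2
  intro Y
  rw [kf_comm]
  have h3 := key (Y + L K Z Y) (by rw [map_add, ← L_mul, hZ, L_one, add_comm])
  have h4 : kf K (u - u') (L K Z Y) = kf K (u - u') Y := by
    nth_rewrite 1 [← hw]
    exact kf_L Z _ _
  rw [map_add, h4] at h3
  have h5 : (2 : K) * kf K (u - u') Y = 0 := by linear_combination h3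
  exact (mul_eq_zero.1 h5).resolve_left h2

theorem PF.conj {Z : Gh K} {v u : chevE7.Idx → K} (h : PF Z v u) (g : Gh K) :
    PF (g * Z * g⁻¹) (L K g v) (L K g u) := by
  refine ⟨?_, fun Y hY => ?_⟩
  · rw [L_mul, L_mul, L_inv_L, h.1]
  · have h1 : L K Z (L K g⁻¹ Y) = L K g⁻¹ Y := by
      conv_rhs => rw [← hY]
      rw [L_mul, L_mul, L_inv_L]
    have h3 := h.2 _ h1
    rw [← BF_conj g Z v, ← kf_L g v, ← kf_L g u, L_L_inv] at h3
    exact h3

theorem PF.of_conj {Z Z' : Gh K} {v v' u : chevE7.Idx → K} {g : Gh K} (hZ : Z' = g * Z * g⁻¹) (hv : v' = L K g v)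
    (h : PF Z' v' u) : PF Z v (L K g⁻¹ u) := by
  have h1 := h.conj g⁻¹
  rw [hZ, hv, L_inv_L] at h1
  have e : g⁻¹ * (g * Z * g⁻¹) * g⁻¹⁻¹ = Z := by group
  rwa [e] at h1

theorem PF.map {K' : Type v} [Field K'] {Z : Gh K} {w u : chevE7.Idx → K} (h : PF Z w u) (s : K →+* K')
    (hs : Function.Surjective s) :
    PF (emb s Z) (fun i => s (w i)) (fun i => s (u i)) := by
  refine ⟨by rw [L_emb, h.1], fun Y hY => ?_⟩
  obtain ⟨Y0, rfl⟩ : ∃ Y0 : chevE7.Idx → K, Y = fun i => s (Y0 i) := by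
    choose g hg using hs
    exact ⟨fun i => g (Y i), funext fun i => (hg (Y i)).symm⟩
  rw [L_emb] at hY
  have h3 := h.2 Y0 (fun_injective s hY)
  rw [BF_map, kf_map, kf_map, h3, map_sub, map_mul, map_mul, map_ofNat, map_ofNat]

/-! ### the standard involution -/

theorem kf_er (r : Fin chevE7.nroots) (Y : chevE7.Idx → K) : kf K (er K r) Y = Y (Sum.inr (ng r)) := by
  rw [kf_apply, er, single_one_dotProduct, KM_mulVec_inr]

theorem Ev_er (hβ : β ∈ BL) {r : Fin chevE7.nroots} (hr : r.val = β ∨ r.val = 125 - β) : Ev β (er K r) := by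
  intro s hs
  rw [er]
  by_cases h : s = r
  · subst h
    exact absurd hs (pr_pm hβ hr)
  · rw [Pi.single_eq_of_ne (by simpa using h)]

theorem Ev_hv (r : ℕ) : Ev β (hv K r) := fun _ _ => rfl

variable (h2 : (2 : K) ≠ 0) (hx : ∃ x : Kˣ, x ^ 12 ≠ 1) (hβ : β ∈ BL) {b : Fin chevE7.nroots} (hb' : b.val = β)
  {X : chevE7.Idx → K} (hX : Ev β X)

include h2 hx hβ hb' hX

theorem PF_zero (h1 : X (Sum.inr b) = 0) (h3 : X (Sum.inr (ng b)) = 0) (h4 : al β X = 0) :
    PF (Phi K (hb β (-1))) X 0 := by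
  refine ⟨map_zero _, fun Y hY => ?_⟩
  rw [BF_tb h2 hx hβ hb' hX ((tb_fix_iff h2 hβ Y).1 hY), h1, h3, h4, map_zero, LinearMap.zero_apply]
  ring

theorem zero_of_PF (h : PF (Phi K (hb β (-1))) X 0) : X (Sum.inr b) = 0 ∧ X (Sum.inr (ng b)) = 0 ∧ al β X = 0 := by
  obtain ⟨h32, h16⟩ := two_pow_ne h2
  have hbl : b.val < 126 := b.2
  have hβl := BL_lt hβ
  have key : ∀ Y : chevE7.Idx → K, Ev β Y →
      32 * (X (Sum.inr b) * Y (Sum.inr (ng b)) + X (Sum.inr (ng b)) * Y (Sum.inr b)) + 16 * (al β X * al β Y) = 0 := by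
    intro Y hY
    have h1 := h.2 Y ((tb_fix_iff h2 hβ Y).2 hY)
    rw [BF_tb h2 hx hβ hb' hX hY, map_zero, LinearMap.zero_apply] at h1
    linear_combination -h1
  have hne := ng_ne b
  refine ⟨?_, ?_, ?_⟩
  · have h1 := key (er K (ng b)) (Ev_er hβ (Or.inr (by rw [ng_val, hb'])))
    rw [al_er, er, Pi.single_eq_same, Pi.single_eq_of_ne (by simpa using hne.symm)] at h1
    have h3 : (32 : K) * X (Sum.inr b) = 0 := by linear_combination h1
    exact (mul_eq_zero.1 h3).resolve_left h32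
  · have h1 := key (er K b) (Ev_er hβ (Or.inl hb'))
    rw [al_er, er, Pi.single_eq_same, Pi.single_eq_of_ne (by simpa using hne)] at h1
    have h3 : (32 : K) * X (Sum.inr (ng b)) = 0 := by linear_combination h1
    exact (mul_eq_zero.1 h3).resolve_left h32
  · have h1 := key (hv K β) (Ev_hv β)
    rw [al_hv, pr_self hβl, hv_inr, hv_inr] at h1
    push_cast at h1
    have h3 : (32 : K) * al β X = 0 := by linear_combination h1
    exact (mul_eq_zero.1 h3).resolve_left h32

theorem PF_nil {r : Fin chevE7.nroots} (hr : r = b ∨ r = ng b) (h1 : al β X = 0) (h3 : X (Sum.inr (ng r)) = 0) :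
    PF (Phi K (hb β (-1))) X (X (Sum.inr r) • er K r) := by
  have hr' : r.val = β ∨ r.val = 125 - β := by
    rcases hr with rfl | rfl
    · exact Or.inl hb'
    · exact Or.inr (by rw [ng_val, hb'])
  refine ⟨?_, fun Y hY => ?_⟩
  · rw [map_smul, (tb_fix_iff h2 hβ _).2 (Ev_er hβ hr')]
  · rw [BF_tb h2 hx hβ hb' hX ((tb_fix_iff h2 hβ Y).1 hY), h1, map_smul, LinearMap.smul_apply, smul_eq_mul, kf_er]
    rcases hr with rfl | rfl
    · rw [h3]; ring
    · rw [ng_ng] at h3 ⊢
      rw [h3]; ring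

theorem PF_ss {l : K} (h1 : X (Sum.inr b) = 0) (h3 : X (Sum.inr (ng b)) = 0) (h4 : al β X = 2 * l) :
    PF (Phi K (hb β (-1))) X (l • hv K β) := by
  refine ⟨?_, fun Y hY => ?_⟩
  · rw [map_smul, (tb_fix_iff h2 hβ _).2 (Ev_hv β)]
  · rw [BF_tb h2 hx hβ hb' hX ((tb_fix_iff h2 hβ Y).1 hY), h1, h3, map_smul, LinearMap.smul_apply, smul_eq_mul,
      kf_comm (hv K β), kf_hv (BL_lt hβ), h4]
    ring

end

/-! ### rationality -/

section
variable {K : Type u} [Field K] (s : K →+* K)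

theorem ad_eq_of_adM {g h : Gh K} (e : adM K g = adM K h) : ad K g = ad K h := Subtype.ext (Units.ext e)

theorem emb_eq_of (ρ : Gh K) {k : ℕ} (hk : Odd k) (h1 : ρ ^ k = 1) (h : (adM K ρ).map s = adM K ρ) : emb s ρ = ρ := by
  refine odd_unique hk (ad_eq_of_adM ?_) ?_ h1
  · rw [adM_map, h]
  · rw [← map_pow, h1, map_one]

theorem smul_mat_inj {c : K} (hc : c ≠ 0) {A B : Matrix chevE7.Idx chevE7.Idx K} (h : c • A = c • B) : A = B := by
  ext i j
  have h1 := congrFun (congrFun h i) j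
  rw [Matrix.smul_apply, Matrix.smul_apply, smul_eq_mul, smul_eq_mul] at h1
  exact mul_left_cancel₀ hc h1

/-- rationality of root elements -/
theorem rat_nil (h2 : (2 : K) ≠ 0) {g : Gh K} {r : Fin chevE7.nroots} {μ : K}
    (h : (fun i => s (L K g⁻¹ (μ • er K r) i)) = L K g⁻¹ (μ • er K r)) :
    (adM K (g⁻¹ * xs K r.val μ * g)).map s = adM K (g⁻¹ * xs K r.val μ * g) := by
  set u := L K g⁻¹ (μ • er K r) with hu
  have e1 : adx K u = adM K g⁻¹ * (μ • EM K r.val) * adM K g := by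
    rw [hu, adx_L, adx_smul, adx_er, inv_inv]
  have e2 : adx K u * adx K u = adM K g⁻¹ * ((2 * μ ^ 2) • QM K r.val) * adM K g := by
    rw [e1]
    have e3 : adM K g⁻¹ * (μ • EM K r.val) * adM K g * (adM K g⁻¹ * (μ • EM K r.val) * adM K g) =
        adM K g⁻¹ * ((μ • EM K r.val) * (adM K g * adM K g⁻¹) * (μ • EM K r.val)) * adM K g := by
      simp only [mul_assoc]
    rw [e3, adM_mul_inv, mul_one, smul_mul_smul_comm, EM_EM (show r.val < 126 from r.2), smul_smul]
    congr 3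
    ring
  have e3 : (2 : K) • adM K (g⁻¹ * xs K r.val μ * g) = (2 : K) • (1 : Matrix chevE7.Idx chevE7.Idx K) +
      (2 : K) • adx K u + adx K u * adx K u := by
    rw [e2, e1, map_mul, map_mul, adM_xs (show r.val < 126 from r.2)]
    rw [mul_add, mul_add, add_mul, add_mul, mul_one, adM_inv_mul, smul_add, smul_add]
    congr 1
    rw [Matrix.mul_smul, Matrix.smul_mul, Matrix.mul_smul, Matrix.smul_mul, smul_smul]
  have e4 : (adx K u).map s = adx K u := by rw [adx_map, h]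
  apply smul_mat_inj h2
  rw [e3]
  have e5 : ((2 : K) • adM K (g⁻¹ * xs K r.val μ * g)).map s = ((2 : K) • (1 : Matrix chevE7.Idx chevE7.Idx K) +
      (2 : K) • adx K u + adx K u * adx K u).map s := by rw [e3]
  have e6 : ((2 : K) • adM K (g⁻¹ * xs K r.val μ * g)).map s = (2 : K) • (adM K (g⁻¹ * xs K r.val μ * g)).map s := by
    ext i j
    rw [Matrix.map_apply, Matrix.smul_apply, Matrix.smul_apply, Matrix.map_apply, smul_eq_mul, smul_eq_mul, map_mul s,
      map_ofNat]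
  rw [e6] at e5
  rw [e5]
  rw [Matrix.map_add s (map_add s), Matrix.map_add s (map_add s), Matrix.map_mul, e4]
  congr 2
  · ext i j
    simp only [Matrix.map_apply, Matrix.smul_apply, smul_eq_mul, map_mul, map_ofNat, Matrix.one_apply]
    split_ifs
    · rw [map_one]
    · rw [map_zero]
  · ext i j
    have e7 := congrFun (congrFun e4 i) j
    rw [Matrix.map_apply] at e7
    simp only [Matrix.map_apply, Matrix.smul_apply, smul_eq_mul, map_mul, map_ofNat, e7]

/-- the diagonal of `ad h_β` -/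
def dB (K : Type u) [Field K] (β : ℕ) : chevE7.Idx → K :=
  Sum.elim (fun _ => (0 : K)) (fun s : Fin chevE7.nroots => ((pr β s.val : ℤ) : K))

theorem adx_hv (β : ℕ) : adx K (hv K β) = Matrix.diagonal (dB K β) := by
  have e : hv K β = ∑ i : Fin chevE7.rank, ((cor chevE7 β i.val : ℤ) : K) • eh K i := by
    funext a
    rw [Finset.sum_apply]
    rcases a with i | s
    · rw [Finset.sum_eq_single i]
      · rw [Pi.smul_apply, eh, Pi.single_eq_same, smul_eq_mul, mul_one]; rfl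
      · intro j _ hj
        rw [Pi.smul_apply, eh, Pi.single_eq_of_ne (by simpa using hj.symm), smul_zero]
      · intro h; exact absurd (Finset.mem_univ _) h
    · rw [hv_inr]
      exact (Finset.sum_eq_zero fun j _ => by
        rw [Pi.smul_apply, eh, Pi.single_eq_of_ne (by simp), smul_zero]).symm
  have e2 : adx K (hv K β) = ∑ i : Fin chevE7.rank, ((cor chevE7 β i.val : ℤ) : K) • adx K (eh K i) := by
    rw [e]
    have h : ∀ Y : chevE7.Idx → K, adx K Y =
        Cfsg.Agent.ChevalleyStructure.LieAbs.advLin (Cfsg.Agent.ChevalleyStructure.LieAut.adR chevE7 K) Y := fun _ => rfl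
    simp only [h, map_sum, map_smul]
  rw [e2]
  ext a c
  rw [Matrix.sum_apply, Matrix.diagonal_apply]
  by_cases hac : a = c
  · subst hac
    rw [if_pos rfl]
    rcases a with i | s
    · refine Finset.sum_eq_zero fun j _ => ?_
      rw [adx_eh, Matrix.smul_apply, Matrix.diagonal_apply_eq]
      show _ • (0 : K) = 0
      rw [smul_zero]
    · show _ = ((pr β s.val : ℤ) : K)
      unfold pr
      push_cast
      refine Finset.sum_congr rfl fun j _ => ?_
      rw [adx_eh, Matrix.smul_apply, Matrix.diagonal_apply_eq]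
      rfl
  · rw [if_neg hac]
    refine Finset.sum_eq_zero fun j _ => ?_
    rw [adx_eh, Matrix.smul_apply, Matrix.diagonal_apply_ne _ hac, smul_zero]

theorem small_zero (h2 : (2 : K) ≠ 0) (h3 : (3 : K) ≠ 0) {m : ℤ} (h1 : -4 ≤ m) (h4 : m ≤ 4) (h : (m : K) = 0) : m = 0 := by
  have h4' : (4 : K) ≠ 0 := by
    have : (4 : K) = 2 * 2 := by norm_num
    rw [this]; exact mul_ne_zero h2 h2
  have h5 : m = -4 ∨ m = -3 ∨ m = -2 ∨ m = -1 ∨ m = 0 ∨ m = 1 ∨ m = 2 ∨ m = 3 ∨ m = 4 := by omega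
  rcases h5 with rfl | rfl | rfl | rfl | rfl | rfl | rfl | rfl | rfl
  · push_cast at h; exact absurd (neg_eq_zero.1 h) h4'
  · push_cast at h; exact absurd (neg_eq_zero.1 h) h3
  · push_cast at h; exact absurd (neg_eq_zero.1 h) h2
  · push_cast at h; exact absurd (neg_eq_zero.1 h) one_ne_zero
  · rfl
  · push_cast at h; exact absurd h one_ne_zero
  · push_cast at h; exact absurd h h2
  · push_cast at h; exact absurd h h3
  · push_cast at h; exact absurd h h4'

/-- rationality of semisimple elements -/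
theorem rat_ss (h2 : (2 : K) ≠ 0) (h3 : (3 : K) ≠ 0) {β : ℕ} (hβ : β ∈ BL) {g : Gh K} {l : K} (hl : l ≠ 0) (hls : s l = -l)
    {ξ : Kˣ} (hξ : s (ξ : K) = ((ξ⁻¹ : Kˣ) : K))
    (h : (fun i => s (L K g⁻¹ (l • hv K β) i)) = L K g⁻¹ (l • hv K β)) :
    (adM K (g⁻¹ * Phi K (hb β ξ) * g)).map s = adM K (g⁻¹ * Phi K (hb β ξ) * g) := by
  set u := L K g⁻¹ (l • hv K β) with hu
  have e1 : adx K u = adM K g⁻¹ * (l • Matrix.diagonal (dB K β)) * adM K g := by
    rw [hu, adx_L, adx_smul, adx_hv, inv_inv]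
  have e4 : (adx K u).map s = adx K u := by rw [adx_map, h]
  have ed : (Matrix.diagonal (dB K β)).map s = Matrix.diagonal (dB K β) := by
    ext a c
    rw [Matrix.map_apply, Matrix.diagonal_apply]
    split_ifs
    · rcases a with i | t
      · exact map_zero s
      · exact map_intCast s _
    · exact map_zero s
  have e5 : (adx K u).map s = adM K (emb s g)⁻¹ * (-l • Matrix.diagonal (dB K β)) * adM K (emb s g) := by
    rw [e1, Matrix.map_mul, Matrix.map_mul, ← adM_map, ← adM_map, map_inv]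
    congr 2
    ext a c
    have e6 := congrFun (congrFun ed a) c
    rw [Matrix.map_apply] at e6
    rw [Matrix.map_apply, Matrix.smul_apply, Matrix.smul_apply, smul_eq_mul, smul_eq_mul, map_mul, hls, e6]
  set k := adM K (emb s g) * adM K g⁻¹ with hk
  -- `k` intertwines
  have e6 : k * (l • Matrix.diagonal (dB K β)) = (-l • Matrix.diagonal (dB K β)) * k := by
    have h1 : adM K (emb s g) * adx K u * adM K g⁻¹ = k * (l • Matrix.diagonal (dB K β)) := by
      rw [e1, hk]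
      have : adM K (emb s g) * (adM K g⁻¹ * (l • Matrix.diagonal (dB K β)) * adM K g) * adM K g⁻¹ =
        adM K (emb s g) * adM K g⁻¹ * (l • Matrix.diagonal (dB K β)) * (adM K g * adM K g⁻¹) := by
        simp only [mul_assoc]
      rw [this, adM_mul_inv, mul_one]
    have h2 : adM K (emb s g) * adx K u * adM K g⁻¹ = (-l • Matrix.diagonal (dB K β)) * k := by
      rw [← e4, e5, hk]
      have : adM K (emb s g) * (adM K (emb s g)⁻¹ * (-l • Matrix.diagonal (dB K β)) * adM K (emb s g)) * adM K g⁻¹ =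
        (adM K (emb s g) * adM K (emb s g)⁻¹) * (-l • Matrix.diagonal (dB K β)) * (adM K (emb s g) * adM K g⁻¹) := by
        simp only [mul_assoc]
      rw [this, adM_mul_inv, one_mul]
    rw [← h1, h2]
  have hdL : ∀ a : chevE7.Idx, ∃ m : ℤ, -2 ≤ m ∧ m ≤ 2 ∧ dB K β a = (m : K) ∧ ∀ η : Kˣ, dL (hb β η) a = ((η ^ m : Kˣ) : K) := by
    rintro (i | t)
    · exact ⟨0, by norm_num, by norm_num, by push_cast; rfl, fun η => by rw [zpow_zero]; rfl⟩
    · refine ⟨pr β t.val, ?_, ?_, rfl, fun η => ?_⟩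
      · rcases pr_cases β hβ t.val t.2 with ⟨h5, -⟩ | ⟨h5 | h5, -⟩ | ⟨h5, -⟩ | ⟨h5, -⟩ <;> rw [h5] <;> norm_num
      · rcases pr_cases β hβ t.val t.2 with ⟨h5, -⟩ | ⟨h5 | h5, -⟩ | ⟨h5, -⟩ | ⟨h5, -⟩ <;> rw [h5] <;> norm_num
      · show ((rtv t.val (hb β η) : Kˣ) : K) = _
        rw [rtv_hb]
  have e7 : k * Matrix.diagonal (dL (hb β ξ)) = Matrix.diagonal (dL (hb β ξ⁻¹)) * k := by
    ext a c
    rw [Matrix.mul_diagonal, Matrix.diagonal_mul]
    have e8 := congrFun (congrFun e6 a) c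
    rw [Matrix.mul_smul, Matrix.smul_apply, Matrix.smul_mul, Matrix.smul_apply, Matrix.mul_diagonal,
      Matrix.diagonal_mul, smul_eq_mul, smul_eq_mul] at e8
    obtain ⟨m, m1, m2, m3, m4⟩ := hdL a
    obtain ⟨n, n1, n2, n3, n4⟩ := hdL c
    rw [m3, n3] at e8
    rw [m4, n4]
    by_cases h0 : k a c = 0
    · rw [h0, zero_mul, mul_zero]
    · have e9 : ((m + n : ℤ) : K) = 0 := by
        push_cast
        have e10 : (l * k a c) * ((m : K) + n) = 0 := by linear_combination e8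
        exact (mul_eq_zero.1 e10).resolve_left (mul_ne_zero hl h0)
      have e11 := small_zero h2 h3 (by omega) (by omega) e9
      have e12 : n = -m := by omega
      rw [e12, mul_comm, _root_.inv_zpow, _root_.zpow_neg]
  -- conclusion
  have e8 : (adM K (g⁻¹ * Phi K (hb β ξ) * g)).map s = adM K (emb s g)⁻¹ * Matrix.diagonal (dL (hb β ξ⁻¹)) * adM K (emb s g) := by
    rw [← adM_map, map_mul (emb s), map_mul (emb s), map_inv (emb s), map_mul, map_mul, emb_Phi, R2.T1.ad_Phi]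
    congr 4
    funext i
    apply Units.ext
    show s (((hb β ξ i : Kˣ)) : K) = _
    show s (((ξ ^ cor chevE7 β i.val : Kˣ)) : K) = (((ξ⁻¹) ^ cor chevE7 β i.val : Kˣ) : K)
    rw [Units.val_zpow_eq_zpow_val, map_zpow₀, hξ, Units.val_zpow_eq_zpow_val]
  rw [e8, map_mul, map_mul, R2.T1.ad_Phi]
  have e9 : adM K (emb s g)⁻¹ * Matrix.diagonal (dL (hb β ξ⁻¹)) * adM K (emb s g) =
      adM K (emb s g)⁻¹ * (Matrix.diagonal (dL (hb β ξ⁻¹)) * k) * adM K g := by
    rw [hk]
    have : adM K (emb s g)⁻¹ * (Matrix.diagonal (dL (hb β ξ⁻¹)) * (adM K (emb s g) * adM K g⁻¹)) * adM K g =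
      adM K (emb s g)⁻¹ * Matrix.diagonal (dL (hb β ξ⁻¹)) * adM K (emb s g) * (adM K g⁻¹ * adM K g) := by
      simp only [mul_assoc]
    rw [this, adM_inv_mul, mul_one]
  rw [e9, ← e7, hk]
  have : adM K (emb s g)⁻¹ * (adM K (emb s g) * adM K g⁻¹ * Matrix.diagonal (dL (hb β ξ))) * adM K g =
    (adM K (emb s g)⁻¹ * adM K (emb s g)) * adM K g⁻¹ * Matrix.diagonal (dL (hb β ξ)) * adM K g := by
    simp only [mul_assoc]
  rw [this, adM_inv_mul, one_mul]

end

end Cfsg.Agent.R2.T1.Five
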