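import Mathlib
import Cfsg.Agent.R2.T1.Five.PF
import Cfsg.Agent.R2.T1.Inf.Frame
import Cfsg.Agent.R2.T1.Inf.Cnt

/-!
# Elements commuting with an involution and fixing a vector, over the field with 5 elements (helper25)

* `two_e` : if `F` has 5 elements, `z` is an involution with 32 eigenvalues 1 on the module of degree 56, `v` is a vector of
  the adjoint module fixed by `z` with `Qf z v ∈ {0, 2, 3}`, there is an element `ρ ≠ 1`, `ρ ^ 3 = 1` or `ρ ^ 5 = 1`, commuting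
  with `z` and fixing `v`.
-/

set_option autoImplicit false
set_option linter.unusedSectionVars false
set_option maxRecDepth 100000

namespace Cfsg.Agent.R2.T1.Five

open Cfsg Cfsg.Lie Module Matrix
open Cfsg.Agent.ChevalleyStructure Cfsg.Agent.ChevalleyStructure.Elts Cfsg.Agent.ChevalleyStructure.Columns
open Cfsg.Agent.ChevalleyStructure.StBasic
open Cfsg.Agent.H943.E7V.Block (D1)
open Cfsg.Agent.H952.F4 (ev es)
open Cfsg.Agent.R2.T1

universe u

section stdelts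
variable {K : Type u} [Field K] {β : ℕ}

theorem xs_mul (r : ℕ) (t t' : K) : xs K r t * xs K r t' = xs K r (t + t') := stGen_mul chevE7 r t t'

theorem xs_zero (r : ℕ) : xs K r 0 = 1 := stGen_zero chevE7 r

theorem xs_pow (r : ℕ) (t : K) (n : ℕ) : xs K r t ^ n = xs K r (n * t) := by
  induction n with
  | zero => rw [pow_zero, Nat.cast_zero, zero_mul, xs_zero]
  | succ n ih => rw [pow_succ, ih, xs_mul]; congr 1; push_cast; ring

theorem xs_ne (hβ : β ∈ BL) {r : Fin chevE7.nroots} (hr : r.val = β ∨ r.val = 125 - β) {μ : K} (hμ : μ ≠ 0) :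
    xs K r.val μ ≠ 1 := by
  intro h
  have hr' : (ng r).val = β ∨ (ng r).val = 125 - β := by
    have hβl := BL_lt hβ
    rcases hr with hr | hr
    · right; rw [ng_val, hr]
    · left; rw [ng_val, hr]; omega
  have h1 := (xs_coord hβ hr (Ev_er (K := K) hβ hr') μ).1
  rw [h, L_one, er, Pi.single_eq_same, Pi.single_eq_of_ne (by simpa using (ng_ne r).symm)] at h1
  rw [show Pi.single (Sum.inr (ng r)) (1 : K) = er K (ng r) from rfl, al_er] at h1
  apply hμ
  rw [← pow_eq_zero_iff (n := 2) (by norm_num)]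
  linear_combination h1

theorem hb_ne (hβ : β ∈ BL) {ξ : Kˣ} (hξ : ξ ^ 2 ≠ 1) : Phi K (hb β ξ) ≠ 1 := by
  intro h
  have hβl := BL_lt hβ
  have h1 := Phi_er (hb β ξ) (⟨β, hβl⟩ : Fin chevE7.nroots)
  rw [h, L_one, rtv_hb, pr_self hβl] at h1
  have h3 := congrFun h1 (Sum.inr (⟨β, hβl⟩ : Fin chevE7.nroots))
  rw [Pi.smul_apply, er, Pi.single_eq_same, smul_eq_mul, mul_one] at h3
  apply hξ
  apply Units.ext
  rw [Units.val_one, h3]
  rfl

/-- the root elements fix the vectors of the first kind -/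
theorem xs_stab (hβ : β ∈ BL) {r : Fin chevE7.nroots} (hr : r.val = β ∨ r.val = 125 - β) {X : chevE7.Idx → K}
    (hX : Ev β X) (h1 : X (Sum.inr (ng r)) = 0) (h3 : al β X = 0) (t : K) : L K (xs K r.val t) X = X := by
  have h4 : al r.val X = 0 := by
    rcases hr with hr | hr
    · rw [hr, h3]
    · rw [hr, al_neg (BL_lt hβ), h3, neg_zero]
  rw [xs_fix hβ hr hX, h1, h4]
  module

theorem hb_stab (hβ : β ∈ BL) {b : Fin chevE7.nroots} (hb' : b.val = β) {X : chevE7.Idx → K}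
    (hX : Ev β X) (h1 : X (Sum.inr b) = 0) (h3 : X (Sum.inr (ng b)) = 0) (ξ : Kˣ) : L K (Phi K (hb β ξ)) X = X := by
  funext i
  rw [Five.L_Phi]
  rcases i with i | s
  · rw [Sum.elim_inl, one_mul]
  · rw [Sum.elim_inr, rtv_hb]
    rcases pr_cases β hβ s.val s.2 with ⟨h4, -⟩ | ⟨h4, -⟩ | ⟨-, h4⟩ | ⟨-, h4⟩
    · rw [h4, zpow_zero, Units.val_one, one_mul]
    · rw [hX s h4, mul_zero]
    · have : s = b := Fin.ext (by rw [h4, hb'])
      rw [this, h1, mul_zero]
    · have : s = ng b := Fin.ext (by rw [h4, ng_val, hb'])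
      rw [this, h3, mul_zero]

end stdelts

/-- the quadratic form -/
noncomputable def Qf {F : Type u} [Field F] (z : Gh F) (v : chevE7.Idx → F) : F := 4 * kf F v v - BF z v v

section
variable {F : Type u} [Field F] [Finite F]

theorem five_facts (h5 : Nat.card F = 5) : (5 : F) = 0 ∧ (2 : F) ≠ 0 ∧ (3 : F) ≠ 0 := by
  have := Fintype.ofFinite F
  have h : ((Fintype.card F : ℕ) : F) = 0 := FiniteField.cast_card_eq_zero F
  rw [← Nat.card_eq_fintype_card, h5] at h
  have h' : (5 : F) = 0 := by exact_mod_cast h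
  refine ⟨h', fun h2 => one_ne_zero (α := F) ?_, fun h3 => one_ne_zero (α := F) ?_⟩
  · linear_combination 3 * h2 - h'
  · linear_combination 2 * h3 - h'

variable {K : Type u} [Field K] [IsAlgClosed K] (f : F →+* K) (s : K →+* K)

/-- the elements found over the algebraic closure descend -/
theorem descend (hs : ∀ t, s t = t ^ Nat.card F) {z : Gh F} {β : ℕ}
    (h2 : (2 : K) ≠ 0) (hx : ∃ x : Kˣ, x ^ 12 ≠ 1)
    (hβ : β ∈ BL) {b : Fin chevE7.nroots} (hb' : b.val = β) {g : Gh K} (hg : Phi K (hb β (-1)) = g * emb f z * g⁻¹)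
    {v : chevE7.Idx → F} {ρ0 : Gh K} (h1 : ρ0 * Phi K (hb β (-1)) = Phi K (hb β (-1)) * ρ0)
    (h3 : L K ρ0 (L K g fun i => f (v i)) = L K g fun i => f (v i))
    (h4 : ∀ W, Ev β W → W (Sum.inr b) = 0 → W (Sum.inr (ng b)) = 0 → al β W = 0 → L K ρ0 W = W)
    {k : ℕ} (hk : Odd k) (h5 : ρ0 ^ k = 1) (h6 : ρ0 ≠ 1) (h7 : (adM K (g⁻¹ * ρ0 * g)).map s = adM K (g⁻¹ * ρ0 * g)) :
    ∃ ρ : Gh F, ρ * z = z * ρ ∧ L F ρ v = v ∧
      (∀ w, L F z w = w → PF (emb f z) (fun i => f (w i)) 0 → L F ρ w = w) ∧ ρ ^ k = 1 ∧ ρ ≠ 1 := by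
  have e1 : (g⁻¹ * ρ0 * g) ^ k = 1 := by
    have h := conj_pow (i := k) (a := g⁻¹) (b := ρ0)
    rw [inv_inv, h5, mul_one, inv_mul_cancel] at h
    exact h
  have h8 := emb_eq_of s _ hk e1 h7
  obtain ⟨ρ, hρ⟩ := exists_of_emb_eq f s hs h8
  have hinj := emb_injective f
  refine ⟨ρ, ?_, ?_, ?_, ?_, ?_⟩
  · apply hinj
    rw [map_mul, map_mul, hρ]
    have e : emb f z = g⁻¹ * Phi K (hb β (-1)) * g := by rw [hg]; group
    rw [e]
    have e2 : g⁻¹ * ρ0 * g * (g⁻¹ * Phi K (hb β (-1)) * g) = g⁻¹ * (ρ0 * Phi K (hb β (-1))) * g := by group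
    rw [e2, h1]
    group
  · apply fun_injective f
    rw [← L_emb, hρ, L_mul, L_mul, h3, L_inv_L]
  · intro w hw hPF
    apply fun_injective f
    rw [← L_emb, hρ, L_mul, L_mul]
    have hE : Ev β (L K g fun i => f (w i)) := by
      rw [← tb_fix_iff h2 hβ, hg, L_mul, L_mul, L_inv_L, L_emb, hw]
    have h9 := hPF.conj g
    rw [← hg, map_zero] at h9
    obtain ⟨c1, c2, c3⟩ := zero_of_PF h2 hx hβ hb' hE h9
    rw [h4 _ hE c1 c2 c3, L_inv_L]
  · apply hinj
    rw [map_pow, hρ, e1, map_one]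
  · rintro rfl
    rw [map_one] at hρ
    apply h6
    have : ρ0 = g * (g⁻¹ * ρ0 * g) * g⁻¹ := by group
    rw [this, ← hρ]
    group

/-- the main step -/
theorem core (hs : ∀ t, s t = t ^ Nat.card F) (hsurj : Function.Surjective s) (h5 : Nat.card F = 5) {z : Gh F}
    (hz : z * z = 1) {β : ℕ} (hβ : β ∈ BL) {b : Fin chevE7.nroots} (hb' : b.val = β) {g0 : Gh K}
    (hx : ∃ x : Kˣ, x ^ 12 ≠ 1) (hξ : ∃ ξ : K, ξ ^ 3 = 1 ∧ ξ ≠ 1)
    (hg0 : Phi K (hb β (-1)) = g0 * emb f z * g0⁻¹) {v : chevE7.Idx → F} (hv : L F z v = v)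
    (hQ : Qf z v = 0 ∨ Qf z v = 2 ∨ Qf z v = 3) (hne : ¬ PF (emb f z) (fun i => f (v i)) 0) :
    ∃ ρ : Gh F, ρ * z = z * ρ ∧ L F ρ v = v ∧
      (∀ w, L F z w = w → PF (emb f z) (fun i => f (w i)) 0 → L F ρ w = w) ∧ (ρ ^ 3 = 1 ∨ ρ ^ 5 = 1) ∧ ρ ≠ 1 := by
  obtain ⟨f5, f2, f3⟩ := five_facts h5
  have k2 : (2 : K) ≠ 0 := by
    have h := (map_ne_zero f).2 f2
    rwa [map_ofNat] at h
  have k3 : (3 : K) ≠ 0 := by
    have h := (map_ne_zero f).2 f3
    rwa [map_ofNat] at h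
  have k5 : (5 : K) = 0 := by
    have h := congrArg f f5
    rwa [map_ofNat, map_zero] at h
  set X0 : chevE7.Idx → K := fun i => f (v i) with hX0
  set X := L K g0 X0 with hXdef
  have hX : Ev β X := by
    rw [← tb_fix_iff k2 hβ, hg0, hXdef, L_mul, L_mul, L_inv_L, hX0, L_emb, hv]
  -- the invariant
  have hqn : f (Qf z v) = 16 * Qn b X := by
    have e1 : f (BF z v v) = BF (Phi K (hb β (-1))) X X := by
      rw [← BF_map, hg0, hXdef, BF_conj]
    have e2 : f (kf F v v) = kf K X X := by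
      rw [← kf_map, hXdef, kf_L]
    rw [Qf, map_sub, map_mul, e1, e2, BF_tb k2 hx hβ hb' hX hX, Qn, hb', map_ofNat]
    ring
  -- Frobenius
  have hfr : ∀ {g : Gh K} {u : chevE7.Idx → K}, Phi K (hb β (-1)) = g * emb f z * g⁻¹ →
      PF (Phi K (hb β (-1))) (L K g X0) u → (fun i => s (L K g⁻¹ u i)) = L K g⁻¹ u := by
    intro g u hg hu
    have h1 := hu.of_conj hg rfl
    have h3 := h1.map s hsurj
    rw [emb_frob f s hs] at h3
    have h4 : (fun i => s (X0 i)) = X0 := by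
      funext i
      rw [hX0, hs]
      show f (v i) ^ Nat.card F = f (v i)
      have := Fintype.ofFinite F
      rw [← map_pow, Nat.card_eq_fintype_card, FiniteField.pow_card]
    rw [h4] at h3
    exact h3.unique k2 (by rw [← map_mul, hz, map_one]) h1
  rcases nrm k2 hβ hb' hX with ⟨c1, c2, c3⟩ | ⟨hq, g1, hg1, r, hr, c1, c2, c3⟩ | ⟨g1, hg1, c1, c2, c3, c4⟩
  · exfalso
    apply hne
    have h1 := (PF_zero k2 hx hβ hb' hX c1 c2 c3).of_conj hg0 hXdef
    rwa [map_zero] at h1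
  · -- nilpotent case
    have hg : Phi K (hb β (-1)) = (g1 * g0) * emb f z * (g1 * g0)⁻¹ := by
      have e : (g1 * g0) * emb f z * (g1 * g0)⁻¹ = g1 * (g0 * emb f z * g0⁻¹) * g1⁻¹ := by group
      rw [e, ← hg0, hg1, mul_inv_cancel_right]
    have hXg : L K g1 X = L K (g1 * g0) X0 := by rw [L_mul]
    have hX' : Ev β (L K g1 X) := Ev_L k2 hβ hg1 hX
    have hr' : r.val = β ∨ r.val = 125 - β := by
      rcases hr with rfl | rfl
      · exact Or.inl hb'
      · exact Or.inr (by rw [ng_val, hb'])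
    have hPF := PF_nil k2 hx hβ hb' hX' hr c1 c2
    set μ := L K g1 X (Sum.inr r) with hμ
    rw [hXg] at hPF
    have hrat := rat_nil s k2 (hfr hg hPF)
    obtain ⟨ρ, r1, r2, r3, r4, r5⟩ := descend f s hs (z := z) k2 hx hβ hb' hg (v := v) (ρ0 := xs K r.val μ)
      (xs_comm hβ (pr_pm hβ hr') μ) (by
        rw [← hXg]
        exact xs_stab hβ hr' hX' c2 c1 μ) (by
        intro W hW w1 w2 w3
        refine xs_stab hβ hr' hW ?_ w3 μ
        rcases hr with rfl | rfl
        · exact w2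
        · rw [ng_ng]; exact w1) (k := 5) (by decide) (by
        rw [xs_pow]
        push_cast
        rw [k5, zero_mul, xs_zero]) (xs_ne hβ hr' c3) hrat
    exact ⟨ρ, r1, r2, r3, Or.inr r4, r5⟩
  · -- semisimple case
    have hg : Phi K (hb β (-1)) = (g1 * g0) * emb f z * (g1 * g0)⁻¹ := by
      have e : (g1 * g0) * emb f z * (g1 * g0)⁻¹ = g1 * (g0 * emb f z * g0⁻¹) * g1⁻¹ := by group
      rw [e, ← hg0, hg1, mul_inv_cancel_right]
    have hXg : L K g1 X = L K (g1 * g0) X0 := by rw [L_mul]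
    have hX' : Ev β (L K g1 X) := Ev_L k2 hβ hg1 hX
    set a := al β (L K g1 X) with ha
    have ha2 : a ^ 2 = f (Qf z v) := by
      rw [c4, hqn]
      linear_combination (-3 * Qn b X) * k5
    have ha4 : a ^ 4 = -1 := by
      have e : a ^ 4 = (a ^ 2) ^ 2 := by ring
      rw [e, ha2]
      rcases hQ with hQ | hQ | hQ
      · exfalso
        rw [hQ, map_zero] at ha2
        exact c3 ((pow_eq_zero_iff (by norm_num)).1 ha2)
      · rw [hQ, map_ofNat]
        linear_combination k5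
      · rw [hQ, map_ofNat]
        linear_combination 2 * k5
    have hPF := PF_ss k2 hx hβ hb' hX' (l := a / 2) c1 c2 (by rw [← ha]; field_simp)
    rw [hXg] at hPF
    obtain ⟨ξ0, hξ3, hξ1⟩ := hξ
    have hξ0 : ξ0 ≠ 0 := by
      rintro rfl
      norm_num at hξ3
    set ξ : Kˣ := Units.mk0 ξ0 hξ0 with hξdef
    have hξu : ξ ^ 3 = 1 := by
      apply Units.ext
      rw [Units.val_pow_eq_pow_val, Units.val_one]
      exact hξ3
    have hl0 : a / 2 ≠ 0 := div_ne_zero c3 k2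
    have hls : s (a / 2) = -(a / 2) := by
      rw [hs, h5]
      have e : (a / 2) ^ 5 = a ^ 4 * a / 32 := by
        have e3 : (32 : K) = 2 ^ 5 := by norm_num
        rw [div_pow, e3, pow_succ a 4]
      rw [e, ha4]
      have e2 : (32 : K) = 2 := by linear_combination 6 * k5
      rw [e2]
      ring
    have hξs : s (ξ : K) = ((ξ⁻¹ : Kˣ) : K) := by
      have e : ξ⁻¹ = ξ ^ 5 := by
        rw [inv_eq_iff_mul_eq_one]
        have : ξ * ξ ^ 5 = (ξ ^ 3) ^ 2 := by group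
        rw [this, hξu, one_pow]
      rw [e, hs, h5, Units.val_pow_eq_pow_val]
    have hrat := rat_ss s k2 k3 hβ hl0 hls hξs (hfr hg hPF)
    obtain ⟨ρ, r1, r2, r3, r4, r5⟩ := descend f s hs (z := z) k2 hx hβ hb' hg (v := v) (ρ0 := Phi K (hb β ξ))
      (Phi_comm _ _) (by
        rw [← hXg]
        exact hb_stab hβ hb' hX' c1 c2 ξ) (by
        intro W hW w1 w2 _
        exact hb_stab hβ hb' hW w1 w2 ξ) (k := 3) (by decide) (by
        rw [← map_pow, ← hb_pow, hξu, hb_one, map_one]) (hb_ne hβ (by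
          intro h
          apply hξ1
          have : ξ = ξ ^ 3 * (ξ ^ 2)⁻¹ := by group
          rw [hξu, h, inv_one, mul_one] at this
          exact congrArg Units.val this)) hrat
    exact ⟨ρ, r1, r2, r3, Or.inl r4, r5⟩

end

end Cfsg.Agent.R2.T1.Five
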