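import Mathlib
import Cfsg.Agent.H952.F4.Scott

/-!
# S5771, n = 5: Scott's lemma on `V ⊕ V` twisted by matrices of degree 2 (helper25)

* `tw C T` : the operator `C ⊗ T` on `V × V`;
* `ker_tw` : `dim ker (T² - (tr C) T + 1) ≤ dim ker (C ⊗ T - 1)` for a non-scalar `C` of determinant 1;
* `exists_mats` : `A`, `C` of determinant 1 over a finite field with traces `0`, `-1`, and `tr (A C) = τ`;
* `scott_tw` : the dimension of the space of the common fixed vectors of `A ⊗ x`, `C ⊗ y`;
* `exists_small` : a subspace of dimension 1 or 2 stable under `x` and `y`.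
-/

set_option autoImplicit false

namespace Cfsg.Agent.R2.T1.Five

open Module
open Cfsg.Agent.H952.F4 (ev es)

variable {F V : Type*} [Field F] [AddCommGroup V] [Module F V]

/-- `C ⊗ T` on `V × V` -/
def tw (C : Matrix (Fin 2) (Fin 2) F) (T : Module.End F V) : Module.End F (V × V) where
  toFun v := (C 0 0 • T v.1 + C 0 1 • T v.2, C 1 0 • T v.1 + C 1 1 • T v.2)
  map_add' v w := by
    ext
    · simp only [Prod.fst_add, Prod.snd_add, map_add, smul_add]; abel
    · simp only [Prod.fst_add, Prod.snd_add, map_add, smul_add]; abel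
  map_smul' a v := by
    ext
    · simp only [Prod.smul_fst, Prod.smul_snd, map_smul, smul_add, RingHom.id_apply]
      rw [smul_comm, smul_comm (C 0 1)]
    · simp only [Prod.smul_fst, Prod.smul_snd, map_smul, smul_add, RingHom.id_apply]
      rw [smul_comm, smul_comm (C 1 1)]

theorem tw_apply (C : Matrix (Fin 2) (Fin 2) F) (T : Module.End F V) (v : V × V) :
    tw C T v = (C 0 0 • T v.1 + C 0 1 • T v.2, C 1 0 • T v.1 + C 1 1 • T v.2) := rfl

theorem tw_mul (C D : Matrix (Fin 2) (Fin 2) F) (T S : Module.End F V) : tw (C * D) (T * S) = tw C T * tw D S := by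
  refine LinearMap.ext fun v => ?_
  rw [Module.End.mul_apply, tw_apply, tw_apply, tw_apply]
  simp only [Matrix.mul_apply, Fin.sum_univ_two, Module.End.mul_apply, map_add, map_smul, smul_add, add_smul, smul_smul]
  ext
  · simp only []; abel
  · simp only []; abel

theorem tw_one : tw (1 : Matrix (Fin 2) (Fin 2) F) (1 : Module.End F V) = 1 := by
  refine LinearMap.ext fun v => ?_
  rw [tw_apply]
  simp

/-- `T² - t T + 1` -/
def qd (t : F) (T : Module.End F V) : Module.End F V := T * T - t • T + 1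

theorem mem_ker_qd {t : F} {T : Module.End F V} {u : V} : u ∈ LinearMap.ker (qd t T) ↔ T (T u) = t • T u - u := by
  rw [LinearMap.mem_ker, qd]
  show T (T u) - t • T u + u = 0 ↔ _
  constructor
  · intro h
    rw [← sub_eq_zero, ← h]; abel
  · intro h
    rw [h]; abel

variable [FiniteDimensional F V]

omit [FiniteDimensional F V] in
theorem finrank_map_inj {W : Type*} [AddCommGroup W] [Module F W] {f : V →ₗ[F] W} (hf : Function.Injective f)
    (U : Submodule F V) : finrank F ↥(U.map f) = finrank F ↥U := (Submodule.equivMapOfInjective f hf U).finrank_eq.symm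

theorem ker_tw {C : Matrix (Fin 2) (Fin 2) F} (hdet : C.det = 1) (hns : C 1 0 ≠ 0 ∨ C 0 1 ≠ 0) (T : Module.End F V) :
    finrank F ↥(LinearMap.ker (qd C.trace T)) ≤ finrank F ↥(LinearMap.ker (tw C T - 1)) := by
  rw [Matrix.det_fin_two] at hdet
  have htr : C.trace = C 0 0 + C 1 1 := Matrix.trace_fin_two C
  rcases hns with hc | hb
  · let f : V →ₗ[F] V × V :=
      { toFun := fun u => (C 0 0 • u - T u, C 1 0 • u)
        map_add' := fun u v => by
          ext
          · simp only [Prod.fst_add, map_add, smul_add]; abel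
          · simp only [Prod.snd_add, smul_add]
        map_smul' := fun a u => by
          ext
          · simp only [Prod.smul_fst, map_smul, smul_sub, RingHom.id_apply]; rw [smul_comm]
          · simp only [Prod.smul_snd, RingHom.id_apply]; rw [smul_comm] }
    have hf : ∀ u, f u = (C 0 0 • u - T u, C 1 0 • u) := fun _ => rfl
    have hinj : Function.Injective f := by
      rw [← LinearMap.ker_eq_bot, eq_bot_iff]
      intro u hu
      have h1 := congrArg Prod.snd (LinearMap.mem_ker.1 hu)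
      rw [hf] at h1
      exact (Submodule.mem_bot F).2 ((smul_eq_zero.1 h1).resolve_left hc)
    have hle : (LinearMap.ker (qd C.trace T)).map f ≤ LinearMap.ker (tw C T - 1) := by
      rintro _ ⟨u, hu, rfl⟩
      have h1 := mem_ker_qd.1 hu
      rw [htr] at h1
      rw [LinearMap.mem_ker, LinearMap.sub_apply, Module.End.one_apply, sub_eq_zero, hf, tw_apply]
      simp only [map_sub, map_smul, h1]
      refine Prod.ext ?_ ?_
      · show C 0 0 • (C 0 0 • T u - ((C 0 0 + C 1 1) • T u - u)) + C 0 1 • C 1 0 • T u = C 0 0 • u - T u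
        linear_combination (norm := module) (-hdet) • T u
      · show C 1 0 • (C 0 0 • T u - ((C 0 0 + C 1 1) • T u - u)) + C 1 1 • C 1 0 • T u = C 1 0 • u
        module
    have h1 := Submodule.finrank_mono hle
    rwa [finrank_map_inj hinj] at h1
  · let f : V →ₗ[F] V × V :=
      { toFun := fun u => (C 0 1 • u, C 1 1 • u - T u)
        map_add' := fun u v => by
          ext
          · simp only [Prod.fst_add, smul_add]
          · simp only [Prod.snd_add, map_add, smul_add]; abel
        map_smul' := fun a u => by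
          ext
          · simp only [Prod.smul_fst, RingHom.id_apply]; rw [smul_comm]
          · simp only [Prod.smul_snd, map_smul, smul_sub, RingHom.id_apply]; rw [smul_comm] }
    have hf : ∀ u, f u = (C 0 1 • u, C 1 1 • u - T u) := fun _ => rfl
    have hinj : Function.Injective f := by
      rw [← LinearMap.ker_eq_bot, eq_bot_iff]
      intro u hu
      have h1 := congrArg Prod.fst (LinearMap.mem_ker.1 hu)
      rw [hf] at h1
      exact (Submodule.mem_bot F).2 ((smul_eq_zero.1 h1).resolve_left hb)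
    have hle : (LinearMap.ker (qd C.trace T)).map f ≤ LinearMap.ker (tw C T - 1) := by
      rintro _ ⟨u, hu, rfl⟩
      have h1 := mem_ker_qd.1 hu
      rw [htr] at h1
      rw [LinearMap.mem_ker, LinearMap.sub_apply, Module.End.one_apply, sub_eq_zero, hf, tw_apply]
      simp only [map_sub, map_smul, h1]
      refine Prod.ext ?_ ?_
      · show C 0 0 • C 0 1 • T u + C 0 1 • (C 1 1 • T u - ((C 0 0 + C 1 1) • T u - u)) = C 0 1 • u
        module
      · show C 1 0 • C 0 1 • T u + C 1 1 • (C 1 1 • T u - ((C 0 0 + C 1 1) • T u - u)) = C 1 1 • u - T u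
        linear_combination (norm := module) (-hdet) • T u
    have h1 := Submodule.finrank_mono hle
    rwa [finrank_map_inj hinj] at h1

/-! ### the matrices -/

theorem exists_pr [Finite F] {τ : F} (hτ : τ * τ + τ - 1 = 0) : ∃ p r : F, p * p + p + r * r + τ * r + 1 = 0 := by
  classical
  have := Fintype.ofFinite F
  by_cases h2 : (2 : F) = 0
  · have h1 : (1 : F) + τ ≠ 0 := by
      intro h
      have e : τ = -1 := by linear_combination h
      rw [e] at hτ
      apply one_ne_zero (α := F)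
      linear_combination -hτ
    refine ⟨(1 + τ)⁻¹, (1 + τ)⁻¹, ?_⟩
    have h3 : (1 + τ) * (1 + τ)⁻¹ = 1 := mul_inv_cancel₀ h1
    linear_combination ((1 + τ)⁻¹ * (1 + τ)⁻¹) * h2 + h3 + h2
  · have hodd : Fintype.card F % 2 = 1 := by
      refine FiniteField.odd_card_of_char_ne_two (F := F) ?_
      intro h
      apply h2
      have := ringChar.spec F 2
      exact_mod_cast (this.2 (by rw [h]))
    obtain ⟨a, b, hab⟩ := FiniteField.exists_root_sum_quadratic (R := F)
      (f := Polynomial.X ^ 2 + Polynomial.X + 1) (g := Polynomial.X ^ 2 + Polynomial.C τ * Polynomial.X)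
      (by compute_degree!) (by compute_degree!) hodd
    refine ⟨a, b, ?_⟩
    simp only [Polynomial.eval_add, Polynomial.eval_pow, Polynomial.eval_X, Polynomial.eval_one, Polynomial.eval_mul,
      Polynomial.eval_C] at hab
    linear_combination hab

theorem exists_mats [Finite F] {τ : F} (hτ : τ * τ + τ - 1 = 0) : ∃ A C : Matrix (Fin 2) (Fin 2) F,
    A.det = 1 ∧ C.det = 1 ∧ A.trace = 0 ∧ C.trace = -1 ∧ (A * C).trace = τ ∧ (A 1 0 ≠ 0 ∨ A 0 1 ≠ 0) ∧
      (C 1 0 ≠ 0 ∨ C 0 1 ≠ 0) ∧ ((A * C) 1 0 ≠ 0 ∨ (A * C) 0 1 ≠ 0) := by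
  obtain ⟨p, r, h⟩ := exists_pr hτ
  refine ⟨!![0, -1; 1, 0], !![p, τ + r; r, -1 - p], ?_, ?_, ?_, ?_, ?_, Or.inl ?_, ?_, ?_⟩
  · rw [Matrix.det_fin_two_of]; ring
  · rw [Matrix.det_fin_two_of]; linear_combination -h
  · rw [Matrix.trace_fin_two_of]; ring
  · rw [Matrix.trace_fin_two_of]; ring
  · rw [Matrix.mul_fin_two, Matrix.trace_fin_two_of]; ring
  · show (1 : F) ≠ 0
    exact one_ne_zero
  · show r ≠ 0 ∨ τ + r ≠ 0
    by_contra h1
    push Not at h1
    obtain ⟨h2, h3⟩ := h1
    rw [h2, add_zero] at h3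
    rw [h3] at hτ
    apply one_ne_zero (α := F)
    linear_combination -hτ
  · rw [Matrix.mul_fin_two]
    show (1 : F) * p + 0 * r ≠ 0 ∨ (0 : F) * (τ + r) + -1 * (-1 - p) ≠ 0
    by_contra h1
    push Not at h1
    obtain ⟨h2, h3⟩ := h1
    apply one_ne_zero (α := F)
    linear_combination h3 - h2

/-! ### Scott's lemma -/

/-- the form on `V × V` -/
def twB (B : V →ₗ[F] V →ₗ[F] F) : V × V →ₗ[F] V × V →ₗ[F] F :=
  LinearMap.mk₂ F (fun v w => B v.1 w.2 - B v.2 w.1)
    (fun v v' w => by simp only [Prod.fst_add, Prod.snd_add, map_add, LinearMap.add_apply]; ring)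
    (fun a v w => by simp only [Prod.smul_fst, Prod.smul_snd, map_smul, LinearMap.smul_apply, smul_sub])
    (fun v w w' => by simp only [Prod.fst_add, Prod.snd_add, map_add]; ring)
    (fun a v w => by simp only [Prod.smul_fst, Prod.smul_snd, map_smul, smul_sub])

omit [FiniteDimensional F V] in
theorem twB_apply (B : V →ₗ[F] V →ₗ[F] F) (v w : V × V) : twB B v w = B v.1 w.2 - B v.2 w.1 := rfl

omit [FiniteDimensional F V] in
theorem twB_inv {B : V →ₗ[F] V →ₗ[F] F} {C : Matrix (Fin 2) (Fin 2) F} (hdet : C.det = 1) {T : Module.End F V}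
    (hT : ∀ v w, B (T v) (T w) = B v w) (v w : V × V) : twB B (tw C T v) (tw C T w) = twB B v w := by
  rw [Matrix.det_fin_two] at hdet
  rw [twB_apply, twB_apply, tw_apply, tw_apply]
  simp only [map_add, map_smul, LinearMap.add_apply, LinearMap.smul_apply, smul_eq_mul, hT]
  linear_combination (B v.1 w.2 - B v.2 w.1) * hdet

/-- the representation on `V × V` -/
def twR {G : Type*} [Group G] (ρ : Representation F G V) :
    Representation F (Matrix.SpecialLinearGroup (Fin 2) F × G) (V × V) where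
  toFun g := tw (g.1 : Matrix (Fin 2) (Fin 2) F) (ρ g.2)
  map_one' := by
    rw [Prod.fst_one, Prod.snd_one, map_one, Matrix.SpecialLinearGroup.coe_one]
    exact tw_one
  map_mul' g h := by
    rw [Prod.fst_mul, Prod.snd_mul, map_mul, Matrix.SpecialLinearGroup.coe_mul, tw_mul]

/-- the common fixed vectors of `A ⊗ x` and `C ⊗ y` -/
def twI (A C : Matrix (Fin 2) (Fin 2) F) (S T : Module.End F V) : Submodule F (V × V) :=
  LinearMap.ker (tw A S - 1) ⊓ LinearMap.ker (tw C T - 1)

omit [FiniteDimensional F V] in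
theorem mem_twI {A C : Matrix (Fin 2) (Fin 2) F} {S T : Module.End F V} {v : V × V} :
    v ∈ twI A C S T ↔ tw A S v = v ∧ tw C T v = v := by
  rw [twI, Submodule.mem_inf, LinearMap.mem_ker, LinearMap.mem_ker, LinearMap.sub_apply, LinearMap.sub_apply,
    Module.End.one_apply, sub_eq_zero, sub_eq_zero]

theorem scott_tw {G : Type*} [Group G] (ρ : Representation F G V) (B : V →ₗ[F] V →ₗ[F] F)
    (hB : ∀ v, (∀ w, B v w = 0) → v = 0) (hinv : ∀ g v w, B (ρ g v) (ρ g w) = B v w) {x y : G}
    {A C : Matrix (Fin 2) (Fin 2) F} (hA : A.det = 1) (hC : C.det = 1)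
    (nA : A 1 0 ≠ 0 ∨ A 0 1 ≠ 0) (nC : C 1 0 ≠ 0 ∨ C 0 1 ≠ 0) (nAC : (A * C) 1 0 ≠ 0 ∨ (A * C) 0 1 ≠ 0) :
    finrank F ↥(LinearMap.ker (qd A.trace (ρ x))) + finrank F ↥(LinearMap.ker (qd C.trace (ρ y))) +
      finrank F ↥(LinearMap.ker (qd (A * C).trace (ρ (x * y)))) ≤
      2 * finrank F V + 2 * finrank F ↥(twI A C (ρ x) (ρ y)) := by
  have hAC : (A * C).det = 1 := by rw [Matrix.det_mul, hA, hC, one_mul]
  have e1 := ker_tw hA nA (ρ x)
  have e2 := ker_tw hC nC (ρ y)
  have e3 := ker_tw hAC nAC (ρ (x * y))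
  let a : Matrix.SpecialLinearGroup (Fin 2) F × G := (⟨A, hA⟩, x)
  let c : Matrix.SpecialLinearGroup (Fin 2) F × G := (⟨C, hC⟩, y)
  let S : Subgroup (Matrix.SpecialLinearGroup (Fin 2) F × G) := Subgroup.closure {a, c}
  have ha : a ∈ S := Subgroup.subset_closure (by simp)
  have hc : c ∈ S := Subgroup.subset_closure (by simp)
  let σ : Representation F ↥S (V × V) := MonoidHom.comp (twR ρ) S.subtype
  have hgen : Subgroup.closure {(⟨a, ha⟩ : ↥S), ⟨c, hc⟩} = ⊤ := by
    have h := Subgroup.closure_closure_coe_preimage (k := ({a, c} : Set (Matrix.SpecialLinearGroup (Fin 2) F × G)))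
    rw [← h]
    congr 1
    ext z
    simp only [Set.mem_insert_iff, Set.mem_singleton_iff, Set.mem_preimage, Subtype.ext_iff]
  have hS := Cfsg.Agent.H952.F4.Scott.scott_form σ hgen (twB B) (by
      intro v hv
      ext
      · refine hB _ fun w => ?_
        have := hv (0, w)
        rw [twB_apply] at this
        simpa using this
      · refine hB _ fun w => ?_
        have := hv (w, 0)
        rw [twB_apply] at this
        simpa using this)
    (fun g v w => twB_inv (g : Matrix.SpecialLinearGroup (Fin 2) F × G).1.2 (hinv _) v w)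
  have h1 : ∀ z : ↥S, ev (σ z) 1 = finrank F ↥(LinearMap.ker (σ z - 1)) := fun z => by
    rw [ev, Module.End.eigenspace_def, one_smul]
  have h2 : σ.invariants ≤ twI A C (ρ x) (ρ y) := by
    intro v hv
    rw [Representation.mem_invariants] at hv
    exact mem_twI.2 ⟨hv ⟨a, ha⟩, hv ⟨c, hc⟩⟩
  have h3 := Submodule.finrank_mono h2
  rw [h1, h1, h1, Module.finrank_prod] at hS
  have e1' : finrank F ↥(LinearMap.ker (qd A.trace (ρ x))) ≤ finrank F ↥(LinearMap.ker (σ ⟨a, ha⟩ - 1)) := e1
  have e2' : finrank F ↥(LinearMap.ker (qd C.trace (ρ y))) ≤ finrank F ↥(LinearMap.ker (σ ⟨c, hc⟩ - 1)) := e2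
  have e3' : finrank F ↥(LinearMap.ker (qd (A * C).trace (ρ (x * y)))) ≤
    finrank F ↥(LinearMap.ker (σ (⟨a, ha⟩ * ⟨c, hc⟩) - 1)) := e3
  omega

omit [FiniteDimensional F V] in
/-- the span of the two components of a fixed vector of `C ⊗ T` is stable -/
theorem span_stable {C : Matrix (Fin 2) (Fin 2) F} (hdet : C.det = 1) {T : Module.End F V} {v : V × V}
    (h : tw C T v = v) : ∀ u ∈ Submodule.span F {v.1, v.2}, T u ∈ Submodule.span F {v.1, v.2} := by
  rw [Matrix.det_fin_two] at hdet
  have h1 : C 0 0 • T v.1 + C 0 1 • T v.2 = v.1 := congrArg Prod.fst h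
  have h2 : C 1 0 • T v.1 + C 1 1 • T v.2 = v.2 := congrArg Prod.snd h
  have e1 : T v.1 = C 1 1 • v.1 - C 0 1 • v.2 := by
    linear_combination (norm := module) (-hdet) • T v.1 + C 1 1 • h1 - C 0 1 • h2
  have e2 : T v.2 = C 0 0 • v.2 - C 1 0 • v.1 := by
    linear_combination (norm := module) (-hdet) • T v.2 + C 0 0 • h2 - C 1 0 • h1
  intro u hu
  rw [Submodule.mem_span_pair] at hu
  obtain ⟨a, b, rfl⟩ := hu
  rw [map_add, map_smul, map_smul, e1, e2]
  have m1 : v.1 ∈ Submodule.span F {v.1, v.2} := Submodule.subset_span (by simp)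
  have m2 : v.2 ∈ Submodule.span F {v.1, v.2} := Submodule.subset_span (by simp)
  exact add_mem (Submodule.smul_mem _ _ (sub_mem (Submodule.smul_mem _ _ m1) (Submodule.smul_mem _ _ m2)))
    (Submodule.smul_mem _ _ (sub_mem (Submodule.smul_mem _ _ m2) (Submodule.smul_mem _ _ m1)))

theorem exists_small [Finite F] {G : Type*} [Group G] (ρ : Representation F G V) (B : V →ₗ[F] V →ₗ[F] F)
    (hB : ∀ v, (∀ w, B v w = 0) → v = 0) (hinv : ∀ g v w, B (ρ g v) (ρ g w) = B v w) {x y : G} {τ : F}
    (hτ : τ * τ + τ - 1 = 0)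
    (h : 2 * finrank F V < finrank F ↥(LinearMap.ker (qd 0 (ρ x))) + finrank F ↥(LinearMap.ker (qd (-1) (ρ y))) +
      finrank F ↥(LinearMap.ker (qd τ (ρ (x * y))))) :
    ∃ U : Submodule F V, U ≠ ⊥ ∧ finrank F ↥U ≤ 2 ∧ (∀ u ∈ U, ρ x u ∈ U) ∧ (∀ u ∈ U, ρ y u ∈ U) := by
  obtain ⟨A, C, dA, dC, tA, tC, tAC, nA, nC, nAC⟩ := exists_mats hτ
  have h1 := scott_tw ρ B hB hinv (x := x) (y := y) dA dC nA nC nAC
  rw [tA, tC, tAC] at h1
  have h2 : 0 < finrank F ↥(twI A C (ρ x) (ρ y)) := by omega
  obtain ⟨⟨v, hv⟩, hv0⟩ := (Module.finrank_pos_iff_exists_ne_zero (R := F)).1 h2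
  have hv0' : v ≠ 0 := fun h => hv0 (Subtype.ext h)
  obtain ⟨f1, f2⟩ := mem_twI.1 hv
  refine ⟨Submodule.span F {v.1, v.2}, ?_, ?_, span_stable dA f1, span_stable dC f2⟩
  · intro h3
    apply hv0'
    have m1 : v.1 ∈ Submodule.span F {v.1, v.2} := Submodule.subset_span (by simp)
    have m2 : v.2 ∈ Submodule.span F {v.1, v.2} := Submodule.subset_span (by simp)
    rw [h3, Submodule.mem_bot] at m1 m2
    exact Prod.ext m1 m2
  · classical
    have h3 := finrank_span_finset_le_card (R := F) ({v.1, v.2} : Finset V)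
    have h4 : ({v.1, v.2} : Finset V).card ≤ 2 := Finset.card_le_two
    rw [Finset.coe_pair] at h3
    exact h3.trans h4

end Cfsg.Agent.R2.T1.Five
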