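import Mathlib
import Cfsg.Agent.R2.T1.Inf.PatF

/-!
# Elements of order 8 (helper25)

* `exists_row` : the multiplicities of an element of order dividing `N` on the module of degree 56;
* `no_eight` : if `|F| ≡ 3, 5` modulo 8, no element `k` has `k ^ 4 = -1` on the module of degree 56.
-/

set_option autoImplicit false
set_option maxRecDepth 100000

namespace Cfsg.Agent.R2.T1.Five

open Cfsg Cfsg.Lie Module
open Cfsg.Agent.H943.E7V.Block (D1 rho)
open Cfsg.Agent.H952.F4 (ev es)
open Cfsg.Agent.H944.Tab (allAlc allAlc_spec dotN)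
open Cfsg.Agent.H944.E7Two (th7)
open Cfsg.Agent.R2.T1

universe u

/-- the test of a property of the rows -/
def chkP (N : ℕ) (P : (ℕ → ℕ) → Bool) : Bool :=
  allAlc th7 N fun y => (List.range N).all fun t => !((2 * t + dt [2, 3, 4, 6, 5, 4, 3] y) % N == 0) ||
    P (cV N y t)

section
variable {K : Type u} [Field K]

theorem exists_row {N : ℕ} {P : (ℕ → ℕ) → Bool} (hchk : chkP N P = true) (hN : 0 < N) {ζ : Kˣ}
    (hζ : IsPrimitiveRoot ζ N) {x : Gh K}
    (h : ∃ (g : Gh K) (c : Fin chevE7.rank → Kˣ), Phi K c = g * x * g⁻¹ ∧ c ^ N = 1) :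
    ∃ m : ℕ → ℕ, P m = true ∧ ∀ k < N, ev (V K x) ((ζ : K) ^ k) = m k := by
  obtain ⟨g, c, y, h1, h2, h3, h4⟩ := Five.exists_alc hN hζ h
  have hζ' : IsPrimitiveRoot (ζ : K) N := IsPrimitiveRoot.coe_units_iff.2 hζ
  have : NeZero N := ⟨hN.ne'⟩
  obtain ⟨t, htN, ht⟩ : ∃ t < N, ζ ^ t = wt botv c := by
    have h5 : ((wt botv c : Kˣ) : K) ^ N = 1 := by
      rw [← Units.val_pow_eq_pow_val, wt_pow_one h2, Units.val_one]
    obtain ⟨t, htN, ht⟩ := hζ'.eq_pow_of_pow_eq_one h5
    exact ⟨t, htN, Units.ext (by rw [Units.val_pow_eq_pow_val, ht])⟩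
  set Y := List.ofFn y with hY
  have hlen : Y.length = 7 := by rw [hY, List.length_ofFn]
  have hv : ∀ j < 7, rtv (chevE7.simple j) c = ζ ^ Y.getD j 0 := by
    intro j hj
    have h5 := h3 ⟨j, hj⟩
    have h6 : Y.getD j 0 = y ⟨j, hj⟩ := by
      rw [hY, List.getD_eq_getElem _ _ (by rw [List.length_ofFn]; exact hj), List.getElem_ofFn]
    rw [h6]
    exact h5
  have hc := allAlc_spec th7 N _ (by decide) hchk Y (by rw [hlen]; rfl) h4
  rw [List.all_eq_true] at hc
  have hc' := hc t (List.mem_range.2 htN)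
  rw [core_rel hlen hv hζ ht.symm] at hc'
  simp only [beq_self_eq_true, Bool.not_true, Bool.false_or] at hc'
  refine ⟨_, hc', fun k hk => ?_⟩
  rw [ev_V_of_conj h1, ev_V_core hlen hv hζ ht.symm hk]

end

/-- the property of the rows of order 8 -/
def P8 (m : ℕ → ℕ) : Bool := !((m 0 == 0) && (m 2 == 0) && (m 4 == 0) && (m 6 == 0) && ((m 1 == m 3) || (m 1 == m 5)))

theorem chkP8 : chkP 8 P8 = true := by decide +kernel

section
variable {F : Type u} [Field F] [Finite F]

theorem no_eight (h2 : (2 : F) ≠ 0) {k : Gh F} (hk : V F (k ^ 4) = -1)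
    (hq : Nat.card F % 8 = 3 ∨ Nat.card F % 8 = 5) : False := by
  have h8 : ((8 : ℕ) : F) ≠ 0 := by
    have : ((8 : ℕ) : F) = 2 * (2 * 2) := by norm_num
    rw [this]
    exact mul_ne_zero h2 (mul_ne_zero h2 h2)
  obtain ⟨p, hpp, hp, hcop⟩ := exists_char h8
  set f := algebraMap F (AlgebraicClosure F) with hf
  have hx : k ^ 8 = 1 := by
    apply V_injective
    have h1 : k ^ 8 = k ^ 4 * k ^ 4 := by rw [← pow_add]
    rw [h1, map_mul, hk, map_one]
    refine LinearMap.ext fun v => ?_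
    show - - v = v
    exact _root_.neg_neg v
  have hch : CharP (AlgebraicClosure F) p := charP_of_injective_algebraMap f.injective p
  have hNk : ((8 : ℕ) : AlgebraicClosure F) ≠ 0 := by
    intro h0
    have h1 : p ∣ 8 := (CharP.cast_eq_zero_iff (AlgebraicClosure F) p 8).1 h0
    have h2 : p ∣ 1 := by
      rw [← hcop]
      exact Nat.dvd_gcd h1 dvd_rfl
    exact (Fact.out : p.Prime).one_lt.ne' (Nat.dvd_one.1 h2)
  have : NeZero ((8 : ℕ) : AlgebraicClosure F) := ⟨hNk⟩
  obtain ⟨ζ, hζ⟩ : ∃ ζ : AlgebraicClosure F, IsPrimitiveRoot ζ 8 :=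
    HasEnoughRootsOfUnity.exists_primitiveRoot (AlgebraicClosure F) 8
  have hζ0 : ζ ≠ 0 := hζ.ne_zero (by norm_num)
  have hζu : IsPrimitiveRoot (Units.mk0 ζ hζ0) 8 := IsPrimitiveRoot.coe_units_iff.1 hζ
  obtain ⟨m, hP, h1⟩ := exists_row chkP8 (by norm_num) hζu (frame p (by norm_num) hcop hx)
  have h2K : (2 : AlgebraicClosure F) ≠ 0 := by
    have h := (map_ne_zero f).2 h2
    rwa [map_ofNat] at h
  have hk' : V (AlgebraicClosure F) (emb f k ^ 4) = -1 := by
    have h3 : ad F (k ^ 4) = 1 := ad_eq_one_iff.2 (Or.inr hk)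
    have h4 : ad (AlgebraicClosure F) (emb f (k ^ 4)) = 1 := (ad_emb_eq_one_iff f _).2 h3
    rw [← map_pow]
    rcases ad_eq_one_iff.1 h4 with h5 | h5
    · exfalso
      have h6 : emb f (k ^ 4) = 1 := faithful h5
      rw [emb_injective f (h6.trans (map_one (emb f)).symm)] at hk
      have h7 := congrArg (fun T : Module.End F (D1 → F) => T (fun _ => 1)) hk
      have h8 := congrFun h7 topv
      simp only [map_one] at h8
      change (1 : F) = -1 at h8
      apply h2
      linear_combination h8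
    · exact h5
  have hev : ∀ j, ev (V (AlgebraicClosure F) (emb f k)) (ζ ^ (2 * j)) = 0 := by
    intro j
    rw [ev, Submodule.finrank_eq_zero, eq_bot_iff]
    intro v hv
    rw [Module.End.mem_eigenspace_iff] at hv
    have h3 : ∀ n : ℕ, V (AlgebraicClosure F) (emb f k ^ n) v = ((ζ ^ (2 * j)) ^ n) • v := by
      intro n
      induction n with
      | zero => rw [pow_zero, pow_zero, map_one, one_smul]; rfl
      | succ n ih => rw [pow_succ', map_mul, Module.End.mul_apply, ih, map_smul, hv, smul_smul, pow_succ]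
    have h4 := h3 4
    have h5 : (ζ ^ (2 * j)) ^ 4 = 1 := by
      rw [← pow_mul, show 2 * j * 4 = 8 * j by ring, pow_mul, hζ.pow_eq_one, one_pow]
    rw [hk', h5, one_smul] at h4
    have h6 : -v = v := h4
    have h7 : (2 : AlgebraicClosure F) • v = 0 := by
      rw [two_smul]
      nth_rewrite 1 [← h6]
      exact neg_add_cancel v
    exact (Submodule.mem_bot _).2 ((smul_eq_zero.1 h7).resolve_left h2K)
  have e0 := h1 0 (by norm_num)
  have e1 := h1 1 (by norm_num)
  have e2 := h1 2 (by norm_num)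
  have e3 := h1 3 (by norm_num)
  have e4 := h1 4 (by norm_num)
  have e5 := h1 5 (by norm_num)
  have e6 := h1 6 (by norm_num)
  change ev (V (AlgebraicClosure F) (emb f k)) (ζ ^ 0) = _ at e0
  change ev (V (AlgebraicClosure F) (emb f k)) (ζ ^ 1) = _ at e1
  change ev (V (AlgebraicClosure F) (emb f k)) (ζ ^ 2) = _ at e2
  change ev (V (AlgebraicClosure F) (emb f k)) (ζ ^ 3) = _ at e3
  change ev (V (AlgebraicClosure F) (emb f k)) (ζ ^ 4) = _ at e4
  change ev (V (AlgebraicClosure F) (emb f k)) (ζ ^ 5) = _ at e5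
  change ev (V (AlgebraicClosure F) (emb f k)) (ζ ^ 6) = _ at e6
  rw [show 0 = 2 * 0 by norm_num, hev] at e0
  rw [show 2 = 2 * 1 by norm_num, hev] at e2
  rw [show 4 = 2 * 2 by norm_num, hev] at e4
  rw [show 6 = 2 * 3 by norm_num, hev] at e6
  have hfr := ev_V_frob f k (ζ ^ 1)
  rw [pow_one, pow_mod_eq hζ] at hfr
  rw [pow_one] at e1
  unfold P8 at hP
  have hc : (m 1 = m 3 ∨ m 1 = m 5) := by
    rcases hq with h | h
    · left
      rw [h, e3, e1] at hfr
      exact hfr.symm
    · right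
      rw [h, e5, e1] at hfr
      exact hfr.symm
  simp only [← e0, ← e2, ← e4, ← e6] at hP
  rcases hc with h | h
  · simp [h] at hP
  · simp [h] at hP

end

end Cfsg.Agent.R2.T1.Five
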