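import Mathlib
import Cfsg.Agent.R2.T1.Five.Grp
import Cfsg.Agent.R2.T1.Five.CaseI

/-!
# The outer elements of the symmetric group of degree 5 (helper25)

* `outer` : if `H` is not the image of `φ`, there is `h ∈ H` with `h² = φ a₀` and `h φ(b₀) h⁻¹ = φ b₁`;
* `mem_or` : the elements of `H` modulo the image of `φ`.
-/

set_option autoImplicit false
set_option linter.unusedSectionVars false
set_option maxRecDepth 100000

namespace Cfsg.Agent.R2.T1.Five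

open Cfsg Cfsg.Lie Module Equiv Equiv.Perm
open Cfsg.Agent.H952.F4 (MaxAlt)
open Cfsg.Agent.R2.T1

/-- the conjugate of `b₀` under a 4-cycle with square `a₀` -/
def b1 : A5 := b0 * a0 * b0⁻¹ * a0 * b0 * a0

theorem conj_a0 : ∀ a : A5, a * a = 1 → a ≠ 1 → ∃ g : A5, g * a0 * g⁻¹ = a := by decide +kernel

theorem conj_b0 : ∀ b : A5, b ^ 3 = 1 → b ≠ 1 → (a0 * b) ^ 5 = 1 →
    ∃ g : A5, g * a0 * g⁻¹ = a0 ∧ (g * b0 * g⁻¹ = b ∨ g * b1 * g⁻¹ = b) := by decide +kernel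

theorem w0_conj : ∀ g : A5, g * w0 * g⁻¹ ≠ w0 ^ 2 := by decide +kernel

theorem b1_rel : b1 * a0 * b1⁻¹ * a0 * b1 * a0 = a0 * b0 * a0⁻¹ := by decide +kernel

universe u

section

variable {F : Type u} [Field F] [Finite F] {H : Subgroup ↥(chevE7.group F)} {φ : A5 →* ↥(chevE7.group F)}

theorem b0_eq : b0 = a0 * w0 := by rw [w0, ← mul_assoc, a0_sq, one_mul]

theorem cen_ab (hM : MaxAlt H 5 φ) {z : ↥(chevE7.group F)} (h1 : φ a0 * z = z * φ a0) (h2 : φ b0 * z = z * φ b0) :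
    z = 1 := by
  refine cen_gen hM h1 ?_
  rw [w0, map_mul, mul_assoc, h2, ← mul_assoc, h1, mul_assoc]

/-- **outer elements** -/
theorem outer (hM : MaxAlt H 5 φ) (hH : H ≠ φ.range) :
    ∃ h ∈ H, h * h = φ a0 ∧ h * φ b0 * h⁻¹ = φ b1 ∧ h ∉ φ.range := by
  have hinj := hM.inj
  rcases hM.five rfl with h | hrat
  · exact absurd h hH
  obtain ⟨h0, hh0, hw⟩ := hrat (φ w0) ⟨w0, rfl⟩ (fun h => w0_ne (hinj (by rw [h, map_one]))) (by
    rw [← map_pow, w0_pow, map_one])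
  obtain ⟨a', ha'⟩ := hM.norm h0 hh0 _ ⟨a0, rfl⟩
  obtain ⟨b', hb'⟩ := hM.norm h0 hh0 _ ⟨b0, rfl⟩
  have a1 : a' * a' = 1 := by
    apply hinj
    rw [map_mul, ha', map_one]
    have : h0 * φ a0 * h0⁻¹ * (h0 * φ a0 * h0⁻¹) = h0 * (φ a0 * φ a0) * h0⁻¹ := by group
    rw [this, ← map_mul, a0_sq, map_one, mul_one, mul_inv_cancel]
  have a2 : a' ≠ 1 := by
    rintro rfl
    rw [map_one] at ha'
    apply a0_ne
    apply hinj
    have : φ a0 = h0⁻¹ * (h0 * φ a0 * h0⁻¹) * h0 := by group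
    rw [this, ← ha', map_one]
    group
  obtain ⟨g1, hg1⟩ := conj_a0 a' a1 a2
  set b2 := g1⁻¹ * b' * g1 with hb2
  have hh1 : φ g1⁻¹ * h0 ∈ H := mul_mem (hM.le ⟨_, rfl⟩) hh0
  set h1 := φ g1⁻¹ * h0 with hh1def
  clear_value h1
  have e1 : h1 * φ a0 * h1⁻¹ = φ a0 := by
    have : h1 * φ a0 * h1⁻¹ = φ g1⁻¹ * (h0 * φ a0 * h0⁻¹) * (φ g1⁻¹)⁻¹ := by rw [hh1def]; group
    rw [this, ← ha', ← map_inv, ← map_mul, ← map_mul, ← hg1]
    congr 1
    group
  have e2 : h1 * φ b0 * h1⁻¹ = φ b2 := by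
    have : h1 * φ b0 * h1⁻¹ = φ g1⁻¹ * (h0 * φ b0 * h0⁻¹) * (φ g1⁻¹)⁻¹ := by rw [hh1def]; group
    rw [this, ← hb', ← map_inv, ← map_mul, ← map_mul, hb2, inv_inv]
  have c1 : b2 ^ 3 = 1 := by
    apply hinj
    rw [map_pow, ← e2, conj_pow, ← map_pow, b0_cube, map_one, mul_one, mul_inv_cancel]
  have c2 : b2 ≠ 1 := by
    intro h
    rw [h, map_one] at e2
    apply b0_ne
    apply hinj
    have : φ b0 = h1⁻¹ * (h1 * φ b0 * h1⁻¹) * h1 := by group
    rw [this, e2, map_one]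
    group
  have c3 : (a0 * b2) ^ 5 = 1 := by
    apply hinj
    rw [map_pow, map_mul, ← e1, ← e2]
    have : h1 * φ a0 * h1⁻¹ * (h1 * φ b0 * h1⁻¹) = h1 * (φ a0 * φ b0) * h1⁻¹ := by group
    rw [this, conj_pow, ← map_mul, ← map_pow]
    show h1 * φ (w0 ^ 5) * h1⁻¹ = _
    rw [w0_pow, map_one, mul_one, mul_inv_cancel]
  obtain ⟨g2, hg2, hg3⟩ := conj_b0 b2 c1 c2 c3
  have hh2 : φ g2⁻¹ * h1 ∈ H := mul_mem (hM.le ⟨_, rfl⟩) hh1
  set h2 := φ g2⁻¹ * h1 with hh2def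
  clear_value h2
  have e3 : h2 * φ a0 * h2⁻¹ = φ a0 := by
    have : h2 * φ a0 * h2⁻¹ = φ g2⁻¹ * (h1 * φ a0 * h1⁻¹) * (φ g2⁻¹)⁻¹ := by rw [hh2def]; group
    rw [this, e1, ← map_inv, ← map_mul, ← map_mul]
    congr 1
    nth_rewrite 1 [← hg2]
    group
  have e4 : h2 * φ b0 * h2⁻¹ = φ (g2⁻¹ * b2 * g2) := by
    have : h2 * φ b0 * h2⁻¹ = φ g2⁻¹ * (h1 * φ b0 * h1⁻¹) * (φ g2⁻¹)⁻¹ := by rw [hh2def]; group
    rw [this, e2, ← map_inv, ← map_mul, ← map_mul, inv_inv]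
  rcases hg3 with hg3 | hg3
  · exfalso
    have e5 : g2⁻¹ * b2 * g2 = b0 := by rw [← hg3]; group
    rw [e5] at e4
    have e6 : h2 = 1 := by
      apply cen_ab hM
      · rw [← e3]; nth_rewrite 2 [e3]; group
      · rw [← e4]; nth_rewrite 2 [e4]; group
    have e7 : h0 = φ (g1 * g2) := by
      rw [hh2def, hh1def, map_inv, map_inv, inv_mul_eq_one, ← mul_left_cancel_iff (a := φ g1), mul_inv_cancel_left] at e6
      rw [map_mul, e6]
    apply w0_conj (g1 * g2)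
    apply hinj
    rw [map_mul, map_mul, map_inv, ← e7, hw, map_pow]
  · have e5 : g2⁻¹ * b2 * g2 = b1 := by rw [← hg3]; group
    rw [e5] at e4
    have hcomm : h2 * φ a0 = φ a0 * h2 := by
      nth_rewrite 2 [← e3]
      group
    have e6 : (φ a0)⁻¹ * (h2 * h2) = 1 := by
      apply cen_ab hM
      · have h3 : h2 * h2 * φ a0 = φ a0 * (h2 * h2) := by
          rw [mul_assoc, hcomm, ← mul_assoc, hcomm, mul_assoc]
        rw [mul_inv_cancel_left, mul_assoc, h3, inv_mul_cancel_left]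
      · -- the conjugate of `b₁`
        have e7 : h2 * φ b1 * h2⁻¹ = φ (a0 * b0 * a0⁻¹) := by
          rw [← b1_rel]
          have e8 : h2 * φ b1 * h2⁻¹ = (h2 * φ b0 * h2⁻¹) * (h2 * φ a0 * h2⁻¹) * (h2 * φ b0 * h2⁻¹)⁻¹ * (h2 * φ a0 * h2⁻¹) *
              (h2 * φ b0 * h2⁻¹) * (h2 * φ a0 * h2⁻¹) := by
            rw [b1]
            simp only [map_mul, map_inv]
            group
          rw [e8, e3, e4]
          simp only [map_mul, map_inv]
        have e8 : h2 * h2 * φ b0 * (h2 * h2)⁻¹ = φ a0 * φ b0 * (φ a0)⁻¹ := by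
          have : h2 * h2 * φ b0 * (h2 * h2)⁻¹ = h2 * (h2 * φ b0 * h2⁻¹) * h2⁻¹ := by group
          rw [this, e4, e7]
          simp only [map_mul, map_inv]
        have e9 : h2 * h2 * φ b0 = φ a0 * φ b0 * (φ a0)⁻¹ * (h2 * h2) := by
          rw [← e8]; group
        rw [mul_assoc (φ a0)⁻¹, e9]
        group
    refine ⟨h2, hh2, ?_, e4, ?_⟩
    · rw [inv_mul_eq_one] at e6
      exact e6.symm
    · rintro ⟨c, hc⟩
      have e9 : c * c = a0 := by
        apply hinj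
        rw [map_mul, hc]
        rw [inv_mul_eq_one] at e6
        exact e6.symm
      revert e9
      revert c
      intro c hc e9
      have : ∀ c : A5, c * c ≠ a0 := by decide +kernel
      exact this c e9

/-- the elements of `H` -/
theorem mem_or (hM : MaxAlt H 5 φ) {h : ↥(chevE7.group F)} (hh : h ∈ H) (hr : h ∉ φ.range) {g : ↥(chevE7.group F)}
    (hg : g ∈ H) : g ∈ φ.range ∨ g * h ∈ φ.range := by
  by_cases h1 : g ∈ φ.range
  · exact Or.inl h1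
  · exact Or.inr (coset hM hg hh h1 hr)

end

end Cfsg.Agent.R2.T1.Five
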