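import Mathlib
import Cfsg.Agent.R2.T1.Five.CaseII
import Cfsg.Agent.R2.T1.Five.SFive
import Cfsg.Agent.R2.T1.Five.Eight

/-!
# `n = 5`, characteristic 5, the double cover (helper25)

* `exists_mv` : a vector spanning with its image under `y` a subspace of dimension 2 stable under `x`, `y`;
* `cover_five` : no maximal `A₅`, `S₅` whose preimage is a double cover, in characteristic 5.
-/

set_option autoImplicit false
set_option linter.unusedSectionVars false
set_option linter.unusedTactic false
set_option linter.unreachableTactic false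
set_option maxRecDepth 100000

namespace Cfsg.Agent.R2.T1.Five

open Cfsg Cfsg.Lie Module Equiv Equiv.Perm
open Cfsg.Agent.H943.E7V.Block (D1 rho)
open Cfsg.Agent.H952.F4 (ev es MaxAlt)
open Cfsg.Agent.R2.T1

universe u

section

variable {F : Type u} [Field F]

/-- the vector `v` spans with `y v` a natural module of `SL₂(5)` -/
structure MV (x y : Gh F) (v : D1 → F) : Prop where
  a : V F x v = (2 : F) • v
  b : V F x (V F y v) = (3 : F) • V F y v
  c : V F y (V F y v) = -V F y v - v

theorem MV.add {x y : Gh F} {v w : D1 → F} (hv : MV x y v) (hw : MV x y w) : MV x y (v + w) := by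
  refine ⟨?_, ?_, ?_⟩
  · rw [map_add, hv.a, hw.a, smul_add]
  · rw [map_add, map_add, hv.b, hw.b, smul_add]
  · rw [map_add, map_add, hv.c, hw.c]; abel

theorem MV.smul {x y : Gh F} {v : D1 → F} (hv : MV x y v) (a : F) : MV x y (a • v) := by
  refine ⟨?_, ?_, ?_⟩
  · rw [map_smul, hv.a, smul_comm]
  · rw [map_smul, map_smul, hv.b, smul_comm]
  · rw [map_smul, map_smul, hv.c, smul_sub, smul_neg]

theorem exists_mv (h5 : (5 : F) = 0) {x y : Gh F} (hx2 : V F (x * x) = -1)
    (h : 56 < finrank F ↥(LinearMap.ker (qd (-1) (V F y))) + finrank F ↥(LinearMap.ker (qd 2 (V F (x * y))))) :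
    ∃ v, v ≠ 0 ∧ MV x y v := by
  let A : Matrix (Fin 2) (Fin 2) F := !![2, 1; 0, 3]
  let C : Matrix (Fin 2) (Fin 2) F := !![1, 2; 1, 3]
  have dA : A.det = 1 := by
    rw [Matrix.det_fin_two_of]; linear_combination h5
  have dC : C.det = 1 := by
    rw [Matrix.det_fin_two_of]; ring
  have tA : A.trace = 0 := by
    rw [Matrix.trace_fin_two_of]; linear_combination h5
  have tC : C.trace = -1 := by
    rw [Matrix.trace_fin_two_of]; linear_combination h5
  have hAC : A * C = !![3, 7; 3, 9] := by
    ext i j
    fin_cases i <;> fin_cases j <;> simp [A, C, Matrix.mul_apply] <;> norm_num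
  have tAC : (A * C).trace = 2 := by
    rw [hAC, Matrix.trace_fin_two_of]; linear_combination 2 * h5
  have h3 : (3 : F) ≠ 0 := by
    intro h3
    apply one_ne_zero (α := F)
    linear_combination 2 * h3 - h5
  have h1 := scott_tw (V F) (sf F) (fun v hv => sf_nondeg' hv) (fun g v w => sf_V g v w) (x := x) (y := y) dA dC
    (Or.inr (show (1 : F) ≠ 0 from one_ne_zero)) (Or.inl (show (1 : F) ≠ 0 from one_ne_zero))
    (Or.inl (by rw [hAC]; exact h3))
  rw [tA, tC, tAC, ker_qd_sq (T := V F x) (by rw [← map_mul, hx2]), finrank_V] at h1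
  have h2 : 0 < finrank F ↥(twI A C (V F x) (V F y)) := by omega
  obtain ⟨⟨v, hv⟩, hv0⟩ := (Module.finrank_pos_iff_exists_ne_zero (R := F)).1 h2
  have hv0' : v ≠ 0 := fun h => hv0 (Subtype.ext h)
  obtain ⟨f1, f2⟩ := mem_twI.1 hv
  have a1 : (2 : F) • V F x v.1 + (1 : F) • V F x v.2 = v.1 := congrArg Prod.fst f1
  have a2 : (0 : F) • V F x v.1 + (3 : F) • V F x v.2 = v.2 := congrArg Prod.snd f1
  have c1 : (1 : F) • V F y v.1 + (2 : F) • V F y v.2 = v.1 := congrArg Prod.fst f2
  have c2 : (1 : F) • V F y v.1 + (3 : F) • V F y v.2 = v.2 := congrArg Prod.snd f2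
  have e1 : V F y v.2 = v.2 - v.1 := by linear_combination (norm := module) c2 - c1
  have e2 : v.1 = v.2 - V F y v.2 := by rw [e1]; abel
  have e3 : V F x v.2 = (2 : F) • v.2 := by
    linear_combination (norm := module) (2 : F) • a2 - h5 • V F x v.2
  refine ⟨v.2, ?_, e3, ?_, ?_⟩
  · intro h0
    apply hv0'
    refine Prod.ext ?_ h0
    rw [e2, h0, map_zero, sub_zero]; rfl
  · have a1' := a1
    rw [e2, map_sub, e3] at a1'
    linear_combination (norm := module) (-3 : F) • a1' - h5 • (V F x (V F y v.2)) +
      ((3 : F) * h5) • v.2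
  · have c2' := c2
    rw [e2, map_sub] at c2'
    linear_combination (norm := module) (-1 : F) • c2' + h5 • V F y v.2

/-- the plane -/
theorem MV.plane {x y : Gh F} {v : D1 → F} (hv : MV x y v) (h0 : v ≠ 0) :
    Submodule.span F {v, V F y v} ≠ ⊥ ∧ finrank F ↥(Submodule.span F {v, V F y v}) ≤ 2 ∧
      (∀ u ∈ Submodule.span F {v, V F y v}, V F x u ∈ Submodule.span F {v, V F y v}) ∧
      (∀ u ∈ Submodule.span F {v, V F y v}, V F y u ∈ Submodule.span F {v, V F y v}) := by
  have m1 : v ∈ Submodule.span F {v, V F y v} := Submodule.subset_span (by simp)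
  have m2 : V F y v ∈ Submodule.span F {v, V F y v} := Submodule.subset_span (by simp)
  refine ⟨?_, ?_, ?_, ?_⟩
  · intro h
    rw [h, Submodule.mem_bot] at m1
    exact h0 m1
  · classical
    have h3 := finrank_span_finset_le_card (R := F) ({v, V F y v} : Finset (D1 → F))
    have h4 : ({v, V F y v} : Finset (D1 → F)).card ≤ 2 := Finset.card_le_two
    rw [Finset.coe_pair] at h3
    exact h3.trans h4
  · intro u hu
    obtain ⟨a, b, rfl⟩ := Submodule.mem_span_pair.1 hu
    rw [map_add, map_smul, map_smul, hv.a, hv.b]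
    exact add_mem (Submodule.smul_mem _ _ (Submodule.smul_mem _ _ m1)) (Submodule.smul_mem _ _ (Submodule.smul_mem _ _ m2))
  · intro u hu
    obtain ⟨a, b, rfl⟩ := Submodule.mem_span_pair.1 hu
    rw [map_add, map_smul, map_smul, hv.c]
    exact add_mem (Submodule.smul_mem _ _ m2) (Submodule.smul_mem _ _ (sub_mem (neg_mem m2) m1))

/-- the outer element has an eigenvector -/
theorem mu_core {x y k : Gh F} (hk : k * k = x) {r r' : F} (hr : r * r' = 1) {y1 : Gh F}
    (hrel : y * k = k * y1)
    (h1 : ∀ v, MV x y v → V F y1 v = r • V F y v ∧ V F y1 (V F y v) = -V F y v - r' • v)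
    {e : F} (he : e * e = 2) {v : D1 → F} (hv0 : v ≠ 0) (hv : MV x y v) :
    ∃ v', v' ≠ 0 ∧ MV x y v' ∧ ∀ u ∈ Submodule.span F {v', V F y v'}, V F k u ∈ Submodule.span F {v', V F y v'} := by
  have hkk : ∀ v, V F k (V F k v) = V F x v := fun v => by rw [← V_mul, hk]
  have hyk : ∀ v, V F y (V F k v) = V F k (V F y1 v) := fun v => by rw [← V_mul, hrel, V_mul]
  have hxk : ∀ v, V F x (V F k v) = V F k (V F x v) := fun v => by rw [← hkk, ← hkk]
  have hMk : ∀ v, MV x y v → MV x y (V F k v) := by
    intro v hv
    obtain ⟨g1, g2⟩ := h1 v hv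
    refine ⟨?_, ?_, ?_⟩
    · rw [hxk, hv.a, map_smul]
    · rw [hyk, g1, map_smul, map_smul, hxk, hv.b, map_smul, smul_comm]
    · rw [hyk, g1, map_smul, map_smul, hyk, g2, map_sub, map_neg, map_smul, smul_sub, smul_smul, hr, one_smul, smul_neg]
  obtain ⟨v', ε, hv0', hv', hε⟩ : ∃ (v' : D1 → F) (ε : F), v' ≠ 0 ∧ MV x y v' ∧ V F k v' = ε • v' := by
    by_cases hz : V F k v + e • v = 0
    · exact ⟨v, -e, hv0, hv, by rw [neg_smul]; exact eq_neg_of_add_eq_zero_left hz⟩
    · refine ⟨V F k v + e • v, e, hz, (hMk v hv).add (hv.smul e), ?_⟩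
      rw [map_add, map_smul, hkk, hv.a, ← he]
      module
  refine ⟨v', hv0', hv', ?_⟩
  have m1 : v' ∈ Submodule.span F {v', V F y v'} := Submodule.subset_span (by simp)
  have m2 : V F y v' ∈ Submodule.span F {v', V F y v'} := Submodule.subset_span (by simp)
  have h7 : V F k (V F y v') = (r' * ε) • V F y v' := by
    have h8 := hyk v'
    rw [(h1 v' hv').1, map_smul, hε, map_smul] at h8
    rw [mul_smul, h8, smul_smul, mul_comm r' r, hr, one_smul]
  intro u hu
  obtain ⟨a, b, rfl⟩ := Submodule.mem_span_pair.1 hu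
  rw [map_add, map_smul, map_smul, hε, h7]
  exact add_mem (Submodule.smul_mem _ _ (Submodule.smul_mem _ _ m1)) (Submodule.smul_mem _ _ (Submodule.smul_mem _ _ m2))

theorem MV.inv_v {x y : Gh F} {v : D1 → F} (hv : MV x y v) (hy3 : y ^ 3 = 1) : V F y⁻¹ v = -V F y v - v := by
  have h : y⁻¹ = y * y := by
    rw [inv_eq_iff_mul_eq_one, ← hy3, pow_succ, pow_two, mul_assoc]
  rw [h, V_mul, hv.c]

theorem MV.xx {x y : Gh F} {v : D1 → F} (hv : MV x y v) (a b : F) :
    V F x (a • V F y v + b • v) = (3 * a) • V F y v + (2 * b) • v := by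
  rw [map_add, map_smul, map_smul, hv.b, hv.a, smul_smul, smul_smul, mul_comm a, mul_comm b]

theorem MV.yy {x y : Gh F} {v : D1 → F} (hv : MV x y v) (a b : F) :
    V F y (a • V F y v + b • v) = (b - a) • V F y v + (-a) • v := by
  rw [map_add, map_smul, map_smul, hv.c]
  module

theorem MV.yi {x y : Gh F} {v : D1 → F} (hv : MV x y v) (hy3 : y ^ 3 = 1) (a b : F) :
    V F y⁻¹ (a • V F y v + b • v) = (-b) • V F y v + (a - b) • v := by
  rw [map_add, map_smul, map_smul, V_inv, hv.inv_v hy3]
  module

theorem MV.w1 (h5 : (5 : F) = 0) {x y : Gh F} {v : D1 → F} (hv : MV x y v) (hy3 : y ^ 3 = 1) :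
    V F (x * y * x * y⁻¹ * x * y) v = (3 : F) • V F y v ∧
      V F (x * y * x * y⁻¹ * x * y) (V F y v) = V F y v + (3 : F) • v := by
  have e1 : v = (0 : F) • V F y v + (1 : F) • v := by module
  have e2 : V F y v = (1 : F) • V F y v + (0 : F) • v := by module
  constructor
  · nth_rewrite 1 [e1]
    simp only [V_mul, hv.xx, hv.yy, hv.yi hy3]
    match_scalars <;> first | linear_combination (0 : F) * h5 | linear_combination (1 : F) * h5 | linear_combination (-1 : F) * h5 | linear_combination (2 : F) * h5 | linear_combination (-2 : F) * h5 | linear_combination (3 : F) * h5 | linear_combination (-3 : F) * h5 | linear_combination (4 : F) * h5 | linear_combination (-4 : F) * h5 | linear_combination (5 : F) * h5 | linear_combination (-5 : F) * h5 | linear_combination (6 : F) * h5 | linear_combination (-6 : F) * h5 | linear_combination (7 : F) * h5 | linear_combination (-7 : F) * h5 | linear_combination (8 : F) * h5 | linear_combination (-8 : F) * h5 | linear_combination (9 : F) * h5 | linear_combination (-9 : F) * h5 | linear_combination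 (10 : F) * h5 | linear_combination (-10 : F) * h5
  · nth_rewrite 1 [e2]
    simp only [V_mul, hv.xx, hv.yy, hv.yi hy3]
    match_scalars <;> first | linear_combination (0 : F) * h5 | linear_combination (1 : F) * h5 | linear_combination (-1 : F) * h5 | linear_combination (2 : F) * h5 | linear_combination (-2 : F) * h5 | linear_combination (3 : F) * h5 | linear_combination (-3 : F) * h5 | linear_combination (4 : F) * h5 | linear_combination (-4 : F) * h5 | linear_combination (5 : F) * h5 | linear_combination (-5 : F) * h5 | linear_combination (6 : F) * h5 | linear_combination (-6 : F) * h5 | linear_combination (7 : F) * h5 | linear_combination (-7 : F) * h5 | linear_combination (8 : F) * h5 | linear_combination (-8 : F) * h5 | linear_combination (9 : F) * h5 | linear_combination (-9 : F) * h5 | linear_combination (10 : F) * h5 | linear_combination (-10 : F) * h5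

theorem MV.w2 (h5 : (5 : F) = 0) {x y : Gh F} {v : D1 → F} (hv : MV x y v) (hy3 : y ^ 3 = 1) :
    V F (y * x * y⁻¹ * x * y * x) v = (2 : F) • V F y v ∧
      V F (y * x * y⁻¹ * x * y * x) (V F y v) = V F y v + (2 : F) • v := by
  have e1 : v = (0 : F) • V F y v + (1 : F) • v := by module
  have e2 : V F y v = (1 : F) • V F y v + (0 : F) • v := by module
  constructor
  · nth_rewrite 1 [e1]
    simp only [V_mul, hv.xx, hv.yy, hv.yi hy3]
    match_scalars <;> first | linear_combination (0 : F) * h5 | linear_combination (1 : F) * h5 | linear_combination (-1 : F) * h5 | linear_combination (2 : F) * h5 | linear_combination (-2 : F) * h5 | linear_combination (3 : F) * h5 | linear_combination (-3 : F) * h5 | linear_combination (4 : F) * h5 | linear_combination (-4 : F) * h5 | linear_combination (5 : F) * h5 | linear_combination (-5 : F) * h5 | linear_combination (6 : F) * h5 | linear_combination (-6 : F) * h5 | linear_combination (7 : F) * h5 | linear_combination (-7 : F) * h5 | linear_combination (8 : F) * h5 | linear_combination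 (-8 : F) * h5 | linear_combination (9 : F) * h5 | linear_combination (-9 : F) * h5 | linear_combination (10 : F) * h5 | linear_combination (-10 : F) * h5
  · nth_rewrite 1 [e2]
    simp only [V_mul, hv.xx, hv.yy, hv.yi hy3]
    match_scalars <;> first | linear_combination (0 : F) * h5 | linear_combination (1 : F) * h5 | linear_combination (-1 : F) * h5 | linear_combination (2 : F) * h5 | linear_combination (-2 : F) * h5 | linear_combination (3 : F) * h5 | linear_combination (-3 : F) * h5 | linear_combination (4 : F) * h5 | linear_combination (-4 : F) * h5 | linear_combination (5 : F) * h5 | linear_combination (-5 : F) * h5 | linear_combination (6 : F) * h5 | linear_combination (-6 : F) * h5 | linear_combination (7 : F) * h5 | linear_combination (-7 : F) * h5 | linear_combination (8 : F) * h5 | linear_combination (-8 : F) * h5 | linear_combination (9 : F) * h5 | linear_combination (-9 : F) * h5 | linear_combination (10 : F) * h5 | linear_combination (-10 : F) * h5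

end

section

variable {F : Type u} [Field F] [Finite F] {H : Subgroup ↥(chevE7.group F)} {φ : A5 →* ↥(chevE7.group F)}

/-- the lift of an element of order 3 conjugating as the outer element -/
theorem mu_final (h2 : (2 : F) ≠ 0) (hM : MaxAlt H 5 φ) {x y k z : Gh F} (hx : ad F x = φ a0)
    (hy : ad F y = φ b0) (hy3 : y ^ 3 = 1) (hz : V F z = -1) (hz1 : ad F z = 1) (hk : k * k = x) (hkH : ad F k ∈ H)
    (hkr : ad F k ∉ φ.range)
    {W : Gh F} {b : A5} (hW : ad F W = φ b) (hb : b ^ 3 = 1) (hrel : ad F (k⁻¹ * y * k) = φ b)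
    {r r' : F} (hr : r * r' = 1)
    (h1 : ∀ v, MV x y v → V F W v = (-r) • V F y v ∧ V F W (V F y v) = V F y v + r' • v)
    {e : F} (he : e * e = 2) {v : D1 → F} (hv0 : v ≠ 0) (hv : MV x y v) : False := by
  have h1' : ∀ v, MV x y v → V F (z * W) v = r • V F y v ∧ V F (z * W) (V F y v) = -V F y v - r' • v := by
    intro v hv
    obtain ⟨g1, g2⟩ := h1 v hv
    rw [V_mul, V_mul, neg_apply hz, neg_apply hz, g1, g2]
    constructor <;> module
  have hW3 : (z * W) ^ 3 = 1 := by
    have h3 : ad F ((z * W) ^ 3) = 1 := by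
      rw [map_pow, map_mul, hz1, one_mul, hW, ← map_pow, hb, map_one]
    rcases ker_cases hz h3 with h4 | h4
    · exact h4
    · exfalso
      obtain ⟨g1, g2⟩ := h1' v hv
      have h6 : V F ((z * W) ^ 3) v = v := by
        rw [pow_succ, pow_two, V_mul, V_mul, g1, map_smul, g2, smul_sub, smul_neg, smul_smul, hr, one_smul, map_sub, map_neg,
          map_smul, g2, g1]
        linear_combination (norm := module) hr • v
      rw [h4, neg_apply hz] at h6
      apply hv0
      have h7 : (2 : F) • v = 0 := by
        rw [two_smul]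
        nth_rewrite 1 [← h6]
        exact neg_add_cancel v
      exact (smul_eq_zero.1 h7).resolve_left h2
  have hrel' : y * k = k * (z * W) := by
    have h3 : k⁻¹ * y * k = z * W := by
      apply odd_unique (k := 3) (by decide)
      · rw [hrel, map_mul, hz1, one_mul, hW]
      · have : k⁻¹ * y * k = k⁻¹ * y * k⁻¹⁻¹ := by rw [inv_inv]
        rw [this, conj_pow, hy3, mul_one, mul_inv_cancel]
      · exact hW3
    rw [← h3]; group
  obtain ⟨v', hv0', hv', hst⟩ := mu_core hk hr hrel' h1' he hv0 hv
  obtain ⟨p1, p2, p3, p4⟩ := hv'.plane hv0'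
  have hstab : Stab (V F) H (Submodule.span F {v', V F y v'}) := by
    intro g hg
    rcases mem_or hM hkH hkr hg with h | h
    · exact stab_of hx hy p3 p4 g h
    · have h6 : g = (g * k) * k⁻¹ := by group
      have h7 : g * k ∈ St (V F) (Submodule.span F {v', V F y v'}) :=
        mem_St_of (stab_of hx hy p3 p4 (g * k) (by rw [map_mul]; exact h))
      have h8 : k ∈ St (V F) (Submodule.span F {v', V F y v'}) := mem_St_of hst
      have h9 : g ∈ St (V F) (Submodule.span F {v', V F y v'}) := by
        rw [h6]; exact mul_mem h7 (inv_mem h8)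
      exact fun w hw => (h9 w).2 hw
  have h4 := three_le hM (by norm_num) (Or.inr (by norm_num)) hstab p1
  omega

/-- **the double cover in characteristic 5** -/
theorem cover_five (hM : MaxAlt H 5 φ) (h5 : (5 : F) = 0) {x y : Gh F} (hx : ad F x = φ a0)
    (hy : ad F y = φ b0) (hy3 : y ^ 3 = 1) (hw5 : (x * y) ^ 5 = 1) (hc : Cover φ) (hx2 : V F (x * x) = -1) : False := by
  have h2 : (2 : F) ≠ 0 := by
    intro h2
    apply one_ne_zero (α := F)
    linear_combination h5 - 2 * h2
  have h3 : (3 : F) ≠ 0 := by
    intro h3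
    apply one_ne_zero (α := F)
    linear_combination 2 * h3 - h5
  have hch : CharP F 5 := by
    obtain ⟨p, hp⟩ := CharP.exists F
    have hpp : p.Prime := CharP.char_is_prime F p
    have h8 : p ∣ 5 := (CharP.cast_eq_zero_iff F p 5).1 (by exact_mod_cast h5)
    rwa [(Nat.prime_dvd_prime_iff_eq hpp Nat.prime_five).1 h8] at hp
  have : Fact (Nat.Prime 5) := ⟨Nat.prime_five⟩
  obtain ⟨z, -, hzV, hz1, -⟩ := id hc
  have hz : V F z = -1 := neg_of hzV
  have hw : 23 ≤ finrank F ↥(LinearMap.ker (qd 2 (V F (x * y)))) := by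
    have h := qd2_ge (p := 5) (T := V F (x * y)) (by rw [← map_pow, hw5, map_one])
    rw [finrank_V] at h
    omega
  have hs : finrank F ↥(LinearMap.ker (qd (-1) (V F y))) + ev (V F y) 1 = 56 := by
    rw [← finrank_V (F := F)]
    exact ker_qd_cube h3 (by rw [← map_pow, hy3, map_one])
  have hy1 := y_ne hM hy
  have h33 : 34 ≤ finrank F ↥(LinearMap.ker (qd (-1) (V F y))) := by
    by_contra hlt
    have scott := scottL h2 hx hy
    have h8 := four h2 hx2
    have h9 := ev_ge (p := 5) (T := L F (x * y)) (by rw [← map_pow, hw5, map_one])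
    rw [finrank_L] at h9
    rcases three h3 hy3 hy1 with h | h | h | h | h
    · omega
    · exact few_twelve h2 hM (by omega)
    · omega
    · omega
    · omega
  by_cases hH : H = φ.range
  · obtain ⟨v, hv0, hv⟩ := exists_mv h5 hx2 (y := y) (by omega)
    obtain ⟨p1, p2, p3, p4⟩ := hv.plane hv0
    exact small_false hM hH hx hy p1 p2 p3 p4
  · obtain ⟨h, hh, hh2, hhb, hhr⟩ := outer hM hH
    obtain ⟨k, hk⟩ := ad_surjective h
    have hkk : ad F (x⁻¹ * (k * k)) = 1 := by rw [map_mul, map_inv, map_mul, hk, hh2, hx, inv_mul_cancel]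
    have hxx : x * x = z := V_injective (hx2.trans hz.symm)
    have hzz : z * z = 1 := ker_sq hz1
    have hkx : k * k = x ∨ k * k = x * z := by
      rcases ker_cases hz hkk with h6 | h6
      · left; rw [inv_mul_eq_one] at h6; exact h6.symm
      · right; rw [← h6, mul_inv_cancel_left]
    have hzx : x * z = z * x := ker_comm hz1 x
    -- 2 is a square
    have hsq : ∃ e : F, e * e = 2 := by
      have := Fintype.ofFinite F
      by_contra hne
      have h6 : ¬ IsSquare (2 : F) := fun ⟨e, he⟩ => hne ⟨e, he.symm⟩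
      rw [FiniteField.isSquare_two_iff] at h6
      have h7 : Nat.card F % 8 = 3 ∨ Nat.card F % 8 = 5 := by
        rw [Nat.card_eq_fintype_card]
        by_contra hcon
        push Not at hcon
        exact h6 ⟨hcon.1, hcon.2⟩
      refine no_eight h2 (k := k) ?_ h7
      have h8 : k ^ 4 = (k * k) * (k * k) := by rw [← pow_two k, ← pow_add]
      have h9 : k ^ 4 = x * x := by
        rw [h8]
        rcases hkx with h | h
        · rw [h]
        · rw [h]
          calc x * z * (x * z) = x * (z * x) * z := by group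
            _ = x * (x * z) * z := by rw [hzx]
            _ = x * x * (z * z) := by group
            _ = x * x := by rw [hzz, mul_one]
      rw [h9, hx2]
    obtain ⟨e, he⟩ := hsq
    obtain ⟨v, hv0, hv⟩ := exists_mv h5 hx2 (y := y) (by omega)
    rcases hkx with hkx | hkx
    · -- `k² = x`
      refine mu_final h2 hM hx hy hy3 hz hz1 hkx (by rw [hk]; exact hh) (by rw [hk]; exact hhr)
        (W := x * y * x * y⁻¹ * x * y) (b := a0 * b0 * a0 * b0⁻¹ * a0 * b0) ?_ (by decide +kernel) ?_
        (r := 2) (r' := 3) (by linear_combination h5) (fun v hv => ?_) he hv0 hv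
      · simp only [map_mul, map_inv, hx, hy]
      · have h6 : a0 * b0 * a0 * b0⁻¹ * a0 * b0 = a0⁻¹ * b1 * a0 := by decide +kernel
        rw [h6, map_mul, map_mul, map_mul, map_mul, map_inv, map_inv, hk, hy, ← hhb, ← hh2]
        group
      · obtain ⟨g1, g2⟩ := hv.w1 h5 hy3
        refine ⟨?_, g2⟩
        rw [g1]
        linear_combination (norm := module) h5 • V F y v
    · -- `k² = x z = x⁻¹`
      have hk' : k⁻¹ * k⁻¹ = x := by
        rw [← mul_inv_rev, hkx, inv_eq_iff_mul_eq_one, mul_assoc, ← hzx, ← mul_assoc, hxx, hzz]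
      refine mu_final h2 hM hx hy hy3 hz hz1 hk' (by rw [map_inv, hk]; exact inv_mem hh)
        (by rw [map_inv, hk, inv_mem_iff]; exact hhr)
        (W := y * x * y⁻¹ * x * y * x) (b := b1) ?_ (by decide +kernel) ?_
        (r := 3) (r' := 2) (by linear_combination h5) (fun v hv => ?_) he hv0 hv
      · rw [b1]
        simp only [map_mul, map_inv, hx, hy]
      · rw [map_mul, map_mul, inv_inv, map_inv, hk, hy, hhb]
      · obtain ⟨g1, g2⟩ := hv.w2 h5 hy3
        refine ⟨?_, g2⟩
        rw [g1]
        linear_combination (norm := module) h5 • V F y v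

end

end Cfsg.Agent.R2.T1.Five
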