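import Mathlib
import Cfsg.Agent.R2.T1.Five.Twist

/-!
# Kernels of powers of nilpotent operators (helper25)

* `kp_le` : `2 dim V ≤ p dim ker N²` if `N ^ p = 0`, `2 ≤ p`;
* `ev_ge` : `dim V ≤ p dim ker (T - 1)` if `T ^ p = 1` in characteristic `p`;
* `qd2_ge` : `2 dim V ≤ p dim ker (T² - 2 T + 1)` if `T ^ p = 1` in characteristic `p`.
-/

set_option autoImplicit false
set_option linter.unusedSectionVars false

namespace Cfsg.Agent.R2.T1.Five

open Module
open Cfsg.Agent.H952.F4 (ev es)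

section
variable {F V : Type*} [Field F] [AddCommGroup V] [Module F V] [FiniteDimensional F V]

/-- `dim ker N^(j+1) = dim ker N^j + dim (ker N ∩ im N^j)` -/
theorem ker_succ (N : Module.End F V) (j : ℕ) : finrank F ↥(LinearMap.ker (N ^ (j + 1))) =
    finrank F ↥(LinearMap.ker (N ^ j)) + finrank F ↥(LinearMap.ker N ⊓ LinearMap.range (N ^ j)) := by
  let f : ↥(LinearMap.ker (N ^ (j + 1))) →ₗ[F] V := (N ^ j).comp (LinearMap.ker (N ^ (j + 1))).subtype
  have h1 := LinearMap.finrank_range_add_finrank_ker f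
  have h2 : LinearMap.range f = LinearMap.ker N ⊓ LinearMap.range (N ^ j) := by
    ext v
    constructor
    · rintro ⟨⟨u, hu⟩, rfl⟩
      refine ⟨?_, ⟨u, rfl⟩⟩
      rw [LinearMap.mem_ker, pow_succ'] at hu
      exact hu
    · rintro ⟨h3, ⟨u, rfl⟩⟩
      refine ⟨⟨u, ?_⟩, rfl⟩
      rw [LinearMap.mem_ker, pow_succ']
      exact h3
  have h3 : finrank F ↥(LinearMap.ker f) = finrank F ↥(LinearMap.ker (N ^ j)) := by
    have h4 : LinearMap.ker (N ^ j) ≤ LinearMap.ker (N ^ (j + 1)) := by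
      intro u hu
      rw [LinearMap.mem_ker] at hu ⊢
      rw [pow_succ', Module.End.mul_apply, hu, map_zero]
    have h5 : LinearMap.ker f = (LinearMap.ker (N ^ j)).comap (LinearMap.ker (N ^ (j + 1))).subtype := by
      rw [LinearMap.ker_comp]
    rw [h5]
    exact (Submodule.comapSubtypeEquivOfLe h4).finrank_eq
  rw [h2, h3] at h1
  omega

theorem cap_anti (N : Module.End F V) (j : ℕ) : finrank F ↥(LinearMap.ker N ⊓ LinearMap.range (N ^ (j + 1))) ≤
    finrank F ↥(LinearMap.ker N ⊓ LinearMap.range (N ^ j)) := by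
  apply Submodule.finrank_mono
  refine inf_le_inf_left _ ?_
  rintro _ ⟨u, rfl⟩
  exact ⟨N u, by rw [pow_succ]; rfl⟩

theorem kp_le {N : Module.End F V} {p : ℕ} (hp : 2 ≤ p) (hN : N ^ p = 0) :
    2 * finrank F V ≤ p * finrank F ↥(LinearMap.ker (N ^ 2)) := by
  set c : ℕ → ℕ := fun j => finrank F ↥(LinearMap.ker N ⊓ LinearMap.range (N ^ j)) with hc
  have hs : ∀ j, finrank F ↥(LinearMap.ker (N ^ (j + 1))) = finrank F ↥(LinearMap.ker (N ^ j)) + c j := ker_succ N
  have ha : ∀ j, c (j + 1) ≤ c j := cap_anti N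
  have ha1 : ∀ j, c (j + 1) ≤ c 1 := by
    intro j
    induction j with
    | zero => exact le_rfl
    | succ j ih => exact (ha (j + 1)).trans ih
  have h0 : finrank F ↥(LinearMap.ker (N ^ 0)) = 0 := by
    rw [pow_zero, Module.End.one_eq_id, LinearMap.ker_id, finrank_bot]
  have h2 : finrank F ↥(LinearMap.ker (N ^ 2)) = c 0 + c 1 := by
    rw [hs 1, hs 0, h0, zero_add]
  have hk : ∀ k, finrank F ↥(LinearMap.ker (N ^ (k + 2))) ≤ c 0 + c 1 + k * c 1 := by
    intro k
    induction k with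
    | zero => rw [zero_mul, add_zero, ← h2]
    | succ k ih =>
      rw [hs (k + 2), Nat.succ_mul]
      have h5 : c (k + 2) ≤ c 1 := ha1 (k + 1)
      omega
  obtain ⟨k, rfl⟩ : ∃ k, p = k + 2 := ⟨p - 2, by omega⟩
  have h3 := hk k
  rw [hN, LinearMap.ker_zero, finrank_top] at h3
  have h4 : k * c 1 ≤ k * c 0 := Nat.mul_le_mul_left k (ha 0)
  rw [h2]
  calc 2 * finrank F V ≤ 2 * (c 0 + c 1 + k * c 1) := Nat.mul_le_mul_left 2 h3
    _ = 2 * (c 0 + c 1) + k * c 1 + k * c 1 := by ring
    _ ≤ 2 * (c 0 + c 1) + k * c 0 + k * c 1 := by omega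
    _ = (k + 2) * (c 0 + c 1) := by ring

theorem k1_le {N : Module.End F V} {p : ℕ} (hN : N ^ p = 0) :
    finrank F V ≤ p * finrank F ↥(LinearMap.ker N) := by
  have h : ∀ j, finrank F ↥(LinearMap.ker (N ^ j)) ≤ j * finrank F ↥(LinearMap.ker N) := by
    intro j
    induction j with
    | zero => rw [pow_zero, Module.End.one_eq_id, LinearMap.ker_id, finrank_bot, zero_mul]
    | succ j ih =>
      rw [ker_succ, Nat.succ_mul]
      have h1 := Submodule.finrank_mono (inf_le_left : LinearMap.ker N ⊓ LinearMap.range (N ^ j) ≤ LinearMap.ker N)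
      omega
  have h2 := h p
  rwa [hN, LinearMap.ker_zero, finrank_top] at h2

theorem sub_one_pow {p : ℕ} [Fact p.Prime] [CharP F p] {T : Module.End F V} (hT : T ^ p = 1) : (T - 1) ^ p = 0 := by
  have h1 : (p : Module.End F V) = 0 := by
    rw [← map_natCast (algebraMap F (Module.End F V)) p, CharP.cast_eq_zero, map_zero]
  by_cases hV : Nontrivial V
  · have : CharP (Module.End F V) p := charP_of_injective_algebraMap (algebraMap F (Module.End F V)).injective p
    rw [sub_pow_char_of_commute p (Commute.one_right T), hT, one_pow, sub_self]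
  · rw [not_nontrivial_iff_subsingleton] at hV
    exact Subsingleton.elim _ _

/-- fixed vectors of an element of order `p` in characteristic `p` -/
theorem ev_ge {p : ℕ} [Fact p.Prime] [CharP F p] {T : Module.End F V} (hT : T ^ p = 1) :
    finrank F V ≤ p * ev T 1 := by
  have h := k1_le (sub_one_pow hT)
  rwa [ev, Module.End.eigenspace_def, one_smul]

theorem qd2_ge {p : ℕ} [Fact p.Prime] [CharP F p] {T : Module.End F V} (hT : T ^ p = 1) :
    2 * finrank F V ≤ p * finrank F ↥(LinearMap.ker (qd 2 T)) := by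
  have h := kp_le (Fact.out : p.Prime).two_le (sub_one_pow hT)
  have e : qd 2 T = (T - 1) ^ 2 := by
    rw [qd, pow_two, two_smul]
    noncomm_ring
  rwa [e]

end

end Cfsg.Agent.R2.T1.Five
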