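import Mathlib
import Cfsg.Agent.R2.T1.Five.Core

/-!
# Elements commuting with an involution and fixing a vector, over the field with 5 elements (helper25)
-/

set_option autoImplicit false
set_option linter.unusedSectionVars false
set_option maxRecDepth 100000

namespace Cfsg.Agent.R2.T1.Five

open Cfsg Cfsg.Lie Module Matrix
open Cfsg.Agent.H943.E7V.Block (D1)
open Cfsg.Agent.H952.F4 (ev es)
open Cfsg.Agent.H65.E6Emb (ext ext_le mem_ext_of_mem)
open Cfsg.Agent.R2.T1

universe u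

theorem quad_zmod : ∀ a b c : ZMod 5, ∃ x y : ZMod 5, ¬ (x = 0 ∧ y = 0) ∧
    (a * x ^ 2 + b * (x * y) + c * y ^ 2 = 0 ∨ a * x ^ 2 + b * (x * y) + c * y ^ 2 = 2 ∨
      a * x ^ 2 + b * (x * y) + c * y ^ 2 = 3) := by decide +kernel

section
variable {F : Type u} [Field F] [Finite F]

theorem quad_five (h5 : Nat.card F = 5) (a b c : F) : ∃ x y : F, ¬ (x = 0 ∧ y = 0) ∧
    (a * x ^ 2 + b * (x * y) + c * y ^ 2 = 0 ∨ a * x ^ 2 + b * (x * y) + c * y ^ 2 = 2 ∨
      a * x ^ 2 + b * (x * y) + c * y ^ 2 = 3) := by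
  have := Fintype.ofFinite F
  let e : ZMod 5 ≃+* F := ZMod.ringEquivOfPrime F (by norm_num) (by rw [← Nat.card_eq_fintype_card, h5])
  obtain ⟨x, y, h1, h2⟩ := quad_zmod (e.symm a) (e.symm b) (e.symm c)
  have key : a * e x ^ 2 + b * (e x * e y) + c * e y ^ 2 =
      e (e.symm a * x ^ 2 + e.symm b * (x * y) + e.symm c * y ^ 2) := by
    simp only [map_add, map_mul, map_pow, RingEquiv.apply_symm_apply]
  refine ⟨e x, e y, ?_, ?_⟩
  · rintro ⟨h3, h4⟩
    exact h1 ⟨(map_eq_zero_iff e e.injective).1 h3, (map_eq_zero_iff e e.injective).1 h4⟩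
  · rw [key]
    rcases h2 with h2 | h2 | h2
    · left; rw [h2, map_zero]
    · right; left; rw [h2, map_ofNat]
    · right; right; rw [h2, map_ofNat]

theorem Qf_add (z : Gh F) (x y : F) (v w : chevE7.Idx → F) : Qf z (x • v + y • w) =
    Qf z v * x ^ 2 + (8 * kf F v w - BF z v w - BF z w v) * (x * y) + Qf z w * y ^ 2 := by
  unfold Qf
  simp only [map_add, map_smul, LinearMap.add_apply, LinearMap.smul_apply, smul_eq_mul]
  rw [kf_comm w v]
  ring

variable {K : Type u} [Field K] [IsAlgClosed K] (f : F →+* K)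

/-- the determinant of two coordinates -/
noncomputable def Dt (g0 : Gh K) (b : Fin chevE7.nroots) (W1 W2 : chevE7.Idx → K) : K :=
  L K g0 W1 (Sum.inr b) * L K g0 W2 (Sum.inr (ng b)) - L K g0 W1 (Sum.inr (ng b)) * L K g0 W2 (Sum.inr b)

theorem exists_Dt {z : Gh F} {β : ℕ} (k2 : (2 : K) ≠ 0) (hβ : β ∈ BL) {b : Fin chevE7.nroots} (hb' : b.val = β)
    {g0 : Gh K} (hg0 : Phi K (hb β (-1)) = g0 * emb f z * g0⁻¹) :
    ∃ v1 v2 : chevE7.Idx → F, L F z v1 = v1 ∧ L F z v2 = v2 ∧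
      Dt g0 b (fun i => f (v1 i)) (fun i => f (v2 i)) ≠ 0 := by
  by_contra hne
  push Not at hne
  have hmem : ∀ {v : chevE7.Idx → F}, v ∈ es (L F z) 1 ↔ L F z v = v := by
    intro v
    show v ∈ Module.End.eigenspace (L F z) 1 ↔ _
    rw [Module.End.mem_eigenspace_iff, one_smul]
  have hext : ext f (es (L F z) 1) = es (L K (emb f z)) 1 := by
    rw [ext_es_L, map_one]
  have s1 : ∀ v2 : chevE7.Idx → F, L F z v2 = v2 → ∀ W ∈ ext f (es (L F z) 1), Dt g0 b W (fun i => f (v2 i)) = 0 := by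
    intro v2 hv2
    let U : Submodule K (chevE7.Idx → K) :=
      { carrier := {W | Dt g0 b W (fun i => f (v2 i)) = 0}
        zero_mem' := by
          show Dt g0 b 0 _ = 0
          unfold Dt
          rw [map_zero]
          simp
        add_mem' := by
          intro W W' h h'
          change Dt g0 b W _ = 0 at h
          change Dt g0 b W' _ = 0 at h'
          show Dt g0 b (W + W') _ = 0
          unfold Dt at h h' ⊢
          rw [map_add, Pi.add_apply, Pi.add_apply]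
          linear_combination h + h'
        smul_mem' := by
          intro c W h
          change Dt g0 b W _ = 0 at h
          show Dt g0 b (c • W) _ = 0
          unfold Dt at h ⊢
          rw [map_smul, Pi.smul_apply, Pi.smul_apply, smul_eq_mul, smul_eq_mul]
          linear_combination c * h }
    have h1 : ext f (es (L F z) 1) ≤ U := ext_le fun x hx => hne x v2 (hmem.1 hx) hv2
    exact fun W hW => h1 hW
  have s2 : ∀ W1 ∈ ext f (es (L F z) 1), ∀ W ∈ ext f (es (L F z) 1), Dt g0 b W1 W = 0 := by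
    intro W1 hW1
    let U : Submodule K (chevE7.Idx → K) :=
      { carrier := {W | Dt g0 b W1 W = 0}
        zero_mem' := by
          show Dt g0 b _ 0 = 0
          unfold Dt
          rw [map_zero]
          simp
        add_mem' := by
          intro W W' h h'
          change Dt g0 b _ W = 0 at h
          change Dt g0 b _ W' = 0 at h'
          show Dt g0 b _ (W + W') = 0
          unfold Dt at h h' ⊢
          rw [map_add, Pi.add_apply, Pi.add_apply]
          linear_combination h + h'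
        smul_mem' := by
          intro c W h
          change Dt g0 b _ W = 0 at h
          show Dt g0 b _ (c • W) = 0
          unfold Dt at h ⊢
          rw [map_smul, Pi.smul_apply, Pi.smul_apply, smul_eq_mul, smul_eq_mul]
          linear_combination c * h }
    have h1 : ext f (es (L F z) 1) ≤ U := ext_le fun x hx => s1 x (hmem.1 hx) W1 hW1
    exact fun W hW => h1 hW
  have hz : emb f z = g0⁻¹ * Phi K (hb β (-1)) * g0 := by rw [hg0]; group
  have hin : ∀ r : Fin chevE7.nroots, (r.val = β ∨ r.val = 125 - β) → L K g0⁻¹ (er K r) ∈ ext f (es (L F z) 1) := by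
    intro r hr
    rw [hext]
    show _ ∈ Module.End.eigenspace (L K (emb f z)) 1
    rw [Module.End.mem_eigenspace_iff, one_smul, hz, L_mul, L_mul, L_L_inv,
      (tb_fix_iff k2 hβ _).2 (Ev_er hβ hr)]
  have h1 := s2 _ (hin b (Or.inl hb')) _ (hin (ng b) (Or.inr (by rw [ng_val, hb'])))
  unfold Dt at h1
  rw [L_L_inv, L_L_inv, er, er, Pi.single_eq_same, Pi.single_eq_same,
    Pi.single_eq_of_ne (by simpa using ng_ne b)] at h1
  norm_num at h1

theorem exists_v0 (h5 : Nat.card F = 5) {z : Gh F} {β : ℕ} (k2 : (2 : K) ≠ 0) (hx : ∃ x : Kˣ, x ^ 12 ≠ 1) (hβ : β ∈ BL)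
    {b : Fin chevE7.nroots} (hb' : b.val = β) {g0 : Gh K} (hg0 : Phi K (hb β (-1)) = g0 * emb f z * g0⁻¹) :
    ∃ v : chevE7.Idx → F, L F z v = v ∧ (Qf z v = 0 ∨ Qf z v = 2 ∨ Qf z v = 3) ∧
      ¬ PF (emb f z) (fun i => f (v i)) 0 := by
  obtain ⟨v1, v2, h1, h2, hD⟩ := exists_Dt f k2 hβ hb' hg0
  obtain ⟨x, y, hxy, hq⟩ := quad_five h5 (Qf z v1) (8 * kf F v1 v2 - BF z v1 v2 - BF z v2 v1) (Qf z v2)
  rw [← Qf_add] at hq
  have hv : L F z (x • v1 + y • v2) = x • v1 + y • v2 := by rw [map_add, map_smul, map_smul, h1, h2]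
  refine ⟨x • v1 + y • v2, hv, hq, fun hPF => hxy ?_⟩
  have h3 := hPF.conj g0
  rw [← hg0, map_zero] at h3
  have hE : Ev β (L K g0 fun i => f ((x • v1 + y • v2) i)) := by
    rw [← tb_fix_iff k2 hβ, hg0, L_mul, L_mul, L_inv_L, L_emb, hv]
  obtain ⟨c1, c2, -⟩ := zero_of_PF k2 hx hβ hb' hE h3
  have e : (fun i => f ((x • v1 + y • v2) i)) = f x • (fun i => f (v1 i)) + f y • fun i => f (v2 i) := by
    funext i
    simp only [Pi.add_apply, Pi.smul_apply, smul_eq_mul, map_add, map_mul]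
  rw [e, map_add, map_smul, map_smul, Pi.add_apply, Pi.smul_apply, Pi.smul_apply, smul_eq_mul, smul_eq_mul] at c1 c2
  unfold Dt at hD
  constructor
  · have h4 : f x * (L K g0 (fun i => f (v1 i)) (Sum.inr b) * L K g0 (fun i => f (v2 i)) (Sum.inr (ng b)) -
        L K g0 (fun i => f (v1 i)) (Sum.inr (ng b)) * L K g0 (fun i => f (v2 i)) (Sum.inr b)) = 0 := by
      linear_combination L K g0 (fun i => f (v2 i)) (Sum.inr (ng b)) * c1 - L K g0 (fun i => f (v2 i)) (Sum.inr b) * c2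
    exact (map_eq_zero f).1 ((mul_eq_zero.1 h4).resolve_right hD)
  · have h4 : f y * (L K g0 (fun i => f (v1 i)) (Sum.inr b) * L K g0 (fun i => f (v2 i)) (Sum.inr (ng b)) -
        L K g0 (fun i => f (v1 i)) (Sum.inr (ng b)) * L K g0 (fun i => f (v2 i)) (Sum.inr b)) = 0 := by
      linear_combination L K g0 (fun i => f (v1 i)) (Sum.inr b) * c2 - L K g0 (fun i => f (v1 i)) (Sum.inr (ng b)) * c1
    exact (map_eq_zero f).1 ((mul_eq_zero.1 h4).resolve_right hD)

/-- **elements commuting with an involution and fixing a vector** -/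
theorem two_e (h5 : Nat.card F = 5) {z : Gh F} (hz : z * z = 1) (h32 : ev (V F z) 1 = 32) {v : chevE7.Idx → F}
    (hv : L F z v = v) (hQ : Qf z v = 0 ∨ Qf z v = 2 ∨ Qf z v = 3) :
    ∃ ρ : Gh F, ρ * z = z * ρ ∧ L F ρ v = v ∧ (ρ ^ 3 = 1 ∨ ρ ^ 5 = 1) ∧ ρ ≠ 1 := by
  have := Fintype.ofFinite F
  obtain ⟨f5, f2, f3⟩ := five_facts h5
  have hch : CharP F 5 := by
    obtain ⟨p, hp⟩ := CharP.exists F
    have hpp : p.Prime := CharP.char_is_prime F p
    have h8 : p ∣ 5 := (CharP.cast_eq_zero_iff F p 5).1 (by exact_mod_cast f5)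
    rwa [(Nat.prime_dvd_prime_iff_eq hpp Nat.prime_five).1 h8] at hp
  have hp5 : Fact (Nat.Prime 5) := ⟨Nat.prime_five⟩
  set K := AlgebraicClosure F with hK
  set f : F →+* K := algebraMap F K with hf
  let s : K →+* K := (FiniteField.frobeniusAlgEquivOfAlgebraic F K : K →+* K)
  have hs : ∀ t, s t = t ^ Nat.card F := by
    intro t
    rw [Nat.card_eq_fintype_card]
    rfl
  have hsurj : Function.Surjective s := (FiniteField.frobeniusAlgEquivOfAlgebraic F K).surjective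
  have k2 : (2 : K) ≠ 0 := by
    have h := (map_ne_zero f).2 f2
    rwa [map_ofNat] at h
  have k3 : (3 : K) ≠ 0 := by
    have h := (map_ne_zero f).2 f3
    rwa [map_ofNat] at h
  have k5 : (5 : K) = 0 := by
    have h := congrArg f f5
    rwa [map_ofNat, map_zero] at h
  have k7 : ((7 : ℕ) : K) ≠ 0 := by
    have : ((7 : ℕ) : K) = 2 := by push_cast; linear_combination k5
    rw [this]; exact k2
  have hx : ∃ x : Kˣ, x ^ 12 ≠ 1 := by
    have : NeZero ((7 : ℕ) : K) := ⟨k7⟩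
    obtain ⟨ζ, hζ⟩ : ∃ ζ : K, IsPrimitiveRoot ζ 7 := HasEnoughRootsOfUnity.exists_primitiveRoot K 7
    refine ⟨Units.mk0 ζ (hζ.ne_zero (by norm_num)), fun h => ?_⟩
    have h1 : ζ ^ 12 = 1 := by
      have := congrArg Units.val h
      simpa using this
    have h3 := hζ.dvd_of_pow_eq_one 12 h1
    norm_num at h3
  have hξ : ∃ ξ : K, ξ ^ 3 = 1 ∧ ξ ≠ 1 := by
    have : NeZero ((3 : ℕ) : K) := ⟨by exact_mod_cast k3⟩
    obtain ⟨ζ, hζ⟩ : ∃ ζ : K, IsPrimitiveRoot ζ 3 := HasEnoughRootsOfUnity.exists_primitiveRoot K 3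
    exact ⟨ζ, hζ.pow_eq_one, hζ.ne_one (by norm_num)⟩
  have hfr := frame 5 (by norm_num : (2 : ℕ) ≠ 0) (by norm_num) (x := z) (by rw [pow_two, hz])
  obtain ⟨β, hβ, g0, hg0⟩ := exists_beta k2 hfr (by rw [ev_V_one, h32])
  have hb' : ((⟨β, BL_lt hβ⟩ : Fin chevE7.nroots)).val = β := rfl
  by_cases hne : PF (emb f z) (fun i => f (v i)) 0
  · obtain ⟨v0, w1, w2, w3⟩ := exists_v0 f h5 k2 hx hβ hb' hg0
    obtain ⟨ρ, r1, r2, r3, r4, r5⟩ := core f s hs hsurj h5 hz hβ hb' hx hξ hg0 w1 w2 w3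
    exact ⟨ρ, r1, r3 v hv hne, r4, r5⟩
  · obtain ⟨ρ, r1, r2, r3, r4, r5⟩ := core f s hs hsurj h5 hz hβ hb' hx hξ hg0 hv hQ hne
    exact ⟨ρ, r1, r2, r4, r5⟩

end

end Cfsg.Agent.R2.T1.Five
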