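import Mathlib
import Cfsg.Agent.R2.T1.Five.TwoE
import Cfsg.Agent.R2.T1.Five.CaseII
import Cfsg.Agent.R2.T1.Five.CoverFive
import Cfsg.Agent.R2.T1.Five.SFive

/-!
# No maximal subgroup with generalized Fitting subgroup `A₅` (helper25)

* `no_five` : **there is no maximal subgroup with generalized Fitting subgroup `A₅` in the groups of type `E₇`**.
-/

set_option autoImplicit false
set_option linter.unusedSectionVars false
set_option maxRecDepth 100000

namespace Cfsg.Agent.R2.T1.Five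

open Cfsg Cfsg.Lie Module Equiv Equiv.Perm
open Cfsg.Agent.H943.E7V.Block (D1 rho)
open Cfsg.Agent.H952.F4 (ev es MaxAlt)
open Cfsg.Agent.R2.T1

universe u

section
variable {F : Type u} [Field F]

theorem pick {M : Type*} [AddCommGroup M] [Module F M] [FiniteDimensional F M] {P : Submodule F M}
    (h : 2 ≤ finrank F ↥P) : ∃ v1 ∈ P, ∃ v2 ∈ P, ∀ x y : F, x • v1 + y • v2 = 0 → x = 0 ∧ y = 0 := by
  have h1 : 1 < finrank F ↥P := by omega
  obtain ⟨v1, hv1⟩ : ∃ v : ↥P, v ≠ 0 := by
    have : Nontrivial ↥P := Module.nontrivial_of_finrank_pos (R := F) (by omega)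
    exact exists_ne 0
  obtain ⟨v2, hv2⟩ := exists_linearIndependent_pair_of_one_lt_finrank h1 hv1
  rw [LinearIndependent.pair_iff] at hv2
  refine ⟨v1, v1.2, v2, v2.2, fun x y hxy => hv2 x y (Subtype.ext hxy)⟩

theorem sum_two (h2 : (2 : F) ≠ 0) {M : Type*} [AddCommGroup M] [Module F M] [FiniteDimensional F M]
    {W P Q : Submodule F M} (T : M →ₗ[F] M) (h1 : ∀ w ∈ W, w + T w ∈ P) (h3 : ∀ w ∈ W, w - T w ∈ Q) :
    finrank F ↥W ≤ finrank F ↥P + finrank F ↥Q := by
  have h : W ≤ P ⊔ Q := by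
    intro w hw
    have e : w = (2 : F)⁻¹ • ((w + T w) + (w - T w)) := by
      have : (w + T w) + (w - T w) = (2 : F) • w := by rw [two_smul]; abel
      rw [this, smul_smul, inv_mul_cancel₀ h2, one_smul]
    rw [e]
    exact Submodule.smul_mem _ _ (Submodule.add_mem_sup (h1 w hw) (h3 w hw))
  exact (Submodule.finrank_mono h).trans (Submodule.finrank_add_le_finrank_add_finrank P Q)

theorem a0_comm_pow : ∀ c : A5, c * a0 = a0 * c → c ^ 15 = 1 → c = 1 := by decide +kernel

end

section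
variable {F : Type u} [Field F] [Finite F] {H : Subgroup ↥(chevE7.group F)} {φ : A5 →* ↥(chevE7.group F)}

/-- a two-dimensional space of fixed vectors on which `H` acts by signs -/
theorem exists_plane (h2 : (2 : F) ≠ 0) (hM : MaxAlt H 5 φ)
    (hd : 3 ≤ finrank F ↥(Representation.invariants (MonoidHom.comp (LK F) φ))) :
    ∃ P : Submodule F (chevE7.Idx → F), 2 ≤ finrank F ↥P ∧ (∀ v ∈ P, ∀ a, LK F (φ a) v = v) ∧
      ∀ v ∈ P, ∀ h ∈ H, LK F h v = v ∨ LK F h v = -v := by
  set W := Representation.invariants (MonoidHom.comp (LK F) φ) with hW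
  have hWm : ∀ {v}, v ∈ W ↔ ∀ a, LK F (φ a) v = v := fun {v} => Representation.mem_invariants _ v
  by_cases hH : H = φ.range
  · refine ⟨W, by omega, fun v hv => hWm.1 hv, fun v hv h hh => ?_⟩
    rw [hH] at hh
    obtain ⟨a, rfl⟩ := hh
    exact Or.inl (hWm.1 hv a)
  obtain ⟨h, hh, hsq, -, hr⟩ := outer hM hH
  let P : Submodule F (chevE7.Idx → F) := W ⊓ LinearMap.ker (LK F h - 1)
  let Q : Submodule F (chevE7.Idx → F) := W ⊓ LinearMap.ker (LK F h + 1)
  have hP : ∀ {v}, v ∈ P ↔ v ∈ W ∧ LK F h v = v := by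
    intro v
    rw [Submodule.mem_inf, LinearMap.mem_ker, LinearMap.sub_apply, Module.End.one_apply, sub_eq_zero]
  have hQ : ∀ {v}, v ∈ Q ↔ v ∈ W ∧ LK F h v = -v := by
    intro v
    rw [Submodule.mem_inf, LinearMap.mem_ker, LinearMap.add_apply, Module.End.one_apply, add_eq_zero_iff_eq_neg]
  have hWh : ∀ v ∈ W, LK F h v ∈ W := by
    intro v hv
    rw [hWm] at hv ⊢
    intro a
    obtain ⟨b, hb⟩ := hM.norm h⁻¹ (inv_mem hh) _ ⟨a, rfl⟩
    rw [inv_inv] at hb
    have e : φ a * h = h * φ b := by rw [hb]; group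
    rw [← LK_mul, e, LK_mul, hv]
  have hWsq : ∀ v ∈ W, LK F h (LK F h v) = v := by
    intro v hv
    rw [← LK_mul, hsq]
    exact hWm.1 hv a0
  have hdim := sum_two h2 (W := W) (P := P) (Q := Q) (LK F h) (by
    intro w hw
    rw [hP]
    refine ⟨W.add_mem hw (hWh w hw), ?_⟩
    rw [map_add, hWsq w hw, add_comm]) (by
    intro w hw
    rw [hQ]
    refine ⟨W.sub_mem hw (hWh w hw), ?_⟩
    rw [map_sub, hWsq w hw, neg_sub])
  have hinv : ∀ {v}, v ∈ W → ∀ {e : F}, e * e = 1 → LK F h v = e • v → ∀ g ∈ H, LK F g v = v ∨ LK F g v = e • v := by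
    intro v hv e he hev g hg
    rcases mem_or hM hh hr hg with h1 | ⟨a, ha⟩
    · obtain ⟨a, rfl⟩ := h1
      exact Or.inl (hWm.1 hv a)
    · right
      have h3 : LK F h⁻¹ v = e • v := by
        have h4 : LK F h⁻¹ (LK F h v) = v := by rw [← LK_mul, inv_mul_cancel, map_one, Module.End.one_apply]
        rw [hev, map_smul] at h4
        have h5 := congrArg (fun w => e • w) h4
        simp only [smul_smul, he, one_smul] at h5
        exact h5
      have e1 : g = φ a * h⁻¹ := by rw [ha]; group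
      rw [e1, LK_mul, h3, map_smul, hWm.1 hv a]
  rcases (by omega : 2 ≤ finrank F ↥P ∨ 2 ≤ finrank F ↥Q) with h3 | h3
  · refine ⟨P, h3, fun v hv => hWm.1 (hP.1 hv).1, fun v hv g hg => ?_⟩
    obtain ⟨h4, h5⟩ := hP.1 hv
    rcases hinv h4 (e := 1) (one_mul 1) (by rw [one_smul, h5]) g hg with h6 | h6
    · exact Or.inl h6
    · rw [one_smul] at h6; exact Or.inl h6
  · refine ⟨Q, h3, fun v hv => hWm.1 (hQ.1 hv).1, fun v hv g hg => ?_⟩
    obtain ⟨h4, h5⟩ := hQ.1 hv
    rcases hinv h4 (e := -1) (by ring) (by rw [neg_one_smul, h5]) g hg with h6 | h6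
    · exact Or.inl h6
    · rw [neg_one_smul] at h6; exact Or.inr h6

/-- the involution with 32 eigenvalues 1 -/
theorem exists_z (h2 : (2 : F) ≠ 0) {x : Gh F} (hx : x * x = 1) (hx1 : ad F x ≠ 1) :
    ∃ z : Gh F, z * z = 1 ∧ ad F z = ad F x ∧ ev (V F z) 1 = 32 := by
  rcases (two h2 hx hx1).1 with h | h
  · exact ⟨x, hx, rfl, h⟩
  obtain ⟨c, c1, c2, c3⟩ := exists_neg (K := F)
  have hc : c * x = x * c := (ker_comm c2 x).symm
  have hcx : (c * x) * (c * x) = 1 := by
    have : (c * x) * (c * x) = c * (x * c) * x := by group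
    rw [this, ← hc]
    have : c * (c * x) * x = (c * c) * (x * x) := by group
    rw [this, c3, hx, mul_one]
  have had : ad F (c * x) = ad F x := by rw [map_mul, c2, one_mul]
  refine ⟨c * x, hcx, had, ?_⟩
  rcases (two h2 hcx (by rw [had]; exact hx1)).1 with h3 | h3
  · exact h3
  exfalso
  have hdim := sum_two h2 (W := (⊤ : Submodule F (D1 → F))) (P := es (V F x) 1) (Q := es (V F (c * x)) 1) (V F x) (by
    intro w _
    show _ ∈ Module.End.eigenspace _ _
    rw [Module.End.mem_eigenspace_iff, one_smul, map_add, ← V_mul, hx, V_one, add_comm]) (by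
    intro w _
    show _ ∈ Module.End.eigenspace _ _
    rw [Module.End.mem_eigenspace_iff, one_smul, V_mul, c1, map_sub, ← V_mul, hx, V_one]
    show -(V F x w - w) = _
    rw [neg_sub])
  rw [finrank_top, finrank_V] at hdim
  have h4 : finrank F ↥(es (V F x) 1) = 24 := h
  have h5 : finrank F ↥(es (V F (c * x)) 1) = 24 := h3
  omega

/-- **the lift case in characteristic 5** -/
theorem lift_five (hM : MaxAlt H 5 φ) (h5 : (5 : F) = 0) {ψ : A5 →* Gh F} (hψ : Lift φ ψ) : False := by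
  have := Fintype.ofFinite F
  have f2 : (2 : F) ≠ 0 := fun h2 => one_ne_zero (α := F) (by linear_combination 3 * h2 - h5)
  have f3 : (3 : F) ≠ 0 := fun h3 => one_ne_zero (α := F) (by linear_combination 2 * h3 - h5)
  have hch : CharP F 5 := by
    obtain ⟨p, hp⟩ := CharP.exists F
    have hpp : p.Prime := CharP.char_is_prime F p
    have h8 : p ∣ 5 := (CharP.cast_eq_zero_iff F p 5).1 (by exact_mod_cast h5)
    rwa [(Nat.prime_dvd_prime_iff_eq hpp Nat.prime_five).1 h8] at hp
  have hp5 : Fact (Nat.Prime 5) := ⟨Nat.prime_five⟩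
  have hxx : ψ a0 * ψ a0 = 1 := by rw [← map_mul, a0_sq, map_one]
  have hyy : ψ b0 ^ 3 = 1 := by rw [← map_pow, b0_cube, map_one]
  have hww : (ψ a0 * ψ b0) ^ 5 = 1 := by
    rw [← map_mul, ← map_pow]
    show ψ (w0 ^ 5) = 1
    rw [w0_pow, map_one]
  have scott := scottL f2 (hψ a0) (hψ b0)
  have e1 := two f2 hxx (x_ne hM (hψ a0))
  have e2 : 43 ≤ ev (L F (ψ b0)) 1 := by
    rcases three f3 hyy (y_ne hM (hψ b0)) with h | h | h | h | h <;> omega
  have e3 := ev_ge (p := 5) (T := L F (ψ a0 * ψ b0)) (by rw [← map_pow, hww, map_one])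
  rw [finrank_L] at e3
  have hd : 3 ≤ finrank F ↥(Representation.invariants (MonoidHom.comp (LK F) φ)) := by omega
  obtain ⟨n, -, hn⟩ := FiniteField.card F 5
  have hn1 : 1 ≤ (n : ℕ) := n.2
  rcases Nat.eq_or_lt_of_le hn1 with hn2 | hn2
  · -- the field with 5 elements
    have hcard : Nat.card F = 5 := by rw [Nat.card_eq_fintype_card, hn, ← hn2, pow_one]
    obtain ⟨P, p1, p2, p3⟩ := exists_plane f2 hM hd
    obtain ⟨v1, hv1, v2, hv2, hind⟩ := pick p1
    obtain ⟨z, z1, z2, z3⟩ := exists_z f2 hxx (x_ne hM (hψ a0))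
    rw [hψ a0] at z2
    obtain ⟨x, y, hxy, hq⟩ := quad_five hcard (Qf z v1) (8 * kf F v1 v2 - BF z v1 v2 - BF z v2 v1) (Qf z v2)
    rw [← Qf_add] at hq
    set v := x • v1 + y • v2 with hvdef
    have hvP : v ∈ P := P.add_mem (P.smul_mem _ hv1) (P.smul_mem _ hv2)
    have hv0 : v ≠ 0 := fun h => hxy (hind x y h)
    have hzv : L F z v = v := by rw [L_eq, z2]; exact p2 v hvP a0
    obtain ⟨ρ, r1, r2, r3, r4⟩ := two_e hcard z1 z3 hzv hq
    let U : Submodule F (chevE7.Idx → F) := Submodule.span F {v}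
    have hU : ∀ {g : Gh F} {c : F}, L F g v = c • v → ∀ u ∈ U, L F g u ∈ U := by
      intro g c hg u hu
      obtain ⟨t, rfl⟩ := Submodule.mem_span_singleton.1 hu
      rw [map_smul, hg]
      exact Submodule.smul_mem _ _ (Submodule.smul_mem _ _ (Submodule.mem_span_singleton_self v))
    have hstab : Stab (L F) H U := by
      intro g hg
      rcases p3 v hvP _ hg with h | h
      · exact hU (c := 1) (by rw [L_eq, h, one_smul])
      · exact hU (c := -1) (by rw [L_eq, h, neg_one_smul])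
    have hfr : finrank F ↥U = 1 := finrank_span_singleton hv0
    have hU0 : U ≠ ⊥ := by
      intro h
      rw [h, finrank_bot] at hfr
      exact absurd hfr (by norm_num)
    have hU1 : U ≠ ⊤ := by
      intro h
      rw [h, finrank_top, finrank_L] at hfr
      exact absurd hfr (by norm_num)
    have hρH : ad F ρ ∈ H := blue_of hM.coatom (irrL f2) hstab hU0 hU1 (hU (c := 1) (by rw [r2, one_smul]))
    have hρr : ad F ρ ∈ φ.range := by
      have hs := hM.sq _ hρH
      rcases r3 with r3 | r3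
      · have e : ad F ρ = (ad F ρ * ad F ρ) * (ad F ρ * ad F ρ) := by
          have : (ad F ρ * ad F ρ) * (ad F ρ * ad F ρ) = ad F (ρ ^ 3) * ad F ρ := by
            rw [map_pow]; simp only [pow_succ, pow_zero, one_mul, mul_assoc]
          rw [this, r3, map_one, one_mul]
        rw [e]
        exact mul_mem hs hs
      · have e : ad F ρ = (ad F ρ * ad F ρ) * (ad F ρ * ad F ρ) * (ad F ρ * ad F ρ) := by
          have : (ad F ρ * ad F ρ) * (ad F ρ * ad F ρ) * (ad F ρ * ad F ρ) = ad F (ρ ^ 5) * ad F ρ := by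
            rw [map_pow]; simp only [pow_succ, pow_zero, one_mul, mul_assoc]
          rw [this, r3, map_one, one_mul]
        rw [e]
        exact mul_mem (mul_mem hs hs) hs
    obtain ⟨c, hc⟩ := hρr
    have hinj := hM.inj
    have c1 : c * a0 = a0 * c := by
      apply hinj
      rw [map_mul, map_mul, hc, ← z2, ← map_mul, ← map_mul, r1]
    have hρ15 : ρ ^ 15 = 1 := by
      rcases r3 with r3 | r3
      · rw [show 15 = 3 * 5 by norm_num, pow_mul, r3, one_pow]
      · rw [show 15 = 5 * 3 by norm_num, pow_mul, r3, one_pow]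
    have c2 : c ^ 15 = 1 := by
      apply hinj
      rw [map_pow, hc, ← map_pow, hρ15, map_one, map_one]
    have c3 := a0_comm_pow c c1 c2
    apply r4
    refine odd_unique (k := 15) (by decide) ?_ hρ15 (one_pow _)
    rw [← hc, c3, map_one, map_one]
  · refine few_false f2 hM (m := 2) ?_ fun k l h1 _ => by omega
    have h25 : 25 ≤ Nat.card F := by
      rw [Nat.card_eq_fintype_card, hn]
      calc 25 = 5 ^ 2 := by norm_num
        _ ≤ 5 ^ (n : ℕ) := Nat.pow_le_pow_right (by norm_num) hn2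
    calc 274 ≤ 25 ^ 2 := by norm_num
      _ ≤ _ := Nat.pow_le_pow_left h25 2

/-- **There is no maximal subgroup with generalized Fitting subgroup `A₅`.** -/
theorem no_five (hM : MaxAlt H 5 φ) : False := by
  by_cases h5 : (5 : F) = 0
  · obtain ⟨x, y, hx, hy, hy3, hw5, hc⟩ := setup hM
    rcases hc with ⟨ψ, hψ, -⟩ | ⟨-, hcov, hx2⟩
    · exact lift_five hM h5 hψ
    · exact cover_five hM h5 hx hy hy3 hw5 hcov hx2
  · exact not_five hM h5

end

end Cfsg.Agent.R2.T1.Five
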