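import Mathlib
import Cfsg.Agent.R2.T1.Five.Grp
import Cfsg.Agent.R2.T1.Five.Lin
import Cfsg.Agent.R2.T1.Inf.LCnt
import Cfsg.Agent.R2.T1.Inf.Form
import Cfsg.Agent.R2.T1.Inf.PatF

/-!
# Lifts of the generators of `A₅` (helper25)

* `setup` : lifts `x`, `y` of the generators with `y ^ 3 = 1`, `(x y) ^ 5 = 1`;
* `stab_of` : a subspace stable under `x` and `y` is stable under the preimage of the image of `φ`;
* `scottL`, `scottV` : Scott's lemma on the two modules;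
* `small_false` : no stable subspace of dimension ≤ 2.
-/

set_option autoImplicit false
set_option linter.unusedSectionVars false
set_option maxRecDepth 100000

namespace Cfsg.Agent.R2.T1.Five

open Cfsg Cfsg.Lie Module Equiv Equiv.Perm
open Cfsg.Agent.H943.E7V.Block (D1 rho)
open Cfsg.Agent.H952.F4 (ev es MaxAlt)
open Cfsg.Agent.R2.T1

universe u

section

variable {F : Type u} [Field F] [Finite F] {H : Subgroup ↥(chevE7.group F)} {φ : A5 →* ↥(chevE7.group F)}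

/-- lifts of the generators -/
theorem setup (hM : MaxAlt H 5 φ) : ∃ x y : Gh F, ad F x = φ a0 ∧ ad F y = φ b0 ∧ y ^ 3 = 1 ∧ (x * y) ^ 5 = 1 ∧
    ((∃ ψ : A5 →* Gh F, Lift φ ψ ∧ ψ a0 = x ∧ ψ b0 = y) ∨ ((2 : F) ≠ 0 ∧ Cover φ ∧ V F (x * x) = -1)) := by
  rcases exists_lift (F := F) (by norm_num : 5 ≤ 5) hM.inj with ⟨ψ, hψ⟩ | ⟨h2, hc⟩
  · refine ⟨ψ a0, ψ b0, hψ a0, hψ b0, ?_, ?_, Or.inl ⟨ψ, hψ, rfl, rfl⟩⟩
    · rw [← map_pow, b0_cube, map_one]
    · rw [← map_mul, ← map_pow]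
      show ψ (w0 ^ 5) = 1
      rw [w0_pow, map_one]
  · obtain ⟨y, hy, hy3⟩ := odd_lift (F := F) (g := φ b0) (k := 3) (by decide) (by rw [← map_pow, b0_cube, map_one])
    obtain ⟨x, hx⟩ := ad_surjective (φ a0)
    obtain ⟨z, -, hz, hz1, -⟩ := id hc
    have hc' : Cover φ := hc
    have hzV : V F z = -1 := neg_of hz
    have h5 : ad F ((x * y) ^ 5) = 1 := by
      rw [map_pow, map_mul, hx, hy, ← map_mul, ← map_pow]
      show φ (w0 ^ 5) = 1
      rw [w0_pow, map_one]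
    rcases ker_cases hzV h5 with h | h
    · exact ⟨x, y, hx, hy, hy3, h, Or.inr ⟨h2, hc', hc'.sq (by norm_num) hM.inj a0_type hx⟩⟩
    · have hx' : ad F (z * x) = φ a0 := by rw [map_mul, hz1, one_mul, hx]
      refine ⟨z * x, y, hx', hy, hy3, ?_, Or.inr ⟨h2, hc', hc'.sq (by norm_num) hM.inj a0_type hx'⟩⟩
      have hcomm : Commute z (x * y) := (ker_comm hz1 (x * y)).symm
      have hz2 : z * z = 1 := ker_sq hz1
      rw [mul_assoc, hcomm.mul_pow, h]
      have : z ^ 5 * z = (z * z) * (z * z) * (z * z) := by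
        rw [pow_succ, pow_succ, pow_succ, pow_succ, pow_one]; group
      rw [this, hz2, mul_one, mul_one]

/-- stability -/
theorem stab_of {x y : Gh F} (hx : ad F x = φ a0) (hy : ad F y = φ b0) {U : Submodule F (D1 → F)}
    (h1 : ∀ u ∈ U, V F x u ∈ U) (h2 : ∀ u ∈ U, V F y u ∈ U) : Stab (V F) φ.range U := by
  rintro g ⟨a, ha⟩
  have key : ∃ g' ∈ St (V F) U, ad F g' = φ a := by
    have h3 : φ a ∈ (St (V F) U).map (ad F) := by
      have h4 : (⊤ : Subgroup A5) ≤ ((St (V F) U).map (ad F)).comap φ := by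
        rw [← clos, Subgroup.closure_le]
        rintro z (rfl | rfl)
        · exact ⟨x, mem_St_of h1, hx⟩
        · exact ⟨y, mem_St_of h2, hy⟩
      exact h4 (Subgroup.mem_top a)
    obtain ⟨g', h5, h6⟩ := h3
    exact ⟨g', h5, h6⟩
  obtain ⟨g', h3, h4⟩ := key
  have h5 : ad F (g * g'⁻¹) = 1 := by rw [map_mul, map_inv, h4, ha, mul_inv_cancel]
  intro u hu
  have h6 : V F g u = V F (g * g'⁻¹) (V F g' u) := by rw [← V_mul, inv_mul_cancel_right]
  rw [h6]
  have h7 : V F g' u ∈ U := (h3 u).2 hu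
  rcases ad_eq_one_iff.1 h5 with h8 | h8
  · rw [h8]; exact h7
  · rw [h8]; exact U.neg_mem h7

/-- no stable subspace of dimension at most 2 if `H` is the image of `φ` -/
theorem small_false (hM : MaxAlt H 5 φ) (hH : H = φ.range) {x y : Gh F} (hx : ad F x = φ a0) (hy : ad F y = φ b0)
    {U : Submodule F (D1 → F)} (h0 : U ≠ ⊥) (hU : finrank F ↥U ≤ 2)
    (h1 : ∀ u ∈ U, V F x u ∈ U) (h2 : ∀ u ∈ U, V F y u ∈ U) : False := by
  have h3 : Stab (V F) H U := by rw [hH]; exact stab_of hx hy h1 h2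
  have h4 := three_le hM (by norm_num) (Or.inr (by norm_num)) h3 h0
  omega

/-- Scott's lemma on the adjoint module -/
theorem scottL (h2 : (2 : F) ≠ 0) {x y : Gh F} (hx : ad F x = φ a0) (hy : ad F y = φ b0) :
    ev (L F x) 1 + ev (L F y) 1 + ev (L F (x * y)) 1 ≤
      133 + 2 * finrank F ↥(Representation.invariants (MonoidHom.comp (LK F) φ)) := by
  have h := Cfsg.Agent.H952.F4.Scott.scott_form (MonoidHom.comp (LK F) φ) (x := a0) (y := b0) clos (kf F)
    (fun v hv => kf_nondeg h2 fun w => by rw [kf_comm]; exact hv w) (fun g v w => by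
      obtain ⟨g', hg'⟩ := ad_surjective (φ g)
      have h3 := kf_L g' v w
      rw [L_eq, hg'] at h3
      exact h3)
  rw [finrank_L] at h
  have e1 : ev ((MonoidHom.comp (LK F) φ) a0) 1 = ev (L F x) 1 := by rw [L_eq, hx]; rfl
  have e2 : ev ((MonoidHom.comp (LK F) φ) b0) 1 = ev (L F y) 1 := by rw [L_eq, hy]; rfl
  have e3 : ev ((MonoidHom.comp (LK F) φ) (a0 * b0)) 1 = ev (L F (x * y)) 1 := by
    rw [L_eq, map_mul (ad F), hx, hy, ← map_mul φ]; rfl
  rw [e1, e2, e3] at h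
  exact h

/-- Scott's lemma on the module of degree 56 -/
theorem scottV {ψ : A5 →* Gh F} (hψ : Lift φ ψ) (hM : MaxAlt H 5 φ) :
    ev (V F (ψ a0)) 1 + ev (V F (ψ b0)) 1 + ev (V F (ψ a0 * ψ b0)) 1 ≤ 56 := by
  have h := Cfsg.Agent.H952.F4.Scott.scott_form (MonoidHom.comp (V F) ψ) (x := a0) (y := b0) clos (sf F)
    (fun v hv => sf_nondeg' hv) (fun g v w => sf_V _ v w)
  rw [finrank_V, no_fixed hM (by norm_num) (by norm_num) hψ, finrank_bot, mul_zero, add_zero] at h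
  have e3 : ev ((MonoidHom.comp (V F) ψ) (a0 * b0)) 1 = ev (V F (ψ a0 * ψ b0)) 1 := by
    rw [← map_mul]; rfl
  rw [e3] at h
  exact h

/-- twisted Scott lemma -/
theorem tw_small {x y : Gh F} {τ : F} (hτ : τ * τ + τ - 1 = 0) (hx2 : V F (x * x) = -1)
    (h : 56 < finrank F ↥(LinearMap.ker (qd (-1) (V F y))) + finrank F ↥(LinearMap.ker (qd τ (V F (x * y))))) :
    ∃ U : Submodule F (D1 → F), U ≠ ⊥ ∧ finrank F ↥U ≤ 2 ∧ (∀ u ∈ U, V F x u ∈ U) ∧ (∀ u ∈ U, V F y u ∈ U) := by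
  refine exists_small (V F) (sf F) (fun v hv => sf_nondeg' hv) (fun g v w => sf_V g v w) hτ ?_
  rw [ker_qd_sq (T := V F x) (by rw [← map_mul, hx2]), finrank_V]
  omega

end

end Cfsg.Agent.R2.T1.Five
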